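import Mathlib
import Cfsg.Prelude.Def_LieTypeDatum
import Cfsg.Agent.Lib.Helper13.Symp
import Cfsg.Agent.Lib.Helper13.SpPrim
import Cfsg.Agent.Lib.Helper40.SympCenter

set_option autoImplicit false

/-!
# Automorphisms of `PSp_{2m}(F)`: basic material

The quotient map, symplectic transvections, the standard hyperbolic pair and the
unipotent radical `E(w, c)` of the stabiliser of the first basis vector.
-/

namespace Cfsg.Agent.Lib.Helper43.AutPSp

open Matrix Cfsg.Agent.Lib.Helper13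

variable {m : ℕ} {F : Type*} [Field F]

local notation "V" => Fin m ⊕ Fin m → F
local notation "Mx" => Matrix (Fin m ⊕ Fin m) (Fin m ⊕ Fin m) F
set_option quotPrecheck false in
local notation "Sp" => ↥(Matrix.symplecticGroup (Fin m) F)
local notation "PSpm" => Cfsg.PSp m F
local notation "B" => Cfsg.sympForm m F

/-! ### The action on vectors -/

theorem mulVec_mul (A C : Sp) (v : V) : (A * C).1 *ᵥ v = A.1 *ᵥ (C.1 *ᵥ v) := by
  rw [Submonoid.coe_mul, Matrix.mulVec_mulVec]

theorem mulVec_one (v : V) : (1 : Sp).1 *ᵥ v = v := Matrix.one_mulVec v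

theorem inv_mulVec (A : Sp) (v : V) : (A⁻¹).1 *ᵥ (A.1 *ᵥ v) = v := by
  rw [← mulVec_mul, inv_mul_cancel, mulVec_one]

theorem mulVec_inv (A : Sp) (v : V) : A.1 *ᵥ ((A⁻¹).1 *ᵥ v) = v := by
  rw [← mulVec_mul, mul_inv_cancel, mulVec_one]

theorem sp_ext {A C : Sp} (h : ∀ v : V, A.1 *ᵥ v = C.1 *ᵥ v) : A = C := by
  apply Subtype.ext
  ext i j
  have := congrFun (h (Pi.single j 1)) i
  simpa [Matrix.mulVec_single_one] using this

theorem B_sp (A : Sp) (u v : V) : B (A.1 *ᵥ u) (A.1 *ᵥ v) = B u v :=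
  sympForm_mulVec_of_mem m A.2 u v

theorem B_sp_inv (A : Sp) (u v : V) : B ((A⁻¹).1 *ᵥ u) v = B u (A.1 *ᵥ v) := by
  rw [← B_sp A, mulVec_inv]

theorem mulVec_ne_zero (A : Sp) {v : V} (hv : v ≠ 0) : A.1 *ᵥ v ≠ 0 := by
  intro h
  apply hv
  rw [← inv_mulVec A v, h, Matrix.mulVec_zero]

/-- `-1` as a symplectic matrix. -/
def negS : Sp := ⟨-1, SymplecticGroup.neg_mem (Submonoid.one_mem _)⟩

theorem negS_coe : (negS : Sp).1 = (-1 : Mx) := rfl

theorem negS_mul_coe (A : Sp) : (negS * A).1 = -A.1 := by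
  rw [Submonoid.coe_mul, negS_coe, neg_one_mul]

theorem negS_mulVec (A : Sp) (v : V) : (negS * A).1 *ᵥ v = -(A.1 *ᵥ v) := by
  rw [negS_mul_coe, Matrix.neg_mulVec]

theorem negS_mem_center : (negS : Sp) ∈ Subgroup.center Sp := by
  rw [Subgroup.mem_center_iff]
  intro g
  apply Subtype.ext
  rw [Submonoid.coe_mul, Submonoid.coe_mul, negS_coe, mul_neg, neg_mul, mul_one, one_mul]

theorem negS_comm (A : Sp) : negS * A = A * negS :=
  (Subgroup.mem_center_iff.mp negS_mem_center A).symm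

theorem negS_mul_self : (negS : Sp) * negS = 1 := by
  apply Subtype.ext
  rw [Submonoid.coe_mul, negS_coe, neg_mul_neg, one_mul]
  rfl

/-! ### The quotient map -/

/-- The projection `Sp → PSp`. -/
def pm : Sp →* PSpm := QuotientGroup.mk' _

theorem pm_surjective : Function.Surjective (pm (m := m) (F := F)) :=
  QuotientGroup.mk'_surjective _

theorem pm_negS_mul (A : Sp) : pm (negS * A) = pm A := by
  rw [map_mul]
  have : pm (negS : Sp) = 1 := (QuotientGroup.eq_one_iff _).mpr negS_mem_center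
  rw [this, one_mul]

theorem pm_eq_iff (hm : 1 ≤ m) (A C : Sp) : pm A = pm C ↔ A = C ∨ A = negS * C := by
  constructor
  · intro h
    have h1 : A⁻¹ * C ∈ Subgroup.center Sp := QuotientGroup.eq.mp h
    obtain ⟨a, ha, hz⟩ := Cfsg.Agent.Lib.Helper40.center_scalar m hm _ h1
    have hC : C.1 = a • A.1 := by
      have : C.1 = A.1 * (A⁻¹ * C).1 := by
        rw [← Submonoid.coe_mul, mul_inv_cancel_left]
      rw [this, hz, Matrix.mul_smul, Matrix.mul_one]
    rcases mul_self_eq_one_iff.mp ha with rfl | rfl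
    · left
      apply Subtype.ext
      rw [hC, one_smul]
    · right
      apply Subtype.ext
      rw [negS_mul_coe, hC, neg_smul, one_smul, neg_neg]
  · rintro (rfl | rfl)
    · rfl
    · exact pm_negS_mul C

/-- If two symplectic matrices with the same image in `PSp` fix a common non-zero vector, they
are equal. -/
theorem eq_of_pm_eq_of_fix (hm : 1 ≤ m) {A C : Sp} (h : pm A = pm C) {x : V} (hx : x ≠ 0)
    (h1 : A.1 *ᵥ x = x) (h2 : C.1 *ᵥ x = x) : A = C := by
  rcases (pm_eq_iff hm A C).mp h with h | h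
  · exact h
  · have h3 : x = -x := by
      have := congrArg (fun M : Sp => M.1 *ᵥ x) h
      simp only [negS_mulVec, h1, h2] at this
      exact this
    have h4 : (2 : F) • x = 0 := by
      rw [two_smul]
      nth_rewrite 1 [h3]
      exact neg_add_cancel x
    have h5 : (2 : F) = 0 := by
      rcases smul_eq_zero.mp h4 with h | h
      · exact h
      · exact absurd h hx
    have h6 : (-1 : F) = 1 := by
      rw [neg_eq_iff_add_eq_zero, one_add_one_eq_two, h5]
    rw [h]
    apply Subtype.ext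
    rw [negS_mul_coe]
    have : (-C.1 : Mx) = (-1 : F) • C.1 := by rw [neg_smul, one_smul]
    rw [this, h6, one_smul]

/-! ### Transvections -/

/-- The symplectic transvection `x ↦ x + c B(x, u) u`. -/
def tvS (u : V) (c : F) : Sp := ⟨Cfsg.sympTransvection m u c, sympTransvection_mem m u c⟩

theorem tvS_mulVec (u : V) (c : F) (x : V) : (tvS u c).1 *ᵥ x = x + (c * B x u) • u :=
  sympTransvection_mulVec m u c x

theorem conj_tvS (g : Sp) (u : V) (c : F) : g * tvS u c * g⁻¹ = tvS (g.1 *ᵥ u) c := by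
  apply sp_ext
  intro x
  rw [mulVec_mul, mulVec_mul, tvS_mulVec, tvS_mulVec, Matrix.mulVec_add, mulVec_inv,
    Matrix.mulVec_smul, B_sp_inv]

theorem tvS_mul (u : V) (c d : F) : tvS u c * tvS u d = tvS u (c + d) := by
  apply sp_ext
  intro x
  rw [mulVec_mul, tvS_mulVec, tvS_mulVec, tvS_mulVec, sympForm_add_left, sympForm_smul_left,
    sympForm_self]
  module

theorem tvS_zero (u : V) : tvS u (0 : F) = 1 := by
  apply sp_ext
  intro x
  rw [tvS_mulVec, mulVec_one, zero_mul, zero_smul, add_zero]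

theorem tvS_zero_left (c : F) : tvS (0 : V) c = 1 := by
  apply sp_ext
  intro x
  rw [tvS_mulVec, mulVec_one, smul_zero, add_zero]

theorem tvS_inv (u : V) (c : F) : (tvS u c)⁻¹ = tvS u (-c) := by
  rw [inv_eq_iff_mul_eq_one, tvS_mul, add_neg_cancel, tvS_zero]

theorem tvS_smul (a : F) (u : V) (c : F) : tvS (a • u) c = tvS u (a * a * c) := by
  apply sp_ext
  intro x
  rw [tvS_mulVec, tvS_mulVec, sympForm_smul_right]
  module

theorem tvS_neg (u : V) (c : F) : tvS (-u) c = tvS u c := by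
  have := tvS_smul (-1 : F) u c
  rw [neg_smul, one_smul] at this
  rw [this]
  congr 1
  ring

theorem tvS_pow (u : V) (c : F) (n : ℕ) : tvS u c ^ n = tvS u (n * c) := by
  induction n with
  | zero => rw [pow_zero, Nat.cast_zero, zero_mul, tvS_zero]
  | succ k ih =>
    rw [pow_succ, ih, tvS_mul]
    congr 1
    push_cast
    ring

/-- Two transvections with perpendicular centres commute. -/
theorem tvS_comm {u v : V} (h : B u v = 0) (c d : F) :
    tvS u c * tvS v d = tvS v d * tvS u c := by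
  have h' : B v u = 0 := by rw [sympForm_swap, h, neg_zero]
  apply sp_ext
  intro x
  rw [mulVec_mul, mulVec_mul, tvS_mulVec, tvS_mulVec, tvS_mulVec, tvS_mulVec]
  simp only [sympForm_add_left, sympForm_smul_left, h, h']
  module

/-! ### Perpendicular vectors -/

theorem B_swap_zero {u v : V} (h : B u v = 0) : B v u = 0 := by
  rw [sympForm_swap, h, neg_zero]

theorem B_neg_left (u v : V) : B (-u) v = -B u v := by
  have := sympForm_smul_left m (-1 : F) u v
  rwa [neg_smul, one_smul, neg_one_mul] at this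

theorem B_neg_right (u v : V) : B u (-v) = -B u v := by
  have := sympForm_smul_right m (-1 : F) u v
  rwa [neg_smul, one_smul, neg_one_mul] at this

/-- Two vectors have a common non-zero perpendicular vector when `m ≥ 2`. -/
theorem exists_perp2 (hm : 2 ≤ m) (a b : V) : ∃ x : V, x ≠ 0 ∧ B x a = 0 ∧ B x b = 0 := by
  let L : V →ₗ[F] (Fin 2 → F) :=
    (Matrix.of ![Matrix.J (Fin m) F *ᵥ a, Matrix.J (Fin m) F *ᵥ b]).mulVecLin
  have hker : LinearMap.ker L ≠ ⊥ := by
    apply LinearMap.ker_ne_bot_of_finrank_lt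
    rw [Module.finrank_fin_fun, Module.finrank_fintype_fun_eq_card, Fintype.card_sum,
      Fintype.card_fin]
    omega
  obtain ⟨x, hx, hx0⟩ := (Submodule.ne_bot_iff _).mp hker
  refine ⟨x, hx0, ?_, ?_⟩
  · have := congrFun (LinearMap.mem_ker.mp hx) 0
    unfold Cfsg.sympForm
    rw [dotProduct_comm]
    exact this
  · have := congrFun (LinearMap.mem_ker.mp hx) 1
    unfold Cfsg.sympForm
    rw [dotProduct_comm]
    exact this

theorem exists_B_ne_zero {u : V} (hu : u ≠ 0) : ∃ y : V, B y u ≠ 0 := by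
  obtain ⟨a, ha⟩ := sympForm_exists_ne_zero u hu
  refine ⟨a, ?_⟩
  rw [sympForm_swap]
  exact neg_ne_zero.mpr ha

/-- A vector perpendicular to everything is zero. -/
theorem eq_zero_of_perp {u : V} (h : ∀ y : V, B y u = 0) : u = 0 := by
  by_contra hu
  obtain ⟨y, hy⟩ := exists_B_ne_zero hu
  exact hy (h y)

/-! ### Parallel vectors -/

/-- `v` is a non-zero multiple of `u`. -/
def Par (u v : V) : Prop := ∃ a : F, a ≠ 0 ∧ v = a • u

theorem Par.rfl' (u : V) : Par u u := ⟨1, one_ne_zero, (one_smul F u).symm⟩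

theorem Par.symm {u v : V} (h : Par u v) : Par v u := by
  obtain ⟨a, ha, rfl⟩ := h
  exact ⟨a⁻¹, inv_ne_zero ha, by rw [smul_smul, inv_mul_cancel₀ ha, one_smul]⟩

theorem Par.trans {u v w : V} (h₁ : Par u v) (h₂ : Par v w) : Par u w := by
  obtain ⟨a, ha, rfl⟩ := h₁
  obtain ⟨b, hb, rfl⟩ := h₂
  exact ⟨b * a, mul_ne_zero hb ha, by rw [smul_smul]⟩

theorem Par.ne_zero {u v : V} (h : Par u v) (hu : u ≠ 0) : v ≠ 0 := by
  obtain ⟨a, ha, rfl⟩ := h
  exact smul_ne_zero ha hu

theorem Par.perp_iff {u v : V} (h : Par u v) (y : V) : B v y = 0 ↔ B u y = 0 := by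
  obtain ⟨a, ha, rfl⟩ := h
  rw [sympForm_smul_left, mul_eq_zero]
  exact ⟨fun h => h.resolve_left ha, fun h => Or.inr h⟩

theorem Par.perp_iff' {u v : V} (h : Par u v) (y : V) : B y v = 0 ↔ B y u = 0 := by
  obtain ⟨a, ha, rfl⟩ := h
  rw [sympForm_smul_right, mul_eq_zero]
  exact ⟨fun h => h.resolve_left ha, fun h => Or.inr h⟩

theorem Par.mulVec {u v : V} (h : Par u v) (A : Mx) : Par (A *ᵥ u) (A *ᵥ v) := by
  obtain ⟨a, ha, rfl⟩ := h
  exact ⟨a, ha, Matrix.mulVec_smul _ _ _⟩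

/-- Two non-zero vectors with the same perpendicular space are parallel. -/
theorem par_of_perp_imp {u v : V} (hu : u ≠ 0) (hv : v ≠ 0)
    (h : ∀ y : V, B u y = 0 → B v y = 0) : Par u v := by
  by_contra hpar
  have h1 : ∀ c : F, v ≠ c • u := by
    intro c hc
    apply hpar
    refine ⟨c, ?_, hc⟩
    rintro rfl
    rw [zero_smul] at hc
    exact hv hc
  obtain ⟨w, hw1, hw2⟩ := sympForm_separate u v hu h1
  exact hw2 (h w hw1)

/-! ### Root subgroups in `PSp` -/

/-- The image in `PSp` of the transvection group with centre `u`. -/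
def Rt (u : V) : Set PSpm := {x | ∃ c : F, pm (tvS u c) = x}

theorem mem_Rt {u : V} {x : PSpm} : x ∈ Rt u ↔ ∃ c : F, pm (tvS u c) = x := Iff.rfl

theorem one_mem_Rt (u : V) : (1 : PSpm) ∈ Rt u := ⟨0, by rw [tvS_zero, map_one]⟩

theorem Rt_smul {a : F} (ha : a ≠ 0) (u : V) : Rt (a • u) = Rt u := by
  ext x
  constructor
  · rintro ⟨c, rfl⟩
    exact ⟨a * a * c, by rw [tvS_smul]⟩
  · rintro ⟨c, rfl⟩
    refine ⟨c / (a * a), ?_⟩
    rw [tvS_smul]
    congr 2
    field_simp

theorem Rt_eq_of_par {u v : V} (h : Par u v) : Rt u = Rt v := by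
  obtain ⟨a, ha, rfl⟩ := h
  exact (Rt_smul ha u).symm

theorem conj_mem_Rt (g : Sp) {u : V} {x : PSpm} (hx : x ∈ Rt u) :
    pm g * x * (pm g)⁻¹ ∈ Rt (g.1 *ᵥ u) := by
  obtain ⟨c, rfl⟩ := hx
  exact ⟨c, by rw [← conj_tvS, map_mul, map_mul, map_inv]⟩

theorem conj_Rt (g : Sp) (u : V) :
    (fun x => pm g * x * (pm g)⁻¹) '' Rt u = Rt (g.1 *ᵥ u) := by
  apply Set.Subset.antisymm
  · rintro _ ⟨x, hx, rfl⟩
    exact conj_mem_Rt g hx
  · intro y hy
    refine ⟨(pm g)⁻¹ * y * pm g, ?_, by group⟩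
    have := conj_mem_Rt g⁻¹ hy
    rwa [inv_mulVec, map_inv, inv_inv] at this

theorem tvS_fix {u x : V} (h : B x u = 0) (c : F) : (tvS u c).1 *ᵥ x = x := by
  rw [tvS_mulVec, h, mul_zero, zero_smul, add_zero]

theorem tvS_eq_of_pm_eq (hm : 2 ≤ m) {u v : V} {c d : F} (h : pm (tvS u c) = pm (tvS v d)) :
    tvS u c = tvS v d := by
  obtain ⟨x, hx, h1, h2⟩ := exists_perp2 hm u v
  exact eq_of_pm_eq_of_fix (by omega) h hx (tvS_fix h1 c) (tvS_fix h2 d)

theorem tvS_ne_one {u : V} (hu : u ≠ 0) {c : F} (hc : c ≠ 0) : tvS u c ≠ 1 := by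
  intro h
  obtain ⟨y, hy⟩ := exists_B_ne_zero hu
  have := congrArg (fun M : Sp => M.1 *ᵥ y) h
  simp only [tvS_mulVec, mulVec_one] at this
  have h2 : (c * B y u) • u = 0 := by
    have := sub_eq_zero.mpr this
    rwa [add_sub_cancel_left] at this
  rcases smul_eq_zero.mp h2 with h3 | h3
  · exact (mul_ne_zero hc hy) h3
  · exact hu h3

theorem pm_tvS_ne_one (hm : 2 ≤ m) {u : V} (hu : u ≠ 0) {c : F} (hc : c ≠ 0) :
    pm (tvS u c) ≠ 1 := by
  intro h
  apply tvS_ne_one hu hc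
  have h1 : pm (tvS u c) = pm (tvS u 0) := by rw [h, tvS_zero, map_one]
  rw [tvS_eq_of_pm_eq hm h1, tvS_zero]

/-- Equal non-trivial transvections have parallel centres. -/
theorem par_of_tvS_eq {u v : V} (hu : u ≠ 0) {c d : F} (hc : c ≠ 0)
    (h : tvS u c = tvS v d) : Par v u := by
  obtain ⟨y, hy⟩ := exists_B_ne_zero hu
  have := congrArg (fun M : Sp => M.1 *ᵥ y) h
  simp only [tvS_mulVec] at this
  have h2 : (c * B y u) • u = (d * B y v) • v := add_left_cancel this
  have h3 : u = ((c * B y u)⁻¹ * (d * B y v)) • v := by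
    rw [← smul_smul, ← h2, smul_smul, inv_mul_cancel₀ (mul_ne_zero hc hy), one_smul]
  refine ⟨_, ?_, h3⟩
  intro h0
  rw [h0, zero_smul] at h3
  exact hu h3

theorem par_of_Rt_eq (hm : 2 ≤ m) {u v : V} (hu : u ≠ 0) (h : Rt u = Rt v) : Par v u := by
  have h1 : pm (tvS u 1) ∈ Rt v := by
    rw [← h]
    exact ⟨1, rfl⟩
  obtain ⟨d, hd⟩ := h1
  exact par_of_tvS_eq hu one_ne_zero (tvS_eq_of_pm_eq hm hd).symm

/-- Root subgroups commute exactly when their centres are perpendicular. -/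
theorem comm_iff_perp (hm : 2 ≤ m) {u v : V} (hu : u ≠ 0) {c d : F} (hc : c ≠ 0)
    (hd : d ≠ 0) :
    pm (tvS u c) * pm (tvS v d) = pm (tvS v d) * pm (tvS u c) ↔ B u v = 0 := by
  constructor
  · intro h
    rw [← map_mul, ← map_mul] at h
    obtain ⟨x, hx, h1, h2⟩ := exists_perp2 hm u v
    have h3 : tvS u c * tvS v d = tvS v d * tvS u c := by
      apply eq_of_pm_eq_of_fix (by omega) h hx
      · rw [mulVec_mul, tvS_fix h2, tvS_fix h1]
      · rw [mulVec_mul, tvS_fix h1, tvS_fix h2]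
    have h4 := congrArg (fun M : Sp => M.1 *ᵥ u) h3
    simp only [mulVec_mul, tvS_mulVec, sympForm_add_left, sympForm_smul_left, sympForm_self,
      mul_zero, zero_smul, add_zero] at h4
    by_contra hne
    have h5 : (c * (d * B u v * B v u)) • u = 0 := by
      have := sub_eq_zero.mpr h4
      rw [← this]
      module
    rcases smul_eq_zero.mp h5 with h6 | h6
    · have : B v u ≠ 0 := by
        rw [sympForm_swap]
        exact neg_ne_zero.mpr hne
      exact (mul_ne_zero hc (mul_ne_zero (mul_ne_zero hd hne) this)) h6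
    · exact hu h6
  · intro h
    rw [← map_mul, ← map_mul, tvS_comm h]

theorem Rt_comm_iff (hm : 2 ≤ m) {u v : V} (hu : u ≠ 0) :
    (∀ x ∈ Rt u, ∀ y ∈ Rt v, x * y = y * x) ↔ B u v = 0 := by
  constructor
  · intro h
    exact (comm_iff_perp hm hu one_ne_zero one_ne_zero).mp (h _ ⟨1, rfl⟩ _ ⟨1, rfl⟩)
  · rintro h x ⟨c, rfl⟩ y ⟨d, rfl⟩
    rw [← map_mul, ← map_mul, tvS_comm h]

end Cfsg.Agent.Lib.Helper43.AutPSp
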