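import Mathlib
import Cfsg.Agent.Lib.Helper43.AutPSp.Basic

set_option autoImplicit false

/-!
# The standard hyperbolic pair and the radical `E(w, c)`
-/

namespace Cfsg.Agent.Lib.Helper43.AutPSp

open Matrix Cfsg.Agent.Lib.Helper13

variable {m : ℕ} {F : Type*} [Field F] [NeZero m]

local notation "V" => Fin m ⊕ Fin m → F
local notation "Mx" => Matrix (Fin m ⊕ Fin m) (Fin m ⊕ Fin m) F
set_option quotPrecheck false in
local notation "Sp" => ↥(Matrix.symplecticGroup (Fin m) F)
local notation "PSpm" => Cfsg.PSp m F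
local notation "B" => Cfsg.sympForm m F

/-- The first basis vector. -/
def e0 : V := Pi.single (Sum.inl 0) 1

/-- Its hyperbolic partner. -/
def f0 : V := Pi.single (Sum.inr 0) 1

theorem B_e0 (x : V) : B x e0 = x (Sum.inr 0) := by
  rw [sympForm_eq]
  simp [e0, Pi.single_apply]

theorem B_f0 (x : V) : B x f0 = - x (Sum.inl 0) := by
  rw [sympForm_eq]
  simp [f0, Pi.single_apply]

theorem B_f0_e0 : B (f0 : V) e0 = 1 := by
  rw [B_e0]
  simp [f0]

theorem B_e0_f0 : B (e0 : V) f0 = -1 := by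
  rw [B_f0]
  simp [e0]

theorem B_e0_left (x : V) : B e0 x = - x (Sum.inr 0) := by
  rw [sympForm_swap, B_e0]

theorem B_f0_left (x : V) : B f0 x = x (Sum.inl 0) := by
  rw [sympForm_swap, B_f0, neg_neg]

theorem e0_ne_zero : (e0 : V) ≠ 0 := by
  intro h
  have := congrFun h (Sum.inl 0)
  simp [e0] at this

theorem f0_ne_zero : (f0 : V) ≠ 0 := by
  intro h
  have := congrFun h (Sum.inr 0)
  simp [f0] at this

/-- The orthogonal complement of the hyperbolic pair. -/
def InW (w : V) : Prop := B w e0 = 0 ∧ B w f0 = 0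

theorem InW.zero : InW (0 : V) := ⟨sympForm_zero_left m _, sympForm_zero_left m _⟩

theorem InW.add {w w' : V} (h : InW w) (h' : InW w') : InW (w + w') :=
  ⟨by rw [sympForm_add_left, h.1, h'.1, add_zero], by rw [sympForm_add_left, h.2, h'.2, add_zero]⟩

theorem InW.smul {w : V} (h : InW w) (a : F) : InW (a • w) :=
  ⟨by rw [sympForm_smul_left, h.1, mul_zero], by rw [sympForm_smul_left, h.2, mul_zero]⟩

theorem InW.neg {w : V} (h : InW w) : InW (-w) := by
  have := h.smul (-1)
  rwa [neg_smul, one_smul] at this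

theorem InW.sub {w w' : V} (h : InW w) (h' : InW w') : InW (w - w') := by
  rw [sub_eq_add_neg]
  exact h.add h'.neg

theorem InW.e0_left {w : V} (h : InW w) : B e0 w = 0 := B_swap_zero h.1

theorem InW.f0_left {w : V} (h : InW w) : B f0 w = 0 := B_swap_zero h.2

/-- The projection to the complement. -/
def prW (v : V) : V := v - B f0 v • e0 - B v e0 • f0

theorem prW_inW (v : V) : InW (prW v) := by
  constructor
  · unfold prW
    rw [sympForm_sub_left, sympForm_sub_left, sympForm_smul_left, sympForm_smul_left,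
      sympForm_self, B_f0_e0]
    ring
  · unfold prW
    rw [sympForm_sub_left, sympForm_sub_left, sympForm_smul_left, sympForm_smul_left,
      sympForm_self, B_e0_f0, sympForm_swap m f0 v]
    ring

theorem decomp (v : V) : v = B f0 v • e0 + B v e0 • f0 + prW v := by
  unfold prW
  module

theorem prW_of_inW {w : V} (h : InW w) : prW w = w := by
  unfold prW
  rw [h.f0_left, h.1, zero_smul, zero_smul, sub_zero, sub_zero]

theorem B_prW (v y : V) (hy : InW y) : B (prW v) y = B v y := by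
  unfold prW
  rw [sympForm_sub_left, sympForm_sub_left, sympForm_smul_left, sympForm_smul_left, hy.e0_left,
    hy.f0_left, mul_zero, mul_zero, sub_zero, sub_zero]

theorem prW_add (u v : V) : prW (u + v) = prW u + prW v := by
  unfold prW
  rw [sympForm_add_right, sympForm_add_left]
  module

theorem prW_smul (a : F) (v : V) : prW (a • v) = a • prW v := by
  unfold prW
  rw [sympForm_smul_right, sympForm_smul_left]
  module

theorem prW_e0 : prW (e0 : V) = 0 := by
  unfold prW
  rw [B_f0_e0, sympForm_self]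
  module

theorem prW_f0 : prW (f0 : V) = 0 := by
  unfold prW
  rw [B_f0_e0, sympForm_self]
  module

theorem B_prW' (v y : V) (hy : InW y) : B y (prW v) = B y v := by
  rw [sympForm_swap, B_prW v y hy, ← sympForm_swap]

/-- A vector of the complement perpendicular to the complement is zero. -/
theorem eq_zero_of_inW_perp {w : V} (hw : InW w) (h : ∀ y : V, InW y → B y w = 0) : w = 0 := by
  apply eq_zero_of_perp
  intro y
  rw [decomp y, sympForm_add_left, sympForm_add_left, sympForm_smul_left, sympForm_smul_left,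
    hw.e0_left, hw.f0_left, h _ (prW_inW y)]
  ring

/-- Two symplectic matrices agreeing on the hyperbolic pair and its complement are equal. -/
theorem sp_ext_frame {A C : Sp} (he : A.1 *ᵥ e0 = C.1 *ᵥ e0) (hf : A.1 *ᵥ f0 = C.1 *ᵥ f0)
    (hw : ∀ w : V, InW w → A.1 *ᵥ w = C.1 *ᵥ w) : A = C := by
  apply sp_ext
  intro v
  rw [decomp v, Matrix.mulVec_add, Matrix.mulVec_add, Matrix.mulVec_smul, Matrix.mulVec_smul,
    Matrix.mulVec_add, Matrix.mulVec_add, Matrix.mulVec_smul, Matrix.mulVec_smul, he, hf,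
    hw _ (prW_inW v)]

/-! ### The radical -/

/-- The element `x ↦ x + B(x,e) w + B(x,w) e + c B(x,e) e`. -/
def Em (w : V) (c : F) : Sp := tvS (e0 + w) 1 * tvS w (-1) * tvS e0 (c - 1)

theorem Em_mulVec {w : V} (hw : InW w) (c : F) (x : V) :
    (Em w c).1 *ᵥ x = x + B x e0 • w + B x w • e0 + (c * B x e0) • e0 := by
  unfold Em
  rw [mulVec_mul, mulVec_mul, tvS_mulVec, tvS_mulVec, tvS_mulVec]
  simp only [sympForm_add_left, sympForm_add_right, sympForm_smul_left, sympForm_self, hw.1,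
    hw.e0_left]
  module

theorem Em_e0 {w : V} (hw : InW w) (c : F) : (Em w c).1 *ᵥ e0 = e0 := by
  rw [Em_mulVec hw, sympForm_self, hw.e0_left]
  module

theorem Em_f0 {w : V} (hw : InW w) (c : F) : (Em w c).1 *ᵥ f0 = f0 + w + c • e0 := by
  rw [Em_mulVec hw, B_f0_e0, hw.f0_left]
  module

theorem Em_inW {w y : V} (hw : InW w) (hy : InW y) (c : F) :
    (Em w c).1 *ᵥ y = y + B y w • e0 := by
  rw [Em_mulVec hw, hy.1]
  module

theorem Em_mul {w w' : V} (hw : InW w) (hw' : InW w') (c c' : F) :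
    Em w c * Em w' c' = Em (w + w') (c + c' + B w' w) := by
  apply sp_ext
  intro x
  rw [mulVec_mul, Em_mulVec hw', Em_mulVec hw, Em_mulVec (hw.add hw')]
  simp only [sympForm_add_left, sympForm_add_right, sympForm_smul_left, sympForm_self, hw.1,
    hw'.1, hw.e0_left, hw'.e0_left]
  module

theorem Em_zero (c : F) : Em (0 : V) c = tvS e0 c := by
  apply sp_ext
  intro x
  rw [Em_mulVec InW.zero, tvS_mulVec, sympForm_zero_right]
  module

theorem Em_zero_zero : Em (0 : V) (0 : F) = 1 := by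
  rw [Em_zero, tvS_zero]

theorem Em_inv {w : V} (hw : InW w) (c : F) : (Em w c)⁻¹ = Em (-w) (-c) := by
  rw [inv_eq_iff_mul_eq_one, Em_mul hw hw.neg, B_neg_left, sympForm_self]
  have h1 : w + -w = 0 := add_neg_cancel w
  have h2 : c + -c + -0 = (0 : F) := by ring
  rw [h1, h2, Em_zero_zero]

theorem Em_pow {w : V} (hw : InW w) (c : F) (n : ℕ) :
    Em w c ^ n = Em ((n : F) • w) (n * c) := by
  induction n with
  | zero => rw [pow_zero, Nat.cast_zero, zero_smul, zero_mul, Em_zero_zero]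
  | succ k ih =>
    rw [pow_succ, ih, Em_mul (hw.smul _) hw, sympForm_smul_right, sympForm_self]
    congr 1
    · push_cast
      module
    · push_cast
      ring

theorem Em_inj {w w' : V} (hw : InW w) (hw' : InW w') {c c' : F} (h : Em w c = Em w' c') :
    w = w' ∧ c = c' := by
  have h1 := congrArg (fun M : Sp => M.1 *ᵥ f0) h
  simp only [Em_f0 hw, Em_f0 hw'] at h1
  have h2 : c = c' := by
    have := congrArg (fun v : V => B f0 v) h1
    simp only [sympForm_add_right, sympForm_smul_right, sympForm_self, hw.f0_left, hw'.f0_left,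
      B_f0_e0] at this
    simpa using this
  subst h2
  refine ⟨?_, rfl⟩
  have := add_right_cancel h1
  exact add_left_cancel this

theorem pm_Em_inj (hm : 1 ≤ m) {w w' : V} (hw : InW w) (hw' : InW w') {c c' : F}
    (h : pm (Em w c) = pm (Em w' c')) : w = w' ∧ c = c' :=
  Em_inj hw hw' (eq_of_pm_eq_of_fix hm h e0_ne_zero (Em_e0 hw c) (Em_e0 hw' c'))

/-- An element fixing `e0` and acting trivially on `e0^⊥ / e0` lies in the radical. -/
theorem eq_Em_of_fix (x : Sp) (he : x.1 *ᵥ e0 = e0)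
    (hw : ∀ w : V, InW w → ∃ a : F, x.1 *ᵥ w = w + a • e0) :
    x = Em (prW (x.1 *ᵥ f0)) (B f0 (x.1 *ᵥ f0)) := by
  have hfe : B (x.1 *ᵥ f0) e0 = 1 := by
    have := B_sp x f0 e0
    rwa [he, B_f0_e0] at this
  have hW := prW_inW (x.1 *ᵥ f0)
  apply sp_ext_frame
  · rw [he, Em_e0 hW]
  · rw [Em_f0 hW]
    have := decomp (x.1 *ᵥ f0)
    rw [hfe, one_smul] at this
    nth_rewrite 1 [this]
    module
  · intro w hw'
    obtain ⟨a, ha⟩ := hw w hw'
    rw [ha, Em_inW hW hw']
    congr 2
    have h1 : B (x.1 *ᵥ f0) (x.1 *ᵥ w) = 0 := by rw [B_sp, hw'.f0_left]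
    rw [ha, sympForm_add_right, sympForm_smul_right, hfe, mul_one] at h1
    rw [sympForm_swap, B_prW _ _ hw']
    linear_combination h1

/-! ### Commuting with the root group of `e0` -/

/-- An element commuting with a non-trivial transvection centred at `e0` maps `e0` to `± e0`. -/
theorem fix_e0_of_comm {x : Sp} {a : F} (ha : a ≠ 0) (h : x * tvS e0 a = tvS e0 a * x) :
    x.1 *ᵥ e0 = e0 ∨ x.1 *ᵥ e0 = -e0 := by
  have h1 : tvS (x.1 *ᵥ e0) a = tvS e0 a := by
    rw [← conj_tvS, h, mul_inv_cancel_right]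
  have h2 := congrArg (fun M : Sp => M.1 *ᵥ f0) h1
  simp only [tvS_mulVec, B_f0_e0, mul_one] at h2
  have h3 : (a * B f0 (x.1 *ᵥ e0)) • (x.1 *ᵥ e0) = a • (e0 : V) := add_left_cancel h2
  obtain ⟨b, hbdef⟩ : ∃ b : F, B f0 (x.1 *ᵥ e0) = b := ⟨_, rfl⟩
  rw [hbdef] at h3
  have hb : b ≠ 0 := by
    intro h0
    rw [h0, mul_zero, zero_smul] at h3
    exact (smul_ne_zero ha e0_ne_zero) h3.symm
  have h4 : x.1 *ᵥ e0 = b⁻¹ • (e0 : V) := by
    have := congrArg (fun v : V => (a * b)⁻¹ • v) h3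
    simp only [smul_smul] at this
    rw [inv_mul_cancel₀ (mul_ne_zero ha hb), one_smul] at this
    rw [this]
    congr 1
    rw [mul_inv, mul_comm a⁻¹, mul_assoc, inv_mul_cancel₀ ha, mul_one]
  have h5 : b * b = 1 := by
    rw [h4, sympForm_smul_right, B_f0_e0, mul_one] at hbdef
    nth_rewrite 1 [← hbdef]
    exact inv_mul_cancel₀ hb
  rcases mul_self_eq_one_iff.mp h5 with h6 | h6
  · left
    rw [h4, h6, inv_one, one_smul]
  · right
    rw [h4, h6]
    rw [inv_neg, inv_one, neg_smul, one_smul]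

theorem fix_e0_of_pm_comm (hm : 2 ≤ m) {a : F} (ha : a ≠ 0) (g : Sp)
    (h : pm g * pm (tvS e0 a) = pm (tvS e0 a) * pm g) :
    g.1 *ᵥ e0 = e0 ∨ g.1 *ᵥ e0 = -e0 := by
  have h1 : pm (tvS (g.1 *ᵥ e0) a) = pm (tvS e0 a) := by
    rw [← conj_tvS, map_mul, map_mul, h, map_inv, mul_inv_cancel_right]
  have h2 := tvS_eq_of_pm_eq hm h1
  have h3 : g * tvS e0 a = tvS e0 a * g := by
    have := conj_tvS g e0 a
    rw [h2] at this
    exact eq_mul_of_mul_inv_eq this
  exact fix_e0_of_comm ha h3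

theorem tvS_e0_inj {c d : F} (h : tvS (e0 : V) c = tvS e0 d) : c = d := by
  have h1 := congrArg (fun M : Sp => M.1 *ᵥ f0) h
  simp only [tvS_mulVec, B_f0_e0, mul_one] at h1
  have h2 := congrArg (fun v : V => B f0 v) (add_left_cancel h1)
  simpa [sympForm_smul_right, B_f0_e0] using h2

theorem pm_tvS_e0_inj (hm : 2 ≤ m) {c d : F} (h : pm (tvS (e0 : V) c) = pm (tvS e0 d)) : c = d :=
  tvS_e0_inj (tvS_eq_of_pm_eq hm h)

/-- A non-zero vector of the complement. -/
theorem exists_inW_ne_zero (hm : 2 ≤ m) : ∃ w : V, InW w ∧ w ≠ 0 := by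
  obtain ⟨x, hx, h1, h2⟩ := exists_perp2 hm (e0 : V) f0
  exact ⟨x, ⟨h1, h2⟩, hx⟩

/-- Every non-zero vector of the complement has a partner in the complement. -/
theorem exists_inW_pair {w : V} (hw : InW w) (hw0 : w ≠ 0) : ∃ w' : V, InW w' ∧ B w w' = 1 := by
  obtain ⟨y, hy⟩ := exists_B_ne_zero hw0
  have h1 : B w (prW y) ≠ 0 := by
    rw [sympForm_swap, B_prW _ _ hw]
    exact neg_ne_zero.mpr hy
  refine ⟨(B w (prW y))⁻¹ • prW y, (prW_inW y).smul _, ?_⟩
  rw [sympForm_smul_right, inv_mul_cancel₀ h1]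

end Cfsg.Agent.Lib.Helper43.AutPSp
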