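import Mathlib
import Cfsg.Agent.Lib.Helper43.AutPSp.Frame

set_option autoImplicit false

/-!
# Root subgroups as centres of Sylow subgroups (odd characteristic)
-/

namespace Cfsg.Agent.Lib.Helper43.AutPSp

open Matrix Cfsg.Agent.Lib.Helper13
open scoped Pointwise

section general

variable {G : Type*} [Group G] {p : ℕ}

/-- The centre of a subgroup, as a set of the ambient group. -/
def ZS (P : Subgroup G) : Set G := {z | z ∈ P ∧ ∀ y ∈ P, y * z = z * y}

theorem mem_aut_smul_sylow' (α : MulAut G) (P : Sylow p G) (x : G) :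
    x ∈ α • P ↔ α⁻¹ x ∈ P := by
  show x ∈ α • (P : Subgroup G) ↔ _
  rw [Subgroup.mem_pointwise_smul_iff_inv_smul_mem]
  rfl

theorem mem_smul_sylow' (g : G) (P : Sylow p G) (x : G) : x ∈ g • P ↔ g⁻¹ * x * g ∈ P := by
  rw [Sylow.smul_def, mem_aut_smul_sylow', MulAut.conj_inv_apply]

theorem ZS_aut_smul (α : MulAut G) (P : Sylow p G) :
    ZS ((α • P : Sylow p G) : Subgroup G) = α '' ZS (P : Subgroup G) := by
  ext z
  constructor
  · rintro ⟨hz, hc⟩
    have hz' : α⁻¹ z ∈ P := (mem_aut_smul_sylow' α P z).mp hz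
    refine ⟨α⁻¹ z, ⟨hz', fun y hy => ?_⟩, MulAut.apply_inv_self _ α z⟩
    have h1 : α y ∈ α • P := by
      rw [mem_aut_smul_sylow', MulAut.inv_apply_self]
      exact hy
    have h2 := congrArg (fun t => (α⁻¹ : MulAut G) t) (hc (α y) h1)
    simp only [map_mul, MulAut.inv_apply_self] at h2
    exact h2
  · rintro ⟨z', ⟨hz', hc⟩, rfl⟩
    refine ⟨?_, fun y hy => ?_⟩
    · show α z' ∈ α • P
      rw [mem_aut_smul_sylow', MulAut.inv_apply_self]
      exact hz'
    · have hy' : α⁻¹ y ∈ P := (mem_aut_smul_sylow' α P y).mp hy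
      have h2 := congrArg (fun t => α t) (hc _ hy')
      simp only [map_mul, MulAut.apply_inv_self] at h2
      exact h2

theorem ZS_smul (g : G) (P : Sylow p G) :
    ZS ((g • P : Sylow p G) : Subgroup G) = (fun x => g * x * g⁻¹) '' ZS (P : Subgroup G) := by
  rw [Sylow.smul_def, ZS_aut_smul]
  rfl

end general

variable {m : ℕ} {F : Type*} [Field F] [NeZero m]

local notation "V" => Fin m ⊕ Fin m → F
local notation "Mx" => Matrix (Fin m ⊕ Fin m) (Fin m ⊕ Fin m) F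
set_option quotPrecheck false in
local notation "Sp" => ↥(Matrix.symplecticGroup (Fin m) F)
local notation "PSpm" => Cfsg.PSp m F
local notation "B" => Cfsg.sympForm m F

/-- The radical as a subgroup. -/
def Qe (m : ℕ) (F : Type*) [Field F] [NeZero m] : Subgroup ↥(Matrix.symplecticGroup (Fin m) F) where
  carrier := {x | ∃ (w : Fin m ⊕ Fin m → F) (c : F), InW w ∧ x = Em w c}
  mul_mem' := by
    rintro _ _ ⟨w, c, hw, rfl⟩ ⟨w', c', hw', rfl⟩
    exact ⟨_, _, hw.add hw', Em_mul hw hw' c c'⟩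
  one_mem' := ⟨0, 0, InW.zero, Em_zero_zero.symm⟩
  inv_mem' := by
    rintro _ ⟨w, c, hw, rfl⟩
    exact ⟨_, _, hw.neg, Em_inv hw c⟩

theorem Em_mem_Qe {w : V} (hw : InW w) (c : F) : Em w c ∈ Qe m F := ⟨w, c, hw, rfl⟩

theorem isPGroup_Qe (p : ℕ) [CharP F p] : IsPGroup p ↥((Qe m F).map pm) := by
  rintro ⟨g, hg⟩
  obtain ⟨x, ⟨w, c, hw, rfl⟩, rfl⟩ := hg
  refine ⟨1, ?_⟩
  apply Subtype.ext
  show pm (Em w c) ^ p ^ 1 = 1
  rw [pow_one, ← map_pow, Em_pow hw, CharP.cast_eq_zero F p, zero_smul, zero_mul, Em_zero_zero,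
    map_one]

/-- An element of `PSp` commuting with the whole radical is a transvection centred at `e0`
(odd characteristic). -/
theorem comm_Qe_imp (hm : 1 ≤ m) (h2 : (2 : F) ≠ 0) (x : Sp)
    (hx : ∀ (w : V) (c : F), InW w → pm x * pm (Em w c) = pm (Em w c) * pm x) :
    pm x ∈ Rt (e0 : V) := by
  -- exact commutation
  have hc : ∀ (w : V) (c : F), InW w → x * Em w c = Em w c * x := by
    intro w c hw
    have hw2 : InW ((2 : F)⁻¹ • w) := hw.smul _
    have hsq : Em ((2 : F)⁻¹ • w) ((2 : F)⁻¹ * c) * Em ((2 : F)⁻¹ • w) ((2 : F)⁻¹ * c) = Em w c := by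
      rw [Em_mul hw2 hw2, sympForm_self]
      congr 1
      · rw [← add_smul]
        have : (2 : F)⁻¹ + (2 : F)⁻¹ = 1 := by field_simp; norm_num
        rw [this, one_smul]
      · field_simp
        ring
    have h1 := hx _ ((2 : F)⁻¹ * c) hw2
    rw [← map_mul, ← map_mul] at h1
    rw [← hsq]
    rcases (pm_eq_iff hm _ _).mp h1 with h3 | h3
    · rw [← mul_assoc, h3, mul_assoc, h3, mul_assoc]
    · rw [← mul_assoc, h3, mul_assoc, mul_assoc, h3]
      rw [← mul_assoc (Em _ _) negS, ← negS_comm, ← mul_assoc negS, ← mul_assoc negS,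
        negS_mul_self, one_mul, mul_assoc]
  -- normalise the sign
  obtain ⟨x', hx', he, hc'⟩ : ∃ x' : Sp, pm x' = pm x ∧ x'.1 *ᵥ e0 = e0 ∧
      ∀ (w : V) (c : F), InW w → x' * Em w c = Em w c * x' := by
    have h0 := hc 0 1 InW.zero
    rw [Em_zero] at h0
    rcases fix_e0_of_comm one_ne_zero h0 with h | h
    · exact ⟨x, rfl, h, hc⟩
    · refine ⟨negS * x, pm_negS_mul x, ?_, fun w c hw => ?_⟩
      · rw [negS_mulVec, h, neg_neg]
      · rw [mul_assoc, hc w c hw, ← mul_assoc, negS_comm, mul_assoc]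
  rw [← hx']
  have hfe : B (x'.1 *ᵥ f0) e0 = 1 := by
    have := B_sp x' f0 e0
    rwa [he, B_f0_e0] at this
  have hw1 : ∀ w : V, InW w → x'.1 *ᵥ w = w + B (x'.1 *ᵥ f0) w • e0 := by
    intro w hw
    have h1 := congrArg (fun M : Sp => M.1 *ᵥ f0) (hc' w 0 hw)
    simp only [mulVec_mul, Em_f0 hw, Em_mulVec hw, hfe, Matrix.mulVec_add, Matrix.mulVec_smul,
      he] at h1
    have h2 : x'.1 *ᵥ w = w + B (x'.1 *ᵥ f0) w • e0 := by
      have := sub_eq_zero.mpr h1
      rw [← sub_eq_zero, ← this]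
      module
    exact h2
  have hw0 : ∀ w : V, InW w → B (x'.1 *ᵥ f0) w = 0 := by
    intro w hw
    have h1 : B (x'.1 *ᵥ f0) (x'.1 *ᵥ w) = 0 := by rw [B_sp, hw.f0_left]
    rw [hw1 w hw, sympForm_add_right, sympForm_smul_right, hfe, mul_one] at h1
    have h3 : (2 : F) * B (x'.1 *ᵥ f0) w = 0 := by linear_combination h1
    exact (mul_eq_zero.mp h3).resolve_left h2
  have hE := eq_Em_of_fix x' he (fun w hw => ⟨B (x'.1 *ᵥ f0) w, hw1 w hw⟩)
  have hpr : prW (x'.1 *ᵥ f0) = 0 := by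
    apply eq_zero_of_inW_perp (prW_inW _)
    intro y hy
    rw [sympForm_swap, B_prW _ _ hy, hw0 y hy, neg_zero]
  rw [hpr, Em_zero] at hE
  exact ⟨_, by rw [← hE]⟩

/-- An element of `PSp` commuting with one non-trivial transvection centred at `e0` commutes
with all of them. -/
theorem comm_tv_imp (hm : 2 ≤ m) {a : F} (ha : a ≠ 0) (g : Sp)
    (h : pm g * pm (tvS e0 a) = pm (tvS e0 a) * pm g) (c : F) :
    pm g * pm (tvS e0 c) = pm (tvS e0 c) * pm g := by
  have h4 : tvS (g.1 *ᵥ e0) c = tvS e0 c := by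
    rcases fix_e0_of_pm_comm hm ha g h with h | h
    · rw [h]
    · rw [h, tvS_neg]
  rw [← map_mul, ← map_mul]
  congr 1
  have := conj_tvS g e0 c
  rw [h4] at this
  exact eq_mul_of_mul_inv_eq this

variable [Finite F]

instance : Finite (Cfsg.PSp m F) := Finite.of_surjective pm pm_surjective

/-- The centre of a Sylow `p`-subgroup containing the radical is the root group of `e0`. -/
theorem ZS_sylow (hm : 2 ≤ m) (h2 : (2 : F) ≠ 0) {p : ℕ} [Fact p.Prime] [CharP F p]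
    (P : Sylow p (Cfsg.PSp m F)) (hQ : (Qe m F).map pm ≤ P) :
    ZS (P : Subgroup (Cfsg.PSp m F)) = Rt (e0 : V) := by
  have hsub : ZS (P : Subgroup PSpm) ⊆ Rt (e0 : V) := by
    rintro z ⟨hz, hc⟩
    obtain ⟨x, rfl⟩ := pm_surjective z
    apply comm_Qe_imp (by omega) h2
    intro w c hw
    exact (hc _ (hQ ⟨_, Em_mem_Qe hw c, rfl⟩)).symm
  have hmemP : ∀ c : F, pm (tvS (e0 : V) c) ∈ P := by
    intro c
    apply hQ
    exact ⟨_, Em_mem_Qe InW.zero c, by rw [Em_zero]⟩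
  haveI : Nontrivial ↥(P : Subgroup PSpm) := by
    refine ⟨⟨⟨pm (tvS e0 1), hmemP 1⟩, 1, ?_⟩⟩
    intro h
    exact pm_tvS_ne_one hm e0_ne_zero one_ne_zero (congrArg Subtype.val h)
  haveI := P.isPGroup'.center_nontrivial
  obtain ⟨⟨z₀, hz₀⟩, hne⟩ := exists_ne (1 : Subgroup.center ↥(P : Subgroup PSpm))
  have hz₀c : (z₀ : PSpm) ∈ ZS (P : Subgroup PSpm) := by
    refine ⟨z₀.2, fun y hy => ?_⟩
    have := Subgroup.mem_center_iff.mp hz₀ ⟨y, hy⟩
    exact congrArg Subtype.val this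
  obtain ⟨a, ha⟩ := hsub hz₀c
  have ha0 : a ≠ 0 := by
    rintro rfl
    apply hne
    apply Subtype.ext
    apply Subtype.ext
    show (z₀ : PSpm) = 1
    rw [← ha, tvS_zero, map_one]
  apply Set.Subset.antisymm hsub
  rintro z ⟨c, rfl⟩
  refine ⟨hmemP c, fun y hy => ?_⟩
  obtain ⟨g, rfl⟩ := pm_surjective y
  apply comm_tv_imp hm ha0
  rw [ha]
  exact hz₀c.2 _ hy

/-- Automorphisms permute the root subgroups (odd characteristic). -/
theorem root_perm_odd (hm : 2 ≤ m) (h2 : (2 : F) ≠ 0) (α : MulAut (Cfsg.PSp m F)) (u : V)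
    (hu : u ≠ 0) : ∃ u' : V, u' ≠ 0 ∧ α '' Rt u = Rt u' := by
  obtain ⟨p, hp⟩ := CharP.exists F
  haveI : Fact p.Prime := ⟨CharP.char_is_prime F p⟩
  obtain ⟨P, hP⟩ := (isPGroup_Qe (m := m) (F := F) p).exists_le_sylow
  have hZ := ZS_sylow hm h2 P hP
  obtain ⟨g, hg⟩ := Cfsg.Agent.Lib.Helper40.exists_symplectic_vec m (e0 : V) u e0_ne_zero hu
  have h1 : Rt u = ZS ((pm g • P : Sylow p PSpm) : Subgroup PSpm) := by
    rw [ZS_smul, hZ, conj_Rt]
    exact congrArg Rt hg.symm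
  obtain ⟨k, hk⟩ := MulAction.exists_smul_eq PSpm P (α • (pm g • P))
  obtain ⟨h, rfl⟩ := pm_surjective k
  refine ⟨h.1 *ᵥ e0, mulVec_ne_zero h e0_ne_zero, ?_⟩
  rw [h1, ← ZS_aut_smul, ← hk, ZS_smul, hZ, conj_Rt]

end Cfsg.Agent.Lib.Helper43.AutPSp
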