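import Mathlib
import Cfsg.Agent.Lib.Helper43.AutPSp.Frame

set_option autoImplicit false

/-!
# The standard automorphisms of `PSp_{2m}(F)`

Conjugation by conformal symplectic matrices and field automorphisms.
-/

namespace Cfsg.Agent.Lib.Helper43.AutPSp

open Matrix Cfsg.Agent.Lib.Helper13

variable {m : ℕ} {F : Type*} [Field F]

local notation "V" => Fin m ⊕ Fin m → F
local notation "Mx" => Matrix (Fin m ⊕ Fin m) (Fin m ⊕ Fin m) F
set_option quotPrecheck false in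
local notation "Sp" => ↥(Matrix.symplecticGroup (Fin m) F)
local notation "PSpm" => Cfsg.PSp m F
local notation "B" => Cfsg.sympForm m F
local notation "GLm" => GL (Fin m ⊕ Fin m) F

/-! ### Descent to `PSp` -/

/-- An automorphism of `Sp` induces one of `PSp`. -/
def pspAut : MulAut ↥(Matrix.symplecticGroup (Fin m) F) →* MulAut (Cfsg.PSp m F) where
  toFun e := QuotientGroup.congr _ _ e (Subgroup.characteristic_iff_map_eq.mp inferInstance e)
  map_one' := by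
    ext x
    obtain ⟨M, rfl⟩ := pm_surjective x
    rfl
  map_mul' := fun e₁ e₂ => by
    ext x
    obtain ⟨M, rfl⟩ := pm_surjective x
    rfl

theorem pspAut_pm (e : MulAut Sp) (s : Sp) : pspAut e (pm s) = pm (e s) := rfl

/-! ### The twist of a vector by a field automorphism -/

/-- Apply a field automorphism to the coordinates. -/
def tw (τ : F ≃+* F) (v : Fin m ⊕ Fin m → F) : Fin m ⊕ Fin m → F := fun i => τ (v i)

theorem tw_add (τ : F ≃+* F) (u v : V) : tw τ (u + v) = tw τ u + tw τ v := by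
  ext i
  simp [tw]

theorem tw_smul (τ : F ≃+* F) (a : F) (v : V) : tw τ (a • v) = τ a • tw τ v := by
  ext i
  simp [tw]

theorem tw_zero (τ : F ≃+* F) : tw τ (0 : V) = 0 := by
  ext i
  simp [tw]

theorem tw_tw (σ τ : F ≃+* F) (v : V) : tw σ (tw τ v) = tw (τ.trans σ) v := rfl

theorem tw_symm (τ : F ≃+* F) (v : V) : tw τ.symm (tw τ v) = v := by
  ext i
  simp [tw]

theorem tw_symm' (τ : F ≃+* F) (v : V) : tw τ (tw τ.symm v) = v := by
  ext i
  simp [tw]

theorem tw_refl (v : V) : tw (RingEquiv.refl F) v = v := rfl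

theorem B_tw (τ : F ≃+* F) (u v : V) : B (tw τ u) (tw τ v) = τ (B u v) := by
  rw [sympForm_eq, sympForm_eq, map_sum]
  refine Finset.sum_congr rfl fun i _ => ?_
  simp [tw]

theorem tw_mulVec (τ : F ≃+* F) (M : Mx) (v : V) : tw τ (M *ᵥ v) = M.map τ *ᵥ tw τ v := by
  ext k
  exact RingHom.map_mulVec (τ : F →+* F) M v k

theorem tw_ne_zero (τ : F ≃+* F) {v : V} (hv : v ≠ 0) : tw τ v ≠ 0 := by
  intro h
  apply hv
  rw [← tw_symm τ v, h, tw_zero]

theorem tw_e0 [NeZero m] (τ : F ≃+* F) : tw τ (e0 : V) = e0 := by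
  ext i
  simp only [tw, e0, Pi.single_apply]
  split_ifs <;> simp

theorem tw_f0 [NeZero m] (τ : F ≃+* F) : tw τ (f0 : V) = f0 := by
  ext i
  simp only [tw, f0, Pi.single_apply]
  split_ifs <;> simp

theorem InW.tw [NeZero m] {w : V} (hw : InW w) (τ : F ≃+* F) : InW (tw τ w) := by
  constructor
  · rw [← tw_e0 τ, B_tw, hw.1, map_zero]
  · rw [← tw_f0 τ, B_tw, hw.2, map_zero]

/-! ### Field automorphisms -/

theorem J_map (τ : F ≃+* F) : (Matrix.J (Fin m) F).map τ = Matrix.J (Fin m) F := by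
  unfold Matrix.J
  rw [Matrix.fromBlocks_map]
  congr 1
  · ext i j; simp
  · ext i j
    simp [Matrix.one_apply]
  · ext i j
    simp [Matrix.one_apply]
  · ext i j; simp

/-- A field automorphism applied to a symplectic matrix. -/
def fS (τ : F ≃+* F) (s : ↥(Matrix.symplecticGroup (Fin m) F)) :
    ↥(Matrix.symplecticGroup (Fin m) F) :=
  ⟨s.1.map τ, by
    have h := SymplecticGroup.mem_iff.mp s.2
    rw [SymplecticGroup.mem_iff]
    have h2 := congrArg (fun M : Mx => M.map τ) h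
    simp only [Matrix.map_mul, J_map] at h2
    rw [← Matrix.transpose_map]
    exact h2⟩

theorem fS_coe (τ : F ≃+* F) (s : Sp) : (fS τ s).1 = s.1.map τ := rfl

theorem fS_mul (τ : F ≃+* F) (s t : Sp) : fS τ (s * t) = fS τ s * fS τ t := by
  apply Subtype.ext
  rw [Submonoid.coe_mul, fS_coe, fS_coe, fS_coe, Submonoid.coe_mul, Matrix.map_mul]

/-- Field automorphisms acting on `Sp`. -/
def fAutS : RingAut F →* MulAut ↥(Matrix.symplecticGroup (Fin m) F) where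
  toFun τ :=
    { toFun := fS τ
      invFun := fS τ⁻¹
      left_inv := fun s => by
        apply Subtype.ext
        ext i j
        show τ⁻¹ (τ (s.1 i j)) = s.1 i j
        exact τ.symm_apply_apply _
      right_inv := fun s => by
        apply Subtype.ext
        ext i j
        show τ (τ⁻¹ (s.1 i j)) = s.1 i j
        exact τ.apply_symm_apply _
      map_mul' := fS_mul τ }
  map_one' := by
    ext s : 1
    apply Subtype.ext
    ext i j
    rfl
  map_mul' := fun σ τ => by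
    ext s : 1
    apply Subtype.ext
    ext i j
    rfl

theorem fAutS_coe (τ : RingAut F) (s : Sp) : (fAutS τ s).1 = s.1.map τ := rfl

theorem fAutS_mulVec (τ : RingAut F) (s : Sp) (v : V) :
    (fAutS τ s).1 *ᵥ tw τ v = tw τ (s.1 *ᵥ v) := by
  rw [fAutS_coe, tw_mulVec]

/-- Field automorphisms of `PSp`. -/
def fg : RingAut F →* MulAut (Cfsg.PSp m F) := pspAut.comp fAutS

theorem fg_pm (τ : RingAut F) (s : Sp) : fg τ (pm s) = pm (fAutS τ s) := rfl

theorem fAutS_tvS (τ : RingAut F) (u : V) (c : F) : fAutS τ (tvS u c) = tvS (tw τ u) (τ c) := by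
  apply sp_ext
  intro v
  have hv : v = tw τ (tw τ.symm v) := (tw_symm' τ v).symm
  rw [hv, fAutS_mulVec, tvS_mulVec, tvS_mulVec, tw_add, tw_smul, B_tw, map_mul]

theorem fg_Rt (τ : RingAut F) (u : V) : fg τ '' Rt u = Rt (tw τ u) := by
  apply Set.Subset.antisymm
  · rintro _ ⟨x, ⟨c, rfl⟩, rfl⟩
    exact ⟨τ c, by rw [fg_pm, fAutS_tvS]⟩
  · rintro _ ⟨c, rfl⟩
    exact ⟨pm (tvS u (τ.symm c)), ⟨_, rfl⟩, by rw [fg_pm, fAutS_tvS, τ.apply_symm_apply]⟩

/-! ### Conformal symplectic matrices -/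

theorem gl_inv_mulVec (g : GLm) (v : V) : ((g⁻¹ : GLm) : Mx) *ᵥ ((g : Mx) *ᵥ v) = v := by
  rw [Matrix.mulVec_mulVec, Units.inv_mul, Matrix.one_mulVec]

theorem gl_mulVec_inv (g : GLm) (v : V) : (g : Mx) *ᵥ (((g⁻¹ : GLm) : Mx) *ᵥ v) = v := by
  rw [Matrix.mulVec_mulVec, Units.mul_inv, Matrix.one_mulVec]

/-- The multiplier of a conformal symplectic matrix. -/
def mult [NeZero m] (g : GL (Fin m ⊕ Fin m) F) : F :=
  Cfsg.sympForm m F ((g : Matrix (Fin m ⊕ Fin m) (Fin m ⊕ Fin m) F) *ᵥ f0)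
    ((g : Matrix (Fin m ⊕ Fin m) (Fin m ⊕ Fin m) F) *ᵥ e0)

theorem mem_GSp_iff (g : GLm) :
    g ∈ Cfsg.GSp m F ↔ ∃ c : Fˣ, ∀ u v : V, B ((g : Mx) *ᵥ u) ((g : Mx) *ᵥ v) = (c : F) * B u v :=
  Iff.rfl

theorem B_gsp [NeZero m] {g : GLm} (hg : g ∈ Cfsg.GSp m F) (u v : V) :
    B ((g : Mx) *ᵥ u) ((g : Mx) *ᵥ v) = mult g * B u v := by
  obtain ⟨c, hc⟩ := hg
  have : mult g = c := by
    unfold mult
    rw [hc, B_f0_e0, mul_one]
  rw [this, hc]

theorem mult_ne_zero [NeZero m] {g : GLm} (hg : g ∈ Cfsg.GSp m F) : mult g ≠ 0 := by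
  obtain ⟨c, hc⟩ := hg
  have : mult g = c := by
    unfold mult
    rw [hc, B_f0_e0, mul_one]
  rw [this]
  exact c.ne_zero

theorem B_gsp_inv [NeZero m] {g : GLm} (hg : g ∈ Cfsg.GSp m F) (u v : V) :
    B (((g⁻¹ : GLm) : Mx) *ᵥ u) v = (mult g)⁻¹ * B u ((g : Mx) *ᵥ v) := by
  have := B_gsp hg (((g⁻¹ : GLm) : Mx) *ᵥ u) v
  rw [gl_mulVec_inv] at this
  rw [this, ← mul_assoc, inv_mul_cancel₀ (mult_ne_zero hg), one_mul]

/-- Conjugation of a symplectic matrix by a conformal symplectic matrix. -/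
def gS (g : ↥(Cfsg.GSp m F)) (s : ↥(Matrix.symplecticGroup (Fin m) F)) :
    ↥(Matrix.symplecticGroup (Fin m) F) :=
  ⟨((g : GL (Fin m ⊕ Fin m) F) : Matrix (Fin m ⊕ Fin m) (Fin m ⊕ Fin m) F) * s.1 *
      (((g : GL (Fin m ⊕ Fin m) F)⁻¹ : GL (Fin m ⊕ Fin m) F) :
        Matrix (Fin m ⊕ Fin m) (Fin m ⊕ Fin m) F), by
    apply mem_symplecticGroup_of_sympForm
    intro u v
    obtain ⟨c, hc⟩ := g.2
    rw [← Matrix.mulVec_mulVec, ← Matrix.mulVec_mulVec, ← Matrix.mulVec_mulVec,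
      ← Matrix.mulVec_mulVec, hc, sympForm_mulVec_of_mem m s.2, ← hc, gl_mulVec_inv,
      gl_mulVec_inv]⟩

theorem gS_coe (g : ↥(Cfsg.GSp m F)) (s : Sp) :
    (gS g s).1 = ((g : GLm) : Mx) * s.1 * (((g : GLm)⁻¹ : GLm) : Mx) := rfl

theorem gS_mul (g : ↥(Cfsg.GSp m F)) (s t : Sp) : gS g (s * t) = gS g s * gS g t := by
  apply Subtype.ext
  rw [Submonoid.coe_mul, gS_coe, gS_coe, gS_coe, Submonoid.coe_mul]
  calc ((g : GLm) : Mx) * (s.1 * t.1) * (((g : GLm)⁻¹ : GLm) : Mx)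
      = ((g : GLm) : Mx) * s.1 * 1 * t.1 * (((g : GLm)⁻¹ : GLm) : Mx) := by
        simp only [Matrix.mul_assoc, Matrix.mul_one]
    _ = _ := by
        rw [← Units.inv_mul (g : GLm)]
        simp only [Matrix.mul_assoc]

theorem gS_gS (g h : ↥(Cfsg.GSp m F)) (s : Sp) : gS g (gS h s) = gS (g * h) s := by
  apply Subtype.ext
  rw [gS_coe, gS_coe, gS_coe, Subgroup.coe_mul, _root_.mul_inv_rev, Units.val_mul, Units.val_mul]
  simp only [Matrix.mul_assoc]

theorem gS_one (s : Sp) : gS (1 : ↥(Cfsg.GSp m F)) s = s := by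
  apply Subtype.ext
  rw [gS_coe, Subgroup.coe_one, inv_one, Units.val_one, Matrix.one_mul, Matrix.mul_one]

/-- Conjugation by `GSp` as automorphisms of `Sp`. -/
def gAutS : ↥(Cfsg.GSp m F) →* MulAut ↥(Matrix.symplecticGroup (Fin m) F) where
  toFun g :=
    { toFun := gS g
      invFun := gS g⁻¹
      left_inv := fun s => by rw [gS_gS, inv_mul_cancel, gS_one]
      right_inv := fun s => by rw [gS_gS, mul_inv_cancel, gS_one]
      map_mul' := gS_mul g }
  map_one' := by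
    ext s : 1
    exact gS_one s
  map_mul' := fun g h => by
    ext s : 1
    exact (gS_gS g h s).symm

theorem gAutS_coe (g : ↥(Cfsg.GSp m F)) (s : Sp) :
    (gAutS g s).1 = ((g : GLm) : Mx) * s.1 * (((g : GLm)⁻¹ : GLm) : Mx) := rfl

theorem gAutS_mulVec (g : ↥(Cfsg.GSp m F)) (s : Sp) (v : V) :
    (gAutS g s).1 *ᵥ (((g : GLm) : Mx) *ᵥ v) = ((g : GLm) : Mx) *ᵥ (s.1 *ᵥ v) := by
  rw [gAutS_coe, ← Matrix.mulVec_mulVec, ← Matrix.mulVec_mulVec, gl_inv_mulVec]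

/-- Conjugation by `GSp` as automorphisms of `PSp`. -/
def cg : ↥(Cfsg.GSp m F) →* MulAut (Cfsg.PSp m F) := pspAut.comp gAutS

theorem cg_pm (g : ↥(Cfsg.GSp m F)) (s : Sp) : cg g (pm s) = pm (gAutS g s) := rfl

theorem gAutS_tvS [NeZero m] (g : ↥(Cfsg.GSp m F)) (u : V) (c : F) :
    gAutS g (tvS u c) = tvS (((g : GLm) : Mx) *ᵥ u) (c / mult (g : GLm)) := by
  apply sp_ext
  intro v
  have hv : v = ((g : GLm) : Mx) *ᵥ ((((g : GLm)⁻¹ : GLm) : Mx) *ᵥ v) := (gl_mulVec_inv _ v).symm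
  rw [hv, gAutS_mulVec, tvS_mulVec, tvS_mulVec, Matrix.mulVec_add, Matrix.mulVec_smul,
    B_gsp g.2]
  congr 2
  have := mult_ne_zero g.2
  field_simp

theorem cg_Rt [NeZero m] (g : ↥(Cfsg.GSp m F)) (u : V) :
    cg g '' Rt u = Rt (((g : GLm) : Mx) *ᵥ u) := by
  have hμ := mult_ne_zero g.2
  apply Set.Subset.antisymm
  · rintro _ ⟨x, ⟨c, rfl⟩, rfl⟩
    exact ⟨c / mult (g : GLm), by rw [cg_pm, gAutS_tvS]⟩
  · rintro _ ⟨c, rfl⟩
    refine ⟨pm (tvS u (c * mult (g : GLm))), ⟨_, rfl⟩, ?_⟩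
    rw [cg_pm, gAutS_tvS, mul_div_assoc, div_self hμ, mul_one]

/-- Symplectic matrices as conformal symplectic matrices. -/
def toGSp : ↥(Matrix.symplecticGroup (Fin m) F) →* ↥(Cfsg.GSp m F) where
  toFun s := ⟨⟨s.1, (s⁻¹).1, by
      rw [← Submonoid.coe_mul, mul_inv_cancel]
      rfl, by
      rw [← Submonoid.coe_mul, inv_mul_cancel]
      rfl⟩, ⟨1, fun u v => by
      rw [Units.val_one, one_mul]
      exact sympForm_mulVec_of_mem m s.2 u v⟩⟩
  map_one' := by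
    apply Subtype.ext
    apply Units.ext
    rfl
  map_mul' := fun s t => by
    apply Subtype.ext
    apply Units.ext
    rfl

theorem toGSp_coe (s : Sp) : (((toGSp s : ↥(Cfsg.GSp m F)) : GLm) : Mx) = s.1 := rfl

theorem toGSp_inv_coe (s : Sp) : ((((toGSp s : ↥(Cfsg.GSp m F)) : GLm)⁻¹ : GLm) : Mx) = (s⁻¹).1 :=
  rfl

theorem gAutS_toGSp (s t : Sp) : gAutS (toGSp s) t = s * t * s⁻¹ := by
  apply Subtype.ext
  rw [gAutS_coe, toGSp_coe, toGSp_inv_coe, Submonoid.coe_mul, Submonoid.coe_mul]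

theorem cg_toGSp (s : Sp) : cg (toGSp s) = MulAut.conj (pm s) := by
  ext x
  obtain ⟨t, rfl⟩ := pm_surjective x
  rw [cg_pm, gAutS_toGSp, MulAut.conj_apply, map_mul, map_mul, map_inv]

/-! ### The link with the Prelude predicates -/

theorem isInduced_cg_fg (g : ↥(Cfsg.GSp m F)) (τ : RingAut F) :
    Cfsg.IsInducedBySemilinearPSp (g : GLm) τ (cg g * fg τ : MulAut PSpm) := by
  intro s s' h
  show cg g (fg τ (pm s)) = pm s'
  rw [fg_pm, cg_pm]
  congr 1
  apply Subtype.ext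
  rw [gAutS_coe, fAutS_coe, h]

theorem eq_of_isInduced {g : GLm} (hg : g ∈ Cfsg.GSp m F) (τ : RingAut F) {β : MulAut PSpm}
    (h : Cfsg.IsInducedBySemilinearPSp g τ β) : β = cg ⟨g, hg⟩ * fg τ := by
  ext x
  obtain ⟨s, rfl⟩ := pm_surjective x
  exact h s (gAutS ⟨g, hg⟩ (fAutS τ s)) rfl

theorem stdField_iff (τ : RingAut F) (β : MulAut PSpm) :
    Cfsg.IsStdFieldAutPSp τ β ↔ β = fg τ := by
  constructor
  · intro h
    ext x
    obtain ⟨s, rfl⟩ := pm_surjective x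
    exact h s (fAutS τ s) rfl
  · rintro rfl s s' h
    show fg τ (pm s) = pm s'
    rw [fg_pm]
    congr 1
    apply Subtype.ext
    rw [fAutS_coe, h]

end Cfsg.Agent.Lib.Helper43.AutPSp
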