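import Mathlib
import Cfsg.Agent.Lib.Helper43.AutPSp.Frame
import Cfsg.Agent.Lib.Helper13.SpParab

set_option autoImplicit false

/-!
# The map on points induced by an automorphism of `PSp`
-/

namespace Cfsg.Agent.Lib.Helper43.AutPSp

open Matrix Cfsg.Agent.Lib.Helper13

variable {m : ℕ} {F : Type*} [Field F]

local notation "V" => Fin m ⊕ Fin m → F
local notation "Mx" => Matrix (Fin m ⊕ Fin m) (Fin m ⊕ Fin m) F
set_option quotPrecheck false in
local notation "Sp" => ↥(Matrix.symplecticGroup (Fin m) F)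
local notation "PSpm" => Cfsg.PSp m F
local notation "B" => Cfsg.sympForm m F

/-- Every automorphism permutes the root subgroups. -/
def RootPerm (m : ℕ) (F : Type*) [Field F] : Prop :=
  ∀ (α : MulAut (Cfsg.PSp m F)) (u : Fin m ⊕ Fin m → F), u ≠ 0 →
    ∃ u' : Fin m ⊕ Fin m → F, u' ≠ 0 ∧ α '' Rt u = Rt u'

open scoped Classical in
/-- The induced map on (representatives of) points. -/
noncomputable def phi (H : RootPerm m F) (α : MulAut (Cfsg.PSp m F)) (u : Fin m ⊕ Fin m → F) :
    Fin m ⊕ Fin m → F :=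
  if hu : u ≠ 0 then (H α u hu).choose else 0

theorem phi_ne_zero (H : RootPerm m F) (α : MulAut PSpm) {u : V} (hu : u ≠ 0) :
    phi H α u ≠ 0 := by
  unfold phi
  rw [dif_pos hu]
  exact (H α u hu).choose_spec.1

theorem phi_Rt (H : RootPerm m F) (α : MulAut PSpm) {u : V} (hu : u ≠ 0) :
    α '' Rt u = Rt (phi H α u) := by
  unfold phi
  rw [dif_pos hu]
  exact (H α u hu).choose_spec.2

theorem phi_par_of_image (hm : 2 ≤ m) (H : RootPerm m F) (α : MulAut PSpm) {u u' : V}
    (hu : u ≠ 0) (h : α '' Rt u = Rt u') : Par u' (phi H α u) :=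
  par_of_Rt_eq hm (phi_ne_zero H α hu) (by rw [← phi_Rt H α hu, h])

theorem phi_par (hm : 2 ≤ m) (H : RootPerm m F) (α : MulAut PSpm) {u v : V} (hu : u ≠ 0)
    (h : Par u v) : Par (phi H α u) (phi H α v) := by
  have hv : v ≠ 0 := h.ne_zero hu
  apply par_of_Rt_eq hm (phi_ne_zero H α hv)
  rw [← phi_Rt H α hv, ← phi_Rt H α hu, Rt_eq_of_par h]

theorem phi_perp (hm : 2 ≤ m) (H : RootPerm m F) (α : MulAut PSpm) {u v : V} (hu : u ≠ 0)
    (hv : v ≠ 0) : B (phi H α u) (phi H α v) = 0 ↔ B u v = 0 := by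
  rw [← Rt_comm_iff hm (phi_ne_zero H α hu), ← Rt_comm_iff hm hu, ← phi_Rt H α hu,
    ← phi_Rt H α hv]
  constructor
  · intro h x hx y hy
    have := h (α x) ⟨x, hx, rfl⟩ (α y) ⟨y, hy, rfl⟩
    rw [← map_mul, ← map_mul] at this
    exact α.injective this
  · rintro h _ ⟨x, hx, rfl⟩ _ ⟨y, hy, rfl⟩
    rw [← map_mul, ← map_mul, h x hx y hy]

/-- Equivariance of the point map. -/
theorem phi_equiv (hm : 2 ≤ m) (H : RootPerm m F) (α : MulAut PSpm) (x x' : Sp)
    (h : α (pm x) = pm x') {y : V} (hy : y ≠ 0) :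
    Par (x'.1 *ᵥ phi H α y) (phi H α (x.1 *ᵥ y)) := by
  have hxy : x.1 *ᵥ y ≠ 0 := mulVec_ne_zero x hy
  apply par_of_Rt_eq hm (phi_ne_zero H α hxy)
  rw [← phi_Rt H α hxy, ← conj_Rt, ← conj_Rt, ← phi_Rt H α hy, Set.image_image, Set.image_image]
  apply Set.image_congr
  intro z _
  rw [map_mul, map_mul, map_inv, h]

theorem phi_surj (hm : 2 ≤ m) (H : RootPerm m F) (α : MulAut PSpm) {v' : V} (hv' : v' ≠ 0) :
    ∃ v : V, v ≠ 0 ∧ Par (phi H α v) v' := by
  refine ⟨phi H α⁻¹ v', phi_ne_zero H α⁻¹ hv', ?_⟩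
  apply (phi_par_of_image hm H α (phi_ne_zero H α⁻¹ hv') _).symm
  rw [← phi_Rt H α⁻¹ hv', Set.image_image]
  simp

/-! ### Double perpendicular -/

theorem mem_span_pair_of_perp {a b z : V}
    (h : ∀ t : V, B t a = 0 → B t b = 0 → B t z = 0) : ∃ l k : F, z = l • a + k • b := by
  have hz : z ∈ (sympBilin m F).orthogonal ((sympBilin m F).orthogonal
      (Submodule.span F {a, b})) := by
    rw [LinearMap.BilinForm.mem_orthogonal_iff]
    intro t ht
    rw [LinearMap.BilinForm.mem_orthogonal_iff] at ht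
    rw [sympBilin_apply]
    apply h
    · have := ht a (Submodule.subset_span (by simp))
      rw [sympBilin_apply] at this
      exact B_swap_zero this
    · have := ht b (Submodule.subset_span (by simp))
      rw [sympBilin_apply] at this
      exact B_swap_zero this
  rw [LinearMap.BilinForm.orthogonal_orthogonal sympBilin_nondegenerate
    sympBilin_isAlt.isRefl] at hz
  obtain ⟨l, k, e⟩ := Submodule.mem_span_pair.mp hz
  exact ⟨l, k, e.symm⟩

/-- The point map preserves lines. -/
theorem phi_span (hm : 2 ≤ m) (H : RootPerm m F) (α : MulAut PSpm) {a b z : V} (ha : a ≠ 0)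
    (hb : b ≠ 0) (hz : z ≠ 0) (h : ∃ l k : F, z = l • a + k • b) :
    ∃ l k : F, phi H α z = l • phi H α a + k • phi H α b := by
  apply mem_span_pair_of_perp
  intro t' h1 h2
  by_cases ht' : t' = 0
  · rw [ht', sympForm_zero_left]
  · obtain ⟨t, ht, hpar⟩ := phi_surj hm H α ht'
    rw [hpar.perp_iff] at h1 h2 ⊢
    rw [phi_perp hm H α ht ha] at h1
    rw [phi_perp hm H α ht hb] at h2
    rw [phi_perp hm H α ht hz]
    obtain ⟨l, k, rfl⟩ := h
    rw [sympForm_add_right, sympForm_smul_right, sympForm_smul_right, h1, h2]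
    ring

/-! ### Elements fixing every point -/

/-- Two symplectic matrices inducing the same map on points have the same image in `PSp`. -/
theorem pm_eq_of_par (hm : 1 ≤ m) (x x' : Sp)
    (h : ∀ y : V, y ≠ 0 → Par (x.1 *ᵥ y) (x'.1 *ᵥ y)) : pm x = pm x' := by
  -- the element `g = x⁻¹ x'` fixes every point
  have hg : ∀ y : V, y ≠ 0 → ∃ a : F, (x⁻¹ * x').1 *ᵥ y = a • y := by
    intro y hy
    obtain ⟨a, -, ha⟩ := h y hy
    refine ⟨a, ?_⟩
    rw [mulVec_mul, ha, Matrix.mulVec_smul, inv_mulVec]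
  choose! a ha using hg
  have hconst : ∀ y z : V, y ≠ 0 → z ≠ 0 → B y z ≠ 0 → a y = a z := by
    intro y z hy hz hyz
    have hyz0 : y + z ≠ 0 := by
      intro h0
      apply hyz
      have : y = -z := eq_neg_of_add_eq_zero_left h0
      rw [this, B_neg_left, sympForm_self, neg_zero]
    have h1 := ha (y + z) hyz0
    rw [Matrix.mulVec_add, ha y hy, ha z hz] at h1
    have h2 := congrArg (fun v : V => B v z) h1
    simp only [sympForm_add_left, sympForm_smul_left, sympForm_self, mul_zero, add_zero] at h2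
    have h3 := congrArg (fun v : V => B v y) h1
    simp only [sympForm_add_left, sympForm_smul_left, sympForm_self, mul_zero, zero_add] at h3
    have hzy : B z y ≠ 0 := by
      rw [sympForm_swap]
      exact neg_ne_zero.mpr hyz
    have e1 : a y = a (y + z) := mul_right_cancel₀ hyz h2
    have e2 : a z = a (y + z) := mul_right_cancel₀ hzy h3
    rw [e1, e2]
  have hm0 : NeZero m := ⟨by omega⟩
  have hall : ∀ y : V, y ≠ 0 → a y = a e0 := by
    intro y hy
    obtain ⟨z, hz1, hz2⟩ := sympForm_two_nonperp y e0 hy e0_ne_zero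
    have hz : z ≠ 0 := by
      rintro rfl
      exact hz1 (sympForm_zero_right m _)
    rw [hconst y z hy hz hz1, hconst e0 z e0_ne_zero hz hz2]
  have hsq : a e0 * a e0 = 1 := by
    have := B_sp (x⁻¹ * x') (f0 : V) e0
    rw [ha _ f0_ne_zero, ha _ e0_ne_zero, hall _ f0_ne_zero, sympForm_smul_left,
      sympForm_smul_right, B_f0_e0] at this
    linear_combination this
  have hscal : ∀ y : V, (x⁻¹ * x').1 *ᵥ y = a e0 • y := by
    intro y
    by_cases hy : y = 0
    · rw [hy, Matrix.mulVec_zero, smul_zero]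
    · rw [ha y hy, hall y hy]
  rcases mul_self_eq_one_iff.mp hsq with h1 | h1
  · have : x⁻¹ * x' = 1 := by
      apply sp_ext
      intro y
      rw [hscal, h1, one_smul, mulVec_one]
    rw [inv_mul_eq_one] at this
    rw [this]
  · have : x⁻¹ * x' = negS := by
      apply sp_ext
      intro y
      rw [hscal, h1, neg_smul, one_smul, negS_coe, Matrix.neg_mulVec, Matrix.one_mulVec]
    have h2 : x' = negS * x := by
      rw [negS_comm, ← this, mul_inv_cancel_left]
    rw [h2, pm_negS_mul]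

end Cfsg.Agent.Lib.Helper43.AutPSp
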