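import Mathlib
import Cfsg.Agent.Lib.Helper43.AutPSp.Point
import Cfsg.Agent.Lib.Helper43.AutPSp.Auts

set_option autoImplicit false

/-!
# The action of a normalised automorphism on the radical
-/

namespace Cfsg.Agent.Lib.Helper43.AutPSp

open Matrix Cfsg.Agent.Lib.Helper13

variable {m : ℕ} {F : Type*} [Field F] [NeZero m]

local notation "V" => Fin m ⊕ Fin m → F
local notation "Mx" => Matrix (Fin m ⊕ Fin m) (Fin m ⊕ Fin m) F
set_option quotPrecheck false in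
local notation "Sp" => ↥(Matrix.symplecticGroup (Fin m) F)
local notation "PSpm" => Cfsg.PSp m F
local notation "B" => Cfsg.sympForm m F
local notation "GLm" => GL (Fin m ⊕ Fin m) F

/-- Elements fixing `e0` and every line through `e0` in `e0^⊥`. -/
def InK (x : ↥(Matrix.symplecticGroup (Fin m) F)) : Prop :=
  x.1 *ᵥ (e0 : Fin m ⊕ Fin m → F) = e0 ∧
    ∀ y : Fin m ⊕ Fin m → F, Cfsg.sympForm m F y e0 = 0 → ∃ a b : F, x.1 *ᵥ y = a • y + b • e0

theorem Em_InK {w : V} (hw : InW w) (c : F) : InK (Em w c) := by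
  refine ⟨Em_e0 hw c, fun y hy => ⟨1, B y w, ?_⟩⟩
  rw [Em_mulVec hw, hy]
  module

/-- The scalar by which an element of `InK` acts on `e0^⊥ / e0` squares to one. -/
theorem InK.scalar_sq {x : Sp} (hx : InK x) {w : V} (hw : InW w) (hw0 : w ≠ 0) {a b : F}
    (h : x.1 *ᵥ w = a • w + b • e0) : a * a = 1 := by
  obtain ⟨w', hw', hww'⟩ := exists_inW_pair hw hw0
  obtain ⟨a', b', h'⟩ := hx.2 w' hw'.1
  obtain ⟨a'', b'', h''⟩ := hx.2 (w + w') (hw.add hw').1
  rw [Matrix.mulVec_add, h, h'] at h''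
  have hw'w : B w' w = -1 := by rw [sympForm_swap, hww']
  have e1 := congrArg (fun v : V => B v w') h''
  simp only [sympForm_add_left, sympForm_smul_left, sympForm_self, hww', hw'.e0_left] at e1
  have e2 := congrArg (fun v : V => B v w) h''
  simp only [sympForm_add_left, sympForm_smul_left, sympForm_self, hw'w, hw.e0_left] at e2
  have e3 := B_sp x w w'
  rw [h, h'] at e3
  simp only [sympForm_add_left, sympForm_add_right, sympForm_smul_left, sympForm_smul_right,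
    sympForm_self, hww', hw'.e0_left, hw.1] at e3
  have e4 : a = a' := by linear_combination e1 + e2
  rw [← e4] at e3
  linear_combination e3

theorem InK.sq_mem {x : Sp} (hx : InK x) : ∃ (w : V) (c : F), InW w ∧ x * x = Em w c := by
  refine ⟨_, _, prW_inW _, eq_Em_of_fix (x * x) ?_ ?_⟩
  · rw [mulVec_mul, hx.1, hx.1]
  · intro w hw
    by_cases hw0 : w = 0
    · exact ⟨0, by rw [hw0, Matrix.mulVec_zero, zero_smul, add_zero]⟩
    · obtain ⟨a, b, h⟩ := hx.2 w hw.1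
      have ha := hx.scalar_sq hw hw0 h
      refine ⟨a * b + b, ?_⟩
      rw [mulVec_mul, h, Matrix.mulVec_add, Matrix.mulVec_smul, Matrix.mulVec_smul, h, hx.1,
        smul_add, smul_smul, ha, one_smul, smul_smul, add_assoc, ← add_smul]

theorem InK.mem_of_two (h2 : (2 : F) = 0) {x : Sp} (hx : InK x) :
    ∃ (w : V) (c : F), InW w ∧ x = Em w c := by
  refine ⟨_, _, prW_inW _, eq_Em_of_fix x hx.1 ?_⟩
  intro w hw
  by_cases hw0 : w = 0
  · exact ⟨0, by rw [hw0, Matrix.mulVec_zero, zero_smul, add_zero]⟩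
  · obtain ⟨a, b, h⟩ := hx.2 w hw.1
    have ha := hx.scalar_sq hw hw0 h
    have ha1 : a = 1 := by
      have h3 : (a - 1) * (a - 1) = 0 := by linear_combination ha + (1 - a) * h2
      have := mul_self_eq_zero.mp h3
      exact sub_eq_zero.mp this
    exact ⟨b, by rw [h, ha1, one_smul]⟩

variable (hm : 2 ≤ m) (H : RootPerm m F)

include hm H in
/-- A normalised automorphism preserves `InK` modulo the centre. -/
theorem InK_map (α : MulAut PSpm) (hE : α '' Rt (e0 : V) = Rt e0) {x : Sp} (hx : InK x) :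
    ∃ x' : Sp, InK x' ∧ α (pm x) = pm x' := by
  have hpe : Par (e0 : V) (phi H α e0) := phi_par_of_image hm H α e0_ne_zero hE
  obtain ⟨x₁, hx₁⟩ := pm_surjective (α (pm x))
  -- `x₁` maps `e0` to `± e0`
  obtain ⟨a, ha⟩ : α (pm (tvS e0 1)) ∈ Rt (e0 : V) := by
    rw [← hE]
    exact ⟨_, ⟨1, rfl⟩, rfl⟩
  have ha0 : a ≠ 0 := by
    rintro rfl
    rw [tvS_zero, map_one] at ha
    have := α.injective (ha.symm.trans (map_one α).symm)
    exact pm_tvS_ne_one hm e0_ne_zero one_ne_zero this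
  have hcomm : pm x₁ * pm (tvS e0 a) = pm (tvS e0 a) * pm x₁ := by
    rw [hx₁, ha, ← map_mul, ← map_mul, ← map_mul, ← map_mul]
    congr 2
    have := conj_tvS x e0 (1 : F)
    rw [hx.1] at this
    exact eq_mul_of_mul_inv_eq this
  obtain ⟨x', hx', he⟩ : ∃ x' : Sp, pm x' = α (pm x) ∧ x'.1 *ᵥ (e0 : V) = e0 := by
    rcases fix_e0_of_pm_comm hm ha0 x₁ hcomm with h | h
    · exact ⟨x₁, hx₁, h⟩
    · exact ⟨negS * x₁, by rw [pm_negS_mul, hx₁], by rw [negS_mulVec, h, neg_neg]⟩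
  refine ⟨x', ⟨he, fun y hy => ?_⟩, hx'.symm⟩
  by_cases hy0 : y = 0
  · exact ⟨0, 0, by rw [hy0, Matrix.mulVec_zero, zero_smul, zero_smul, add_zero]⟩
  obtain ⟨y₀, hy₀, hpar⟩ := phi_surj hm H α hy0
  have hy₀e : B y₀ e0 = 0 := by
    rw [← phi_perp hm H α hy₀ e0_ne_zero, hpe.perp_iff', ← hpar.perp_iff]
    exact hy
  obtain ⟨a₀, b₀, h₀⟩ := hx.2 y₀ hy₀e
  have hxy : x.1 *ᵥ y₀ ≠ 0 := mulVec_ne_zero x hy₀
  obtain ⟨l, k, hlk⟩ := phi_span hm H α hy₀ e0_ne_zero hxy ⟨a₀, b₀, h₀⟩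
  obtain ⟨c, hc, hc'⟩ := phi_equiv hm H α x x' hx'.symm hy₀
  obtain ⟨d, hd, rfl⟩ := hpar
  obtain ⟨d', hd', hpe'⟩ := hpe
  have h1 : x'.1 *ᵥ phi H α y₀ = c⁻¹ • phi H α (x.1 *ᵥ y₀) := by
    rw [hc', smul_smul, inv_mul_cancel₀ hc, one_smul]
  refine ⟨c⁻¹ * l, d * c⁻¹ * k * d', ?_⟩
  rw [Matrix.mulVec_smul, h1, hlk, hpe']
  module

include hm H in
/-- A normalised automorphism maps the radical to itself. -/
theorem Em_map (α : MulAut PSpm) (hE : α '' Rt (e0 : V) = Rt e0) {w : V} (hw : InW w) (c : F) :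
    ∃ (w' : V) (c' : F), InW w' ∧ α (pm (Em w c)) = pm (Em w' c') := by
  by_cases h2 : (2 : F) = 0
  · obtain ⟨x', hx', e⟩ := InK_map hm H α hE (Em_InK hw c)
    obtain ⟨w', c', hw', rfl⟩ := hx'.mem_of_two h2
    exact ⟨w', c', hw', e⟩
  · have hw2 : InW ((2 : F)⁻¹ • w) := hw.smul _
    have hsq : Em ((2 : F)⁻¹ • w) ((2 : F)⁻¹ * c) * Em ((2 : F)⁻¹ • w) ((2 : F)⁻¹ * c) = Em w c := by
      rw [Em_mul hw2 hw2, sympForm_self]
      congr 1
      · rw [← add_smul]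
        have : (2 : F)⁻¹ + (2 : F)⁻¹ = 1 := by field_simp; norm_num
        rw [this, one_smul]
      · field_simp
        ring
    obtain ⟨x', hx', e⟩ := InK_map hm H α hE (Em_InK hw2 ((2 : F)⁻¹ * c))
    obtain ⟨w', c', hw', e'⟩ := hx'.sq_mem
    refine ⟨w', c', hw', ?_⟩
    rw [← hsq, map_mul, map_mul, e, ← map_mul, e']

end Cfsg.Agent.Lib.Helper43.AutPSp
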