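import Mathlib
import Cfsg.Agent.Lib.Helper43.AutPSp.Para

set_option autoImplicit false

/-!
# Semilinearity of the action on the radical
-/

namespace Cfsg.Agent.Lib.Helper43.AutPSp

open Matrix Cfsg.Agent.Lib.Helper13

variable {m : ℕ} {F : Type*} [Field F] [NeZero m]

local notation "V" => Fin m ⊕ Fin m → F
local notation "Mx" => Matrix (Fin m ⊕ Fin m) (Fin m ⊕ Fin m) F
set_option quotPrecheck false in
local notation "Sp" => ↥(Matrix.symplecticGroup (Fin m) F)
local notation "PSpm" => Cfsg.PSp m F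
local notation "B" => Cfsg.sympForm m F
local notation "GLm" => GL (Fin m ⊕ Fin m) F

/-- The data describing the action of an automorphism on the radical. -/
structure RadData (α : MulAut (Cfsg.PSp m F))
    (A : (Fin m ⊕ Fin m → F) → (Fin m ⊕ Fin m → F)) (l : (Fin m ⊕ Fin m → F) → F)
    (ψ : F → F) : Prop where
  mapsW : ∀ w, InW w → InW (A w)
  em : ∀ w, InW w → α (pm (Em w 0)) = pm (Em (A w) (l w))
  tv : ∀ c, α (pm (tvS e0 c)) = pm (tvS e0 (ψ c))

theorem opp_ne_zero {w : V} (hw : InW w) (c : F) : (f0 : V) + w + c • e0 ≠ 0 := by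
  intro h
  have := congrArg (fun v : V => B v e0) h
  simp only [sympForm_add_left, sympForm_smul_left, sympForm_self, hw.1, B_f0_e0,
    sympForm_zero_left] at this
  simp at this

theorem B_opp {w w' : V} (hw : InW w) (hw' : InW w') (c c' : F) :
    B ((f0 : V) + w + c • e0) (f0 + w' + c' • e0) = c' - c + B w w' := by
  simp only [sympForm_add_left, sympForm_add_right, sympForm_smul_left, sympForm_smul_right,
    sympForm_self, hw.1, hw.2, hw'.e0_left, hw'.f0_left, B_f0_e0, B_e0_f0]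
  ring

variable (hm : 2 ≤ m) (H : RootPerm m F) {α : MulAut (Cfsg.PSp m F)}

include hm H in
theorem exists_radData (hE : α '' Rt (e0 : V) = Rt e0) :
    ∃ (A : V → V) (l : V → F) (ψ : F → F), RadData α A l ψ := by
  have h1 : ∀ w : V, ∃ (w' : V) (c' : F), InW w → (InW w' ∧ α (pm (Em w 0)) = pm (Em w' c')) := by
    intro w
    by_cases hw : InW w
    · obtain ⟨w', c', hw', e⟩ := Em_map hm H α hE hw 0
      exact ⟨w', c', fun _ => ⟨hw', e⟩⟩
    · exact ⟨0, 0, fun h => absurd h hw⟩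
  choose A l hA using h1
  have h2 : ∀ c : F, ∃ c' : F, α (pm (tvS e0 c)) = pm (tvS e0 c') := by
    intro c
    have : α (pm (tvS e0 c)) ∈ Rt (e0 : V) := by
      rw [← hE]
      exact ⟨_, ⟨c, rfl⟩, rfl⟩
    obtain ⟨c', hc'⟩ := this
    exact ⟨c', hc'.symm⟩
  choose ψ hψ using h2
  exact ⟨A, l, ψ, fun w hw => (hA w hw).1, fun w hw => (hA w hw).2, hψ⟩

variable {A : (Fin m ⊕ Fin m → F) → (Fin m ⊕ Fin m → F)} {l : (Fin m ⊕ Fin m → F) → F} {ψ : F → F}

theorem RadData.em' (D : RadData α A l ψ) {w : V} (hw : InW w) (c : F) :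
    α (pm (Em w c)) = pm (Em (A w) (l w + ψ c)) := by
  have h1 : Em w c = Em w 0 * tvS e0 c := by
    rw [← Em_zero, Em_mul hw InW.zero, add_zero, zero_add, sympForm_zero_left, add_zero]
  rw [h1, map_mul, map_mul, D.em w hw, D.tv, ← map_mul, ← Em_zero, Em_mul (D.mapsW w hw) InW.zero,
    add_zero, sympForm_zero_left, add_zero]

include hm in
theorem RadData.zero (D : RadData α A l ψ) : A 0 = 0 ∧ l 0 = 0 := by
  have h := D.em 0 InW.zero
  rw [Em_zero_zero, map_one, map_one] at h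
  have h' : pm (Em (A 0) (l 0)) = pm (Em (0 : V) 0) := by rw [← h, Em_zero_zero, map_one]
  exact pm_Em_inj (by omega) (D.mapsW 0 InW.zero) InW.zero h'

include hm in
theorem RadData.psi_inj (D : RadData α A l ψ) {c d : F} (h : ψ c = ψ d) : c = d := by
  have := D.tv c
  rw [h, ← D.tv d] at this
  exact pm_tvS_e0_inj hm (α.injective this)

include hm in
theorem RadData.psi_zero (D : RadData α A l ψ) : ψ 0 = 0 := by
  have h := D.tv 0
  rw [tvS_zero, map_one, map_one] at h
  have h' : pm (tvS (e0 : V) (ψ 0)) = pm (tvS e0 0) := by rw [← h, tvS_zero, map_one]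
  exact pm_tvS_e0_inj hm h'

include hm in
theorem RadData.psi_add (D : RadData α A l ψ) (c d : F) : ψ (c + d) = ψ c + ψ d := by
  have h := D.tv (c + d)
  rw [← tvS_mul, map_mul, map_mul, D.tv, D.tv, ← map_mul, tvS_mul] at h
  exact (pm_tvS_e0_inj hm h).symm

include hm H in
theorem RadData.opp (D : RadData α A l ψ) (hF : α '' Rt (f0 : V) = Rt f0) {w : V} (hw : InW w)
    (c : F) : Par ((f0 : V) + A w + (l w + ψ c) • e0) (phi H α (f0 + w + c • e0)) := by
  have h1 := phi_equiv hm H α (Em w c) (Em (A w) (l w + ψ c)) (D.em' hw c) f0_ne_zero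
  rw [Em_f0 hw] at h1
  have hpf : Par (f0 : V) (phi H α f0) := phi_par_of_image hm H α f0_ne_zero hF
  have h2 := hpf.mulVec (Em (A w) (l w + ψ c)).1
  rw [Em_f0 (D.mapsW w hw)] at h2
  exact h2.trans h1

include hm H in
theorem RadData.perp_iff (D : RadData α A l ψ) (hF : α '' Rt (f0 : V) = Rt f0) {w w' : V}
    (hw : InW w) (hw' : InW w') (c c' : F) :
    (c' - c + B w w' = 0) ↔ ((l w' + ψ c') - (l w + ψ c) + B (A w) (A w') = 0) := by
  rw [← B_opp hw hw' c c', ← B_opp (D.mapsW w hw) (D.mapsW w' hw') (l w + ψ c) (l w' + ψ c'),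
    ← phi_perp hm H α (opp_ne_zero hw c) (opp_ne_zero hw' c'),
    (D.opp hm H hF hw c).perp_iff, (D.opp hm H hF hw' c').perp_iff']

include hm H in
theorem RadData.l_zero (D : RadData α A l ψ) (hF : α '' Rt (f0 : V) = Rt f0) {w : V}
    (hw : InW w) : l w = 0 := by
  have h := (D.perp_iff hm H hF hw InW.zero 0 0).mp (by rw [sympForm_zero_right]; ring)
  rw [(D.zero hm).1, (D.zero hm).2, sympForm_zero_right] at h
  linear_combination -h

include hm H in
theorem RadData.B_A (D : RadData α A l ψ) (hF : α '' Rt (f0 : V) = Rt f0) {w w' : V}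
    (hw : InW w) (hw' : InW w') : B (A w) (A w') = ψ (B w w') := by
  have h := (D.perp_iff hm H hF hw hw' (B w w') 0).mp (by ring)
  rw [D.l_zero hm H hF hw, D.l_zero hm H hF hw', D.psi_zero hm] at h
  linear_combination h

include hm H in
theorem RadData.A_add (D : RadData α A l ψ) (hF : α '' Rt (f0 : V) = Rt f0) {w w' : V}
    (hw : InW w) (hw' : InW w') : A (w + w') = A w + A w' := by
  have h1 := Em_mul hw hw' (0 : F) 0
  have h2 := congrArg (fun x => α (pm x)) h1
  simp only [map_mul] at h2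
  rw [D.em w hw, D.em w' hw', D.em' (hw.add hw'), ← map_mul,
    Em_mul (D.mapsW w hw) (D.mapsW w' hw')] at h2
  exact (pm_Em_inj (by omega) ((D.mapsW w hw).add (D.mapsW w' hw')) (D.mapsW _ (hw.add hw')) h2).1.symm

include hm H in
theorem RadData.A_inj (D : RadData α A l ψ) (hF : α '' Rt (f0 : V) = Rt f0) {w : V}
    (hw : InW w) (h : A w = 0) : w = 0 := by
  have h1 := D.em w hw
  rw [h, D.l_zero hm H hF hw, Em_zero_zero, map_one] at h1
  have h2 : pm (Em w 0) = pm (Em (0 : V) 0) := by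
    rw [Em_zero_zero, map_one]
    exact α.injective (h1.trans (map_one α).symm)
  exact (pm_Em_inj (by omega) hw InW.zero h2).1

include hm H in
theorem RadData.A_surj [Finite F] (D : RadData α A l ψ) (hF : α '' Rt (f0 : V) = Rt f0) {y : V}
    (hy : InW y) : ∃ w : V, InW w ∧ A w = y := by
  let f : {w : V // InW w} → {w : V // InW w} := fun w => ⟨A w.1, D.mapsW w.1 w.2⟩
  have hinj : Function.Injective f := by
    rintro ⟨w, hw⟩ ⟨w', hw'⟩ h
    have h1 : A w = A w' := congrArg Subtype.val h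
    have h2 := D.A_add hm H hF (hw.sub hw') hw'
    rw [sub_add_cancel, h1] at h2
    have h3 : A (w - w') = 0 := by
      have h5 : A (w - w') + A w' = 0 + A w' := by rw [zero_add]; exact h2.symm
      exact add_right_cancel h5
    have h4 := D.A_inj hm H hF (hw.sub hw') h3
    exact Subtype.ext (sub_eq_zero.mp h4)
  obtain ⟨⟨w, hw⟩, h⟩ := Finite.surjective_of_injective hinj ⟨y, hy⟩
  exact ⟨w, hw, congrArg Subtype.val h⟩

include hm H in
theorem RadData.phi_W [Finite F] (D : RadData α A l ψ) (hE : α '' Rt (e0 : V) = Rt e0)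
    (hF : α '' Rt (f0 : V) = Rt f0) {w : V} (hw : InW w) (hw0 : w ≠ 0) :
    Par (A w) (phi H α w) := by
  have hpe : Par (e0 : V) (phi H α e0) := phi_par_of_image hm H α e0_ne_zero hE
  have hpf : Par (f0 : V) (phi H α f0) := phi_par_of_image hm H α f0_ne_zero hF
  have hφW : InW (phi H α w) := by
    constructor
    · rw [← hpe.perp_iff', phi_perp hm H α hw0 e0_ne_zero]
      exact hw.1
    · rw [← hpf.perp_iff', phi_perp hm H α hw0 f0_ne_zero]
      exact hw.2
  have hAw0 : A w ≠ 0 := fun h => hw0 (D.A_inj hm H hF hw h)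
  apply par_of_perp_imp hAw0 (phi_ne_zero H α hw0)
  intro y hy
  rw [← B_prW' y _ (D.mapsW w hw)] at hy
  rw [← B_prW' y _ hφW]
  obtain ⟨w₂, hw₂, hAw₂⟩ := D.A_surj hm H hF (prW_inW y)
  rw [← hAw₂] at hy ⊢
  rw [D.B_A hm H hF hw hw₂] at hy
  have h0 : B w w₂ = 0 := D.psi_inj hm (hy.trans (D.psi_zero hm).symm)
  have h1 : B ((f0 : V) + w₂ + (0 : F) • e0) w = 0 := by
    rw [sympForm_add_left, sympForm_add_left, sympForm_smul_left, hw.f0_left, B_swap_zero h0]
    ring
  rw [← phi_perp hm H α (opp_ne_zero hw₂ 0) hw0, (D.opp hm H hF hw₂ 0).perp_iff] at h1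
  rw [sympForm_add_left, sympForm_add_left, sympForm_smul_left, hφW.f0_left, hφW.e0_left] at h1
  apply B_swap_zero
  linear_combination h1

include hm H in
theorem RadData.A_smul [Finite F] (D : RadData α A l ψ) (hE : α '' Rt (e0 : V) = Rt e0)
    (hF : α '' Rt (f0 : V) = Rt f0) {w : V} (hw : InW w) (a : F) :
    A (a • w) = (ψ a / ψ 1) • A w := by
  by_cases ha : a = 0
  · rw [ha, zero_smul, (D.zero hm).1, D.psi_zero hm, zero_div, zero_smul]
  by_cases hw0 : w = 0
  · rw [hw0, smul_zero, (D.zero hm).1, smul_zero]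
  have haw : a • w ≠ 0 := smul_ne_zero ha hw0
  have h1 := D.phi_W hm H hE hF hw hw0
  have h2 := D.phi_W hm H hE hF (hw.smul a) haw
  have h3 : Par (phi H α w) (phi H α (a • w)) := phi_par hm H α hw0 ⟨a, ha, rfl⟩
  obtain ⟨t, -, ht⟩ := (h1.trans h3).trans h2.symm
  obtain ⟨w', hw', hww'⟩ := exists_inW_pair hw hw0
  have h4 := D.B_A hm H hF (hw.smul a) hw'
  rw [ht, sympForm_smul_left, D.B_A hm H hF hw hw', sympForm_smul_left, hww', mul_one] at h4
  have hψ1 : ψ 1 ≠ 0 := fun h => one_ne_zero (D.psi_inj hm (h.trans (D.psi_zero hm).symm))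
  rw [ht]
  congr 1
  rw [eq_div_iff hψ1, h4]

/-- The normal form of the action of a normalised automorphism on the radical. -/
structure IsPara (α : MulAut (Cfsg.PSp m F))
    (A : (Fin m ⊕ Fin m → F) → (Fin m ⊕ Fin m → F)) (τ : F ≃+* F) (μ₀ : F) : Prop where
  mu_ne : μ₀ ≠ 0
  mapsW : ∀ w, InW w → InW (A w)
  add : ∀ w w', InW w → InW w' → A (w + w') = A w + A w'
  smul : ∀ (a : F) w, InW w → A (a • w) = τ a • A w
  form : ∀ w w', InW w → InW w' → Cfsg.sympForm m F (A w) (A w') = μ₀ * τ (Cfsg.sympForm m F w w')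
  em : ∀ w c, InW w → α (pm (Em w c)) = pm (Em (A w) (μ₀ * τ c))

include hm H in
theorem exists_para [Finite F] (α : MulAut PSpm) (hE : α '' Rt (e0 : V) = Rt e0)
    (hF : α '' Rt (f0 : V) = Rt f0) :
    ∃ (A : V → V) (τ : F ≃+* F) (μ₀ : F), IsPara α A τ μ₀ := by
  obtain ⟨A, l, ψ, D⟩ := exists_radData hm H (α := α) hE
  have hψ1 : ψ 1 ≠ 0 := fun h => one_ne_zero (D.psi_inj hm (h.trans (D.psi_zero hm).symm))
  obtain ⟨w₀, hw₀, hw₀0⟩ := exists_inW_ne_zero (F := F) hm
  have hAw₀ : A w₀ ≠ 0 := fun h => hw₀0 (D.A_inj hm H hF hw₀ h)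
  let τ₀ : F →+* F :=
    { toFun := fun a => ψ a / ψ 1
      map_one' := div_self hψ1
      map_mul' := by
        intro a b
        have h1 := D.A_smul hm H hE hF hw₀ (a * b)
        rw [mul_smul, D.A_smul hm H hE hF (hw₀.smul b) a, D.A_smul hm H hE hF hw₀ b, smul_smul]
          at h1
        have h2 : (ψ a / ψ 1 * (ψ b / ψ 1) - ψ (a * b) / ψ 1) • A w₀ = 0 := by
          rw [sub_smul, h1, sub_self]
        rcases smul_eq_zero.mp h2 with h3 | h3
        · exact (sub_eq_zero.mp h3).symm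
        · exact absurd h3 hAw₀
      map_zero' := by rw [D.psi_zero hm, zero_div]
      map_add' := by
        intro a b
        rw [D.psi_add hm, add_div] }
  have hbij : Function.Bijective τ₀ :=
    ⟨τ₀.injective, Finite.surjective_of_injective τ₀.injective⟩
  refine ⟨A, RingEquiv.ofBijective τ₀ hbij, ψ 1, hψ1, D.mapsW, fun w w' hw hw' =>
    D.A_add hm H hF hw hw', fun a w hw => D.A_smul hm H hE hF hw a, fun w w' hw hw' => ?_,
    fun w c hw => ?_⟩
  · rw [D.B_A hm H hF hw hw']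
    show ψ (B w w') = ψ 1 * (ψ (B w w') / ψ 1)
    field_simp
  · rw [D.em' hw, D.l_zero hm H hF hw, zero_add]
    show pm (Em (A w) (ψ c)) = pm (Em (A w) (ψ 1 * (ψ c / ψ 1)))
    congr 2
    field_simp

end Cfsg.Agent.Lib.Helper43.AutPSp
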