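import Mathlib
import Cfsg.Agent.Lib.Helper43.AutPSp.Para2

set_option autoImplicit false

/-!
# The structure of `Aut(PSp_{2m}(F))`

Assuming that automorphisms permute the root subgroups, every automorphism is induced by a
semilinear conformal symplectic map.
-/

namespace Cfsg.Agent.Lib.Helper43.AutPSp

open Matrix Cfsg.Agent.Lib.Helper13

variable {m : ℕ} {F : Type*} [Field F] [NeZero m]

local notation "V" => Fin m ⊕ Fin m → F
local notation "Mx" => Matrix (Fin m ⊕ Fin m) (Fin m ⊕ Fin m) F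
set_option quotPrecheck false in
local notation "Sp" => ↥(Matrix.symplecticGroup (Fin m) F)
local notation "PSpm" => Cfsg.PSp m F
local notation "B" => Cfsg.sympForm m F
local notation "GLm" => GL (Fin m ⊕ Fin m) F

section build

variable {α : MulAut (Cfsg.PSp m F)} {A : (Fin m ⊕ Fin m → F) → (Fin m ⊕ Fin m → F)}
  {τ : F ≃+* F} {μ₀ : F}

theorem IsPara.A_zero (P : IsPara α A τ μ₀) : A 0 = 0 := by
  have := P.smul 0 0 InW.zero
  rwa [zero_smul, map_zero, zero_smul] at this

theorem G0_isLinear (P : IsPara α A τ μ₀) :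
    IsLinearMap F (fun v : V => (μ₀ * B f0 v) • (e0 : V) + B v e0 • (f0 : V) +
      A (tw τ.symm (prW v))) := by
  constructor
  · intro u v
    simp only [sympForm_add_right, sympForm_add_left, prW_add, tw_add]
    rw [P.add _ _ ((prW_inW u).tw _) ((prW_inW v).tw _)]
    module
  · intro a v
    simp only [sympForm_smul_right, sympForm_smul_left, prW_smul, tw_smul]
    rw [P.smul _ _ ((prW_inW v).tw _), τ.apply_symm_apply]
    module

/-- The conformal symplectic matrix extending the action on the radical. -/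
theorem exists_gsp (P : IsPara α A τ μ₀) : ∃ g : ↥(Cfsg.GSp m F),
    ((g : GLm) : Mx) *ᵥ (e0 : V) = μ₀ • (e0 : V) ∧ ((g : GLm) : Mx) *ᵥ (f0 : V) = f0 ∧
    (∀ w : V, InW w → ((g : GLm) : Mx) *ᵥ tw τ w = A w) ∧ mult (g : GLm) = μ₀ := by
  obtain ⟨M, hM⟩ : ∃ M : Mx, ∀ v : V, M *ᵥ v = (μ₀ * B f0 v) • (e0 : V) + B v e0 • (f0 : V) +
      A (tw τ.symm (prW v)) := by
    refine ⟨LinearMap.toMatrix' ((G0_isLinear P).mk' _), fun v => ?_⟩
    rw [← Matrix.toLin'_apply, Matrix.toLin'_toMatrix']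
    rfl
  have hsim : ∀ u v : V, B (M *ᵥ u) (M *ᵥ v) = μ₀ * B u v := by
    intro u v
    have hu := (prW_inW u).tw τ.symm
    have hv := (prW_inW v).tw τ.symm
    have hAu := P.mapsW _ hu
    have hAv := P.mapsW _ hv
    rw [hM, hM]
    simp only [sympForm_add_left, sympForm_add_right, sympForm_smul_left, sympForm_smul_right,
      sympForm_self, B_f0_e0, B_e0_f0, hAu.1, hAu.2, hAv.e0_left, hAv.f0_left]
    rw [P.form _ _ hu hv, B_tw, τ.apply_symm_apply]
    have h1 : B u v = B (B f0 u • (e0 : V) + B u e0 • (f0 : V) + prW u)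
        (B f0 v • (e0 : V) + B v e0 • (f0 : V) + prW v) := by
      rw [← decomp u, ← decomp v]
    rw [h1]
    simp only [sympForm_add_left, sympForm_add_right, sympForm_smul_left, sympForm_smul_right,
      sympForm_self, B_f0_e0, B_e0_f0, (prW_inW u).1, (prW_inW u).2, (prW_inW v).e0_left,
      (prW_inW v).f0_left]
    ring
  have hinj : Function.Injective M.mulVec := by
    intro u v huv
    have h1 : ∀ y : V, B y (u - v) = 0 := by
      intro y
      have h2 := hsim y (u - v)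
      rw [Matrix.mulVec_sub, show M *ᵥ u = M *ᵥ v from huv, sub_self, sympForm_zero_right] at h2
      exact (mul_eq_zero.mp h2.symm).resolve_left P.mu_ne
    exact sub_eq_zero.mp (eq_zero_of_perp h1)
  have hunit : IsUnit M := Matrix.mulVec_injective_iff_isUnit.mp hinj
  have hcoe : ((hunit.unit : GLm) : Mx) = M := IsUnit.unit_spec hunit
  have hmem : hunit.unit ∈ Cfsg.GSp m F := by
    refine ⟨Units.mk0 μ₀ P.mu_ne, fun u v => ?_⟩
    rw [hcoe]
    exact hsim u v
  have he : M *ᵥ (e0 : V) = μ₀ • (e0 : V) := by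
    rw [hM, prW_e0, tw_zero, P.A_zero, B_f0_e0, sympForm_self]
    module
  have hf : M *ᵥ (f0 : V) = f0 := by
    rw [hM, prW_f0, tw_zero, P.A_zero, B_f0_e0, sympForm_self]
    module
  refine ⟨⟨hunit.unit, hmem⟩, ?_, ?_, ?_, ?_⟩
  · show ((hunit.unit : GLm) : Mx) *ᵥ (e0 : V) = _
    rw [hcoe, he]
  · show ((hunit.unit : GLm) : Mx) *ᵥ (f0 : V) = _
    rw [hcoe, hf]
  · intro w hw
    show ((hunit.unit : GLm) : Mx) *ᵥ tw τ w = _
    have hw' := hw.tw τ
    rw [hcoe, hM, hw'.f0_left, hw'.1, prW_of_inW hw', tw_symm]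
    module
  · show mult (hunit.unit : GLm) = μ₀
    unfold mult
    rw [hcoe, he, hf, sympForm_smul_right, B_f0_e0, mul_one]

/-- The standard automorphism acts on the radical as the given one. -/
theorem gamma_Em (P : IsPara α A τ μ₀) (g : ↥(Cfsg.GSp m F))
    (he : ((g : GLm) : Mx) *ᵥ (e0 : V) = μ₀ • (e0 : V))
    (hw : ∀ w : V, InW w → ((g : GLm) : Mx) *ᵥ tw τ w = A w) (hmu : mult (g : GLm) = μ₀)
    {w : V} (hw' : InW w) (c : F) :
    (cg g * fg (τ : RingAut F) : MulAut PSpm) (pm (Em w c)) = pm (Em (A w) (μ₀ * τ c)) := by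
  show cg g (fg τ (pm (Em w c))) = _
  rw [fg_pm, cg_pm]
  congr 1
  apply sp_ext
  intro y
  have hy : y = ((g : GLm) : Mx) *ᵥ tw τ (tw τ.symm ((((g : GLm)⁻¹ : GLm) : Mx) *ᵥ y)) := by
    rw [tw_symm', gl_mulVec_inv]
  obtain ⟨v, hv⟩ : ∃ v : V, v = tw τ.symm ((((g : GLm)⁻¹ : GLm) : Mx) *ᵥ y) := ⟨_, rfl⟩
  rw [← hv] at hy
  have hform : ∀ u : V, B (((g : GLm) : Mx) *ᵥ tw τ v) (((g : GLm) : Mx) *ᵥ tw τ u) =
      μ₀ * τ (B v u) := by
    intro u
    rw [B_gsp g.2, hmu, B_tw]
  have h1 : B (((g : GLm) : Mx) *ᵥ tw τ v) e0 = τ (B v e0) := by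
    have h2 := hform e0
    rw [tw_e0, he, sympForm_smul_right] at h2
    exact mul_left_cancel₀ P.mu_ne h2
  have h3 : B (((g : GLm) : Mx) *ᵥ tw τ v) (A w) = μ₀ * τ (B v w) := by
    rw [← hw w hw', hform]
  rw [hy, gAutS_mulVec, fAutS_mulVec, Em_mulVec hw', Em_mulVec (P.mapsW w hw'), h1, h3]
  simp only [tw_add, tw_smul, Matrix.mulVec_add, Matrix.mulVec_smul, tw_e0, he, hw w hw', map_mul]
  module

theorem gamma_Rt_f0 (g : ↥(Cfsg.GSp m F)) (τ : RingAut F)
    (hf : ((g : GLm) : Mx) *ᵥ (f0 : V) = f0) :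
    (cg g * fg τ : MulAut PSpm) '' Rt (f0 : V) = Rt f0 := by
  have : (cg g * fg τ : MulAut PSpm) '' Rt (f0 : V) = cg g '' (fg τ '' Rt (f0 : V)) := by
    rw [Set.image_image]
    rfl
  rw [this, fg_Rt, tw_f0, cg_Rt, hf]

end build

variable (hm : 2 ≤ m) (H : RootPerm m F)

include hm H in
/-- An automorphism fixing the radical pointwise and the root group of `f0` is trivial. -/
theorem eq_one_of_fix (α : MulAut PSpm)
    (hEm : ∀ (w : V) (c : F), InW w → α (pm (Em w c)) = pm (Em w c))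
    (hF : α '' Rt (f0 : V) = Rt f0) : α = 1 := by
  have hpf : Par (f0 : V) (phi H α f0) := phi_par_of_image hm H α f0_ne_zero hF
  have hE : α '' Rt (e0 : V) = Rt e0 := by
    have h1 : ∀ c : F, α (pm (tvS e0 c)) = pm (tvS e0 c) := by
      intro c
      rw [← Em_zero, hEm 0 c InW.zero]
    apply Set.Subset.antisymm
    · rintro _ ⟨x, ⟨c, rfl⟩, rfl⟩
      exact ⟨c, (h1 c).symm⟩
    · rintro _ ⟨c, rfl⟩
      exact ⟨_, ⟨c, rfl⟩, h1 c⟩
  have hpe : Par (e0 : V) (phi H α e0) := phi_par_of_image hm H α e0_ne_zero hE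
  -- points off `e0^⊥`
  have h1 : ∀ y : V, B y e0 ≠ 0 → Par y (phi H α y) := by
    intro y hy
    have hy0 : y ≠ 0 := by
      rintro rfl
      exact hy (sympForm_zero_left m _)
    obtain ⟨w, hw, c, hyw⟩ : ∃ w : V, InW w ∧ ∃ c : F, y = B y e0 • ((f0 : V) + w + c • e0) := by
      refine ⟨(B y e0)⁻¹ • prW y, (prW_inW y).smul _, (B y e0)⁻¹ * B f0 y, ?_⟩
      have := decomp y
      rw [smul_add, smul_add, smul_smul, smul_smul, ← mul_assoc, mul_inv_cancel₀ hy, one_smul,
        one_mul]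
      nth_rewrite 1 [this]
      module
    have h2 := phi_equiv hm H α (Em w c) (Em w c) (hEm w c hw) f0_ne_zero
    rw [Em_f0 hw] at h2
    have h3 := hpf.mulVec (Em w c).1
    rw [Em_f0 hw] at h3
    have h4 : Par ((f0 : V) + w + c • e0) y := ⟨B y e0, hy, hyw⟩
    exact (h4.symm.trans (h3.trans h2)).trans (phi_par hm H α (opp_ne_zero hw c) h4)
  -- all points
  have h2 : ∀ y : V, y ≠ 0 → Par y (phi H α y) := by
    intro y hy
    by_cases hye : B y e0 = 0
    swap
    · exact h1 y hye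
    by_cases hpar : Par (e0 : V) y
    · exact (hpar.symm.trans hpe).trans (phi_par hm H α e0_ne_zero hpar)
    obtain ⟨z₀, hz1, hz2⟩ := sympForm_separate y e0 hy (by
      intro c hc
      apply hpar
      have hc0 : c ≠ 0 := by
        rintro rfl
        rw [zero_smul] at hc
        exact e0_ne_zero hc
      exact Par.symm ⟨c, hc0, hc⟩)
    have hz2' : B z₀ e0 ≠ 0 := by
      rw [sympForm_swap]
      exact neg_ne_zero.mpr hz2
    have hcase : ∀ z : V, B z e0 ≠ 0 → B y z = 0 → B (phi H α y) z = 0 := by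
      intro z hz hyz
      have hz0 : z ≠ 0 := by
        rintro rfl
        exact hz (sympForm_zero_left m _)
      rw [← (h1 z hz).perp_iff', phi_perp hm H α hy hz0]
      exact hyz
    apply par_of_perp_imp hy (phi_ne_zero H α hy)
    intro z hyz
    by_cases hz : B z e0 = 0
    · have h3 := hcase (z + z₀) (by rw [sympForm_add_left, hz, zero_add]; exact hz2')
        (by rw [sympForm_add_right, hyz, hz1, add_zero])
      have h4 := hcase z₀ hz2' hz1
      rw [sympForm_add_right, h4, add_zero] at h3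
      exact h3
    · exact hcase z hz hyz
  ext x
  obtain ⟨s, rfl⟩ := pm_surjective x
  obtain ⟨s', hs'⟩ := pm_surjective (α (pm s))
  rw [MulAut.one_apply, ← hs']
  apply (pm_eq_of_par (by omega) s s' _).symm
  intro y hy
  have h3 := phi_equiv hm H α s s' hs'.symm hy
  have h4 := (h2 y hy).mulVec s'.1
  have h5 := h2 (s.1 *ᵥ y) (mulVec_ne_zero s hy)
  exact h5.trans (h4.trans h3).symm

include hm H in
/-- The structure theorem for normalised automorphisms. -/
theorem aut_normalized [Finite F] (α : MulAut PSpm) (hE : α '' Rt (e0 : V) = Rt e0)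
    (hF : α '' Rt (f0 : V) = Rt f0) :
    ∃ (g : ↥(Cfsg.GSp m F)) (τ : RingAut F), α = cg g * fg τ := by
  obtain ⟨A, τ, μ₀, P⟩ := exists_para hm H α hE hF
  obtain ⟨g, he, hf, hw, hmu⟩ := exists_gsp P
  refine ⟨g, τ, ?_⟩
  have h1 : (cg g * fg (τ : RingAut F))⁻¹ * α = 1 := by
    apply eq_one_of_fix hm H
    · intro w c hw'
      rw [MulAut.mul_apply, P.em w c hw', ← gamma_Em P g he hw hmu hw' c, MulAut.inv_apply_self]
    · have h2 := gamma_Rt_f0 g (τ : RingAut F) hf
      apply Set.Subset.antisymm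
      · rintro _ ⟨x, hx, rfl⟩
        have h3 : α x ∈ Rt (f0 : V) := by
          rw [← hF]
          exact ⟨x, hx, rfl⟩
        rw [← h2] at h3
        obtain ⟨y, hy, e⟩ := h3
        rw [MulAut.mul_apply, ← e, MulAut.inv_apply_self]
        exact hy
      · intro y hy
        have h3 : (cg g * fg (τ : RingAut F) : MulAut PSpm) y ∈ Rt (f0 : V) := by
          rw [← h2]
          exact ⟨y, hy, rfl⟩
        rw [← hF] at h3
        obtain ⟨x, hx, e⟩ := h3
        exact ⟨x, hx, by rw [MulAut.mul_apply, e, MulAut.inv_apply_self]⟩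
  exact (inv_mul_eq_one.mp h1).symm

include hm H in
/-- **Structure theorem**: every automorphism of `PSp_{2m}(F)` is induced by a semilinear
conformal symplectic map (given that automorphisms permute the root subgroups). -/
theorem aut_structure [Finite F] (α : MulAut PSpm) :
    ∃ (g : ↥(Cfsg.GSp m F)) (τ : RingAut F), α = cg g * fg τ := by
  have hne : B (phi H α (f0 : V)) (phi H α (e0 : V)) ≠ 0 := by
    rw [Ne, phi_perp hm H α f0_ne_zero e0_ne_zero, B_f0_e0]
    exact one_ne_zero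
  obtain ⟨s, hs1, hs2⟩ := Cfsg.Agent.Lib.Helper40.exists_symplectic_pair m (f0 : V) e0
    ((B (phi H α (f0 : V)) (phi H α (e0 : V)))⁻¹ • phi H α (f0 : V)) (phi H α (e0 : V)) B_f0_e0
    (by rw [sympForm_smul_left, inv_mul_cancel₀ hne])
  have hconj : ∀ u : V, ((MulAut.conj (pm s))⁻¹ * α : MulAut PSpm) '' Rt u =
      Rt ((s⁻¹).1 *ᵥ phi H α u) ∨ u = 0 := by
    intro u
    by_cases hu : u = 0
    · exact Or.inr hu
    left
    rw [← conj_Rt, ← phi_Rt H α hu, Set.image_image]
    apply Set.image_congr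
    intro z _
    rw [MulAut.mul_apply, MulAut.conj_inv_apply, map_inv, inv_inv]
  have hE : ((MulAut.conj (pm s))⁻¹ * α : MulAut PSpm) '' Rt (e0 : V) = Rt e0 := by
    rw [(hconj e0).resolve_right e0_ne_zero, ← hs2, inv_mulVec]
  have hF : ((MulAut.conj (pm s))⁻¹ * α : MulAut PSpm) '' Rt (f0 : V) = Rt f0 := by
    rw [(hconj f0).resolve_right f0_ne_zero]
    have h1 : phi H α (f0 : V) = B (phi H α (f0 : V)) (phi H α (e0 : V)) •
        (s.1 *ᵥ (f0 : V)) := by
      show _ = _ • (s.1.mulVec f0)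
      rw [hs1, smul_smul, mul_inv_cancel₀ hne, one_smul]
    rw [h1, Matrix.mulVec_smul, inv_mulVec, Rt_smul hne]
  obtain ⟨g, τ, e⟩ := aut_normalized hm H _ hE hF
  refine ⟨toGSp s * g, τ, ?_⟩
  rw [map_mul, cg_toGSp, mul_assoc, ← e, mul_inv_cancel_left]

end Cfsg.Agent.Lib.Helper43.AutPSp
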