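import Mathlib
import Cfsg.Agent.Lib.Helper43.AutPSp.SylowOdd
import Cfsg.Agent.Lib.Helper43.AutPSp.Point
import Cfsg.Agent.Lib.Helper13.SpNondeg

set_option autoImplicit false

/-!
# Transvections are preserved by automorphisms in characteristic two (`m ≥ 3`)
-/

namespace Cfsg.Agent.Lib.Helper43.AutPSp

open Matrix Cfsg.Agent.Lib.Helper13
open scoped Pointwise

variable {m : ℕ} {F : Type*} [Field F]

local notation "V" => Fin m ⊕ Fin m → F
local notation "Mx" => Matrix (Fin m ⊕ Fin m) (Fin m ⊕ Fin m) F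
set_option quotPrecheck false in
local notation "Sp" => ↥(Matrix.symplecticGroup (Fin m) F)
local notation "PSpm" => Cfsg.PSp m F
local notation "B" => Cfsg.sympForm m F

/-! ### From transvections to root subgroups -/

/-- The images of the non-trivial transvections. -/
def TvSet (m : ℕ) (F : Type*) [Field F] : Set (Cfsg.PSp m F) :=
  {x | ∃ (u : Fin m ⊕ Fin m → F) (c : F), u ≠ 0 ∧ c ≠ 0 ∧ x = pm (tvS u c)}

/-- The root subgroup of a transvection, described through commutation. -/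
def RC (t : Cfsg.PSp m F) : Set (Cfsg.PSp m F) :=
  {s | s = 1 ∨ (s ∈ TvSet m F ∧ ∀ t' ∈ TvSet m F, t' * t = t * t' → t' * s = s * t')}

theorem RC_eq (hm : 2 ≤ m) {u : V} (hu : u ≠ 0) {c : F} (hc : c ≠ 0) :
    RC (pm (tvS u c)) = Rt u := by
  apply Set.Subset.antisymm
  · rintro s (rfl | ⟨⟨v, d, hv, hd, rfl⟩, hcomm⟩)
    · exact one_mem_Rt u
    · have hpar : Par u v := by
        apply par_of_perp_imp hu hv
        intro y hy
        by_cases hy0 : y = 0
        · rw [hy0, sympForm_zero_right]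
        · have h1 : pm (tvS y 1) * pm (tvS u c) = pm (tvS u c) * pm (tvS y 1) :=
            (comm_iff_perp hm hy0 one_ne_zero hc).mpr (B_swap_zero hy)
          have h2 := hcomm _ ⟨y, 1, hy0, one_ne_zero, rfl⟩ h1
          exact B_swap_zero ((comm_iff_perp hm hy0 one_ne_zero hd).mp h2)
      rw [Rt_eq_of_par hpar]
      exact ⟨d, rfl⟩
  · rintro s ⟨d, rfl⟩
    by_cases hd : d = 0
    · left
      rw [hd, tvS_zero, map_one]
    · right
      refine ⟨⟨u, d, hu, hd, rfl⟩, ?_⟩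
      rintro _ ⟨v, e, hv, he, rfl⟩ h
      have := (comm_iff_perp hm hv he hc).mp h
      exact (comm_iff_perp hm hv he hd).mpr this

theorem RC_map_subset (hT : ∀ (α : MulAut PSpm) (x : PSpm), x ∈ TvSet m F → α x ∈ TvSet m F)
    (α : MulAut PSpm) (t : PSpm) {s : PSpm} (hs : s ∈ RC t) : α s ∈ RC (α t) := by
  rcases hs with rfl | ⟨hs, hc⟩
  · left
    exact map_one α
  · right
    refine ⟨hT α s hs, fun t'' ht'' h => ?_⟩
    have h1 : α⁻¹ t'' * t = t * α⁻¹ t'' := by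
      have := congrArg (fun z => (α⁻¹ : MulAut PSpm) z) h
      simp only [map_mul, MulAut.inv_apply_self] at this
      exact this
    have h2 := hc _ (hT α⁻¹ t'' ht'') h1
    have := congrArg (fun z => α z) h2
    simp only [map_mul, MulAut.apply_inv_self] at this
    exact this

theorem RC_map (hT : ∀ (α : MulAut PSpm) (x : PSpm), x ∈ TvSet m F → α x ∈ TvSet m F)
    (α : MulAut PSpm) (t : PSpm) : α '' RC t = RC (α t) := by
  apply Set.Subset.antisymm
  · rintro _ ⟨s, hs, rfl⟩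
    exact RC_map_subset hT α t hs
  · intro y hy
    refine ⟨α⁻¹ y, ?_, MulAut.apply_inv_self _ α y⟩
    have := RC_map_subset hT α⁻¹ (α t) hy
    rwa [MulAut.inv_apply_self] at this

/-- If automorphisms preserve transvections, they permute the root subgroups. -/
theorem root_perm_of_tv (hm : 2 ≤ m)
    (hT : ∀ (α : MulAut PSpm) (x : PSpm), x ∈ TvSet m F → α x ∈ TvSet m F) : RootPerm m F := by
  intro α u hu
  obtain ⟨u', c', hu', hc', e⟩ := hT α (pm (tvS u 1)) ⟨u, 1, hu, one_ne_zero, rfl⟩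
  refine ⟨u', hu', ?_⟩
  rw [← RC_eq hm hu one_ne_zero, RC_map hT, e, RC_eq hm hu' hc']

/-! ### Characteristic two -/

theorem exists_perp4 (hm : 3 ≤ m) (a b c d : V) :
    ∃ x : V, x ≠ 0 ∧ B x a = 0 ∧ B x b = 0 ∧ B x c = 0 ∧ B x d = 0 := by
  let L : V →ₗ[F] (Fin 4 → F) :=
    (Matrix.of ![Matrix.J (Fin m) F *ᵥ a, Matrix.J (Fin m) F *ᵥ b, Matrix.J (Fin m) F *ᵥ c,
      Matrix.J (Fin m) F *ᵥ d]).mulVecLin
  have hker : LinearMap.ker L ≠ ⊥ := by
    apply LinearMap.ker_ne_bot_of_finrank_lt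
    rw [Module.finrank_fin_fun, Module.finrank_fintype_fun_eq_card, Fintype.card_sum,
      Fintype.card_fin]
    omega
  obtain ⟨x, hx, hx0⟩ := (Submodule.ne_bot_iff _).mp hker
  refine ⟨x, hx0, ?_, ?_, ?_, ?_⟩
  · have := congrFun (LinearMap.mem_ker.mp hx) 0
    unfold Cfsg.sympForm
    rw [dotProduct_comm]
    exact this
  · have := congrFun (LinearMap.mem_ker.mp hx) 1
    unfold Cfsg.sympForm
    rw [dotProduct_comm]
    exact this
  · have := congrFun (LinearMap.mem_ker.mp hx) 2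
    unfold Cfsg.sympForm
    rw [dotProduct_comm]
    exact this
  · have := congrFun (LinearMap.mem_ker.mp hx) 3
    unfold Cfsg.sympForm
    rw [dotProduct_comm]
    exact this

section two

variable [NeZero m] (h2 : (2 : F) = 0)

include h2 in
theorem add_self_two (a : F) : a + a = 0 := by
  rw [← two_mul, h2, zero_mul]

include h2 in
theorem add_self_vec (v : V) : v + v = 0 := by
  rw [← two_smul F, h2, zero_smul]

include h2 in
theorem neg_vec (v : V) : -v = v := by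
  rw [neg_eq_iff_add_eq_zero, add_self_vec h2]

include h2 in
theorem negS_eq_one : (negS : Sp) = 1 := by
  apply sp_ext
  intro v
  rw [negS_coe, Matrix.neg_mulVec, Matrix.one_mulVec, mulVec_one, neg_vec h2]

include h2 in
theorem pm_inj_two (hm : 1 ≤ m) : Function.Injective (pm (m := m) (F := F)) := by
  intro A C h
  rcases (pm_eq_iff hm A C).mp h with h | h
  · exact h
  · rw [h, negS_eq_one h2, one_mul]

include h2 in
/-- In characteristic two an element commuting with the radical lies in it. -/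
theorem comm_Qe_two (hm : 1 ≤ m) (x : Sp)
    (hx : ∀ (w : V) (c : F), InW w → pm x * pm (Em w c) = pm (Em w c) * pm x) :
    ∃ (w₀ : V) (c₀ : F), InW w₀ ∧ x = Em w₀ c₀ := by
  have hc : ∀ (w : V) (c : F), InW w → x * Em w c = Em w c * x := by
    intro w c hw
    have := hx w c hw
    rw [← map_mul, ← map_mul] at this
    exact pm_inj_two h2 hm this
  have he : x.1 *ᵥ (e0 : V) = e0 := by
    have h0 := hc 0 1 InW.zero
    rw [Em_zero] at h0
    rcases fix_e0_of_comm one_ne_zero h0 with h | h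
    · exact h
    · rw [h, neg_vec h2]
  have hfe : B (x.1 *ᵥ f0) e0 = 1 := by
    have := B_sp x f0 e0
    rwa [he, B_f0_e0] at this
  refine ⟨_, _, prW_inW _, eq_Em_of_fix x he ?_⟩
  intro w hw
  have h1 := congrArg (fun M : Sp => M.1 *ᵥ f0) (hc w 0 hw)
  simp only [mulVec_mul, Em_f0 hw, Em_mulVec hw, hfe, Matrix.mulVec_add, Matrix.mulVec_smul,
    he] at h1
  refine ⟨B (x.1 *ᵥ f0) w, ?_⟩
  have := sub_eq_zero.mpr h1
  rw [← sub_eq_zero, ← this]
  module

variable [Finite F]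

include h2 in
/-- A Sylow `2`-subgroup containing the radical fixes `e0`. -/
theorem sylow_fix_e0 (hm : 1 ≤ m) (P : Sylow 2 (Cfsg.PSp m F)) (hQ : (Qe m F).map pm ≤ P)
    (g : Sp) (hg : pm g ∈ P) : g.1 *ᵥ (e0 : V) = e0 := by
  letI act : MulAction Sp V :=
    { smul := fun g v => g.1 *ᵥ v
      one_smul := mulVec_one
      mul_smul := mulVec_mul }
  have hsm : ∀ (k : Sp) (v : V), k • v = k.1 *ᵥ v := fun _ _ => rfl
  have hK : IsPGroup 2 ↥((P : Subgroup PSpm).comap pm) :=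
    P.isPGroup'.comap_of_injective pm (pm_inj_two h2 hm)
  haveI : CharP F 2 := CharTwo.of_one_ne_zero_of_two_eq_zero one_ne_zero h2
  have hdvd : 2 ∣ Nat.card V := by
    have := Fintype.ofFinite F
    obtain ⟨n, -, hn⟩ := FiniteField.card F 2
    rw [Nat.card_eq_fintype_card, Fintype.card_fun, hn, ← pow_mul]
    apply dvd_pow_self
    have : 0 < Fintype.card (Fin m ⊕ Fin m) := Fintype.card_pos_iff.mpr ⟨Sum.inl 0⟩
    have hn0 := n.pos
    positivity
  have h0 : (0 : V) ∈ MulAction.fixedPoints ↥((P : Subgroup PSpm).comap pm) V := by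
    intro k
    show (k : Sp).1 *ᵥ (0 : V) = 0
    exact Matrix.mulVec_zero _
  obtain ⟨b, hb, hb0⟩ := hK.exists_fixed_point_of_prime_dvd_card_of_fixed_point V hdvd h0
  have hfix : ∀ k : Sp, pm k ∈ P → k.1 *ᵥ b = b := by
    intro k hk
    exact hb ⟨k, hk⟩
  have hEm : ∀ (w : V) (c : F), InW w → (Em w c).1 *ᵥ b = b := by
    intro w c hw
    exact hfix _ (hQ ⟨_, Em_mem_Qe hw c, rfl⟩)
  have hbe : B b e0 = 0 := by
    have h1 := hEm 0 1 InW.zero
    rw [Em_mulVec InW.zero, sympForm_zero_right] at h1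
    have h3 : B b e0 • (e0 : V) = 0 := by
      have := sub_eq_zero.mpr h1
      rw [← this]
      module
    rcases smul_eq_zero.mp h3 with h | h
    · exact h
    · exact absurd h e0_ne_zero
  have hbw : ∀ w : V, InW w → B b w = 0 := by
    intro w hw
    have h1 := hEm w 0 hw
    rw [Em_mulVec hw, hbe] at h1
    have h3 : B b w • (e0 : V) = 0 := by
      have := sub_eq_zero.mpr h1
      rw [← this]
      module
    rcases smul_eq_zero.mp h3 with h | h
    · exact h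
    · exact absurd h e0_ne_zero
  have hpr : prW b = 0 := by
    apply eq_zero_of_inW_perp (prW_inW _)
    intro y hy
    rw [sympForm_swap, B_prW _ _ hy, hbw y hy, neg_zero]
  have hb' : b = B f0 b • (e0 : V) := by
    have := decomp b
    rw [hbe, hpr, zero_smul, add_zero, add_zero] at this
    exact this
  have ha : B f0 b ≠ 0 := by
    intro h
    rw [h, zero_smul] at hb'
    exact hb0 hb'.symm
  have h3 := hfix g hg
  rw [hb', Matrix.mulVec_smul] at h3
  have h4 := congrArg (fun v : V => (B f0 b)⁻¹ • v) h3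
  simp only [smul_smul, inv_mul_cancel₀ ha, one_smul] at h4
  exact h4

include h2 in
theorem ZS_sylow_two (hm : 2 ≤ m) (P : Sylow 2 (Cfsg.PSp m F)) (hQ : (Qe m F).map pm ≤ P) :
    Rt (e0 : V) ⊆ ZS (P : Subgroup (Cfsg.PSp m F)) ∧
      ∀ z ∈ ZS (P : Subgroup (Cfsg.PSp m F)), ∃ (w : V) (c : F), InW w ∧ z = pm (Em w c) := by
  constructor
  · rintro _ ⟨c, rfl⟩
    refine ⟨hQ ⟨_, Em_mem_Qe InW.zero c, by rw [Em_zero]⟩, fun y hy => ?_⟩
    obtain ⟨g, rfl⟩ := pm_surjective y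
    have he := sylow_fix_e0 h2 (by omega) P hQ g hy
    rw [← map_mul, ← map_mul]
    congr 1
    have := conj_tvS g e0 c
    rw [he] at this
    exact eq_mul_of_mul_inv_eq this
  · rintro z ⟨-, hc⟩
    obtain ⟨x, rfl⟩ := pm_surjective z
    obtain ⟨w, c, hw, rfl⟩ := comm_Qe_two h2 (by omega) x (fun w c hw =>
      (hc _ (hQ ⟨_, Em_mem_Qe hw c, rfl⟩)).symm)
    exact ⟨w, c, hw, rfl⟩

omit [Finite F] in
include h2 in
/-- Transvections are odd transpositions in characteristic two. -/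
theorem tv_oddT (hm : 1 ≤ m) (u v : V) (c : F)
    (h4 : (pm (tvS u c) * pm (tvS v c)) ^ 4 = 1) : (pm (tvS u c) * pm (tvS v c)) ^ 2 = 1 := by
  by_cases hb : B u v = 0
  · rw [← map_mul, ← map_pow]
    have : (tvS u c * tvS v c) ^ 2 = 1 := by
      rw [pow_two, mul_assoc, ← mul_assoc (tvS v c), ← tvS_comm hb, mul_assoc, tvS_mul,
        ← mul_assoc, tvS_mul, add_self_two h2, tvS_zero, tvS_zero, one_mul]
    rw [this, map_one]
  by_cases hc : c = 0
  · rw [hc, tvS_zero, tvS_zero, map_one, one_mul, one_pow]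
  exfalso
  rw [← map_mul, ← map_pow] at h4
  have hg4 : (tvS u c * tvS v c) ^ 4 = 1 := pm_inj_two h2 hm (h4.trans (map_one pm).symm)
  obtain ⟨g, hg⟩ : ∃ g : Sp, g = tvS u c * tvS v c := ⟨_, rfl⟩
  rw [← hg] at hg4
  obtain ⟨s, hs⟩ : ∃ s : F, s = c * B u v := ⟨_, rfl⟩
  have hs0 : s ≠ 0 := by
    rw [hs]
    exact mul_ne_zero hc hb
  have key : ∀ a b : F, g.1 *ᵥ (a • u + b • v) =
      (a * (1 - s ^ 2) - b * s) • u + (a * s + b) • v := by
    intro a b
    rw [hg, mulVec_mul, tvS_mulVec, tvS_mulVec]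
    simp only [sympForm_add_left, sympForm_smul_left, sympForm_self, sympForm_swap m v u, hs]
    module
  have h5 := congrArg (fun M : Sp => M.1 *ᵥ ((0 : F) • u + (1 : F) • v)) hg4
  simp only [pow_succ, pow_zero, one_mul, mulVec_mul, key, mulVec_one] at h5
  have h6 := congrArg (fun x : V => B x v) h5
  simp only [sympForm_add_left, sympForm_smul_left, sympForm_self] at h6
  have h7 : s ^ 7 * B u v = 0 := by
    linear_combination h6 + (3 * s ^ 5 - 5 * s ^ 3 + 2 * s) * B u v * h2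
  rcases mul_eq_zero.mp h7 with h | h
  · exact hs0 (pow_eq_zero_iff (by norm_num) |>.mp h)
  · exact hb h

omit [Finite F] in
include h2 in
/-- The other central elements are not odd transpositions (`m ≥ 3`). -/
theorem Em_not_oddT (hm : 3 ≤ m) {w₀ : V} (hw₀ : InW w₀) (hw₀0 : w₀ ≠ 0) (c : F) :
    ∃ y : PSpm, IsConj (pm (Em w₀ c)) y ∧ (pm (Em w₀ c) * y) ^ 4 = 1 ∧
      (pm (Em w₀ c) * y) ^ 2 ≠ 1 := by
  obtain ⟨w', hw', hww'⟩ := exists_inW_pair hw₀ hw₀0
  obtain ⟨f₂, hf₂, hf₂w⟩ : ∃ f₂ : V, InW f₂ ∧ B f₂ w₀ = 1 :=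
    ⟨-w', hw'.neg, by rw [B_neg_left, sympForm_swap, hww', neg_neg]⟩
  have hwf₂ : B w₀ f₂ = -1 := by rw [sympForm_swap, hf₂w]
  obtain ⟨e₃, he₃0, h31, h32, h33, h34⟩ := exists_perp4 hm (e0 : V) f0 w₀ f₂
  have he₃ : InW e₃ := ⟨h31, h32⟩
  have hw₀e₃ : B w₀ e₃ = 0 := B_swap_zero h33
  have hf₂e₃ : B f₂ e₃ = 0 := B_swap_zero h34
  have hf₂0 : f₂ ≠ 0 := by
    rintro rfl
    rw [sympForm_zero_left] at hf₂w
    exact zero_ne_one hf₂w
  -- the conjugating element
  have hx : LinearIndependent F ![(e0 : V), w₀] := by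
    rw [LinearIndependent.pair_iff' e0_ne_zero]
    intro a ha
    have := congrArg (fun v : V => B f0 v) ha
    simp only [sympForm_smul_right, B_f0_e0, hw₀.f0_left, mul_one] at this
    rw [this, zero_smul] at ha
    exact hw₀0 ha.symm
  have hy : LinearIndependent F ![f₂, e₃] := by
    rw [LinearIndependent.pair_iff' hf₂0]
    intro a ha
    have := congrArg (fun v : V => B v w₀) ha
    simp only [sympForm_smul_left, hf₂w, h33, mul_one] at this
    rw [this, zero_smul] at ha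
    exact he₃0 ha.symm
  obtain ⟨g, hg⟩ := witt_gram_tuples ![(e0 : V), w₀] ![f₂, e₃] hx hy (by
    intro i j
    fin_cases i <;> fin_cases j <;>
      simp [sympForm_self, hw₀.e0_left, hw₀.1, hf₂e₃, h34])
  have hg0 : g.1 *ᵥ (e0 : V) = f₂ := hg 0
  have hg1 : g.1 *ᵥ w₀ = e₃ := hg 1
  obtain ⟨Y, hYdef⟩ : ∃ Y : Sp, Y = g * Em w₀ c * g⁻¹ := ⟨_, rfl⟩
  have hxx : Em w₀ c * Em w₀ c = 1 := by
    rw [Em_mul hw₀ hw₀, sympForm_self, add_self_vec h2, add_self_two h2, add_zero, Em_zero_zero]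
  have hYY : Y * Y = 1 := by
    rw [hYdef]
    calc g * Em w₀ c * g⁻¹ * (g * Em w₀ c * g⁻¹) = g * (Em w₀ c * Em w₀ c) * g⁻¹ := by group
      _ = 1 := by rw [hxx]; group
  have hYv : ∀ v : V, Y.1 *ᵥ v = v + B v f₂ • e₃ + B v e₃ • f₂ + (c * B v f₂) • f₂ := by
    intro v
    rw [hYdef, mulVec_mul, mulVec_mul, Em_mulVec hw₀, B_sp_inv, B_sp_inv, hg0, hg1]
    simp only [Matrix.mulVec_add, Matrix.mulVec_smul, mulVec_inv, hg0, hg1]
  have hYe : Y.1 *ᵥ (e0 : V) = e0 := by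
    rw [hYv, hf₂.e0_left, he₃.e0_left]
    module
  have hYw : Y.1 *ᵥ w₀ = w₀ + (-1 : F) • e₃ + (-c) • f₂ := by
    rw [hYv, hwf₂, hw₀e₃]
    module
  have hYwW : InW (Y.1 *ᵥ w₀) := by
    rw [hYw]
    exact (hw₀.add (he₃.smul _)).add (hf₂.smul _)
  have hconj : Y * Em w₀ c * Y⁻¹ = Em (Y.1 *ᵥ w₀) c := by
    unfold Em
    have : Y * (tvS (e0 + w₀) 1 * tvS w₀ (-1) * tvS e0 (c - 1)) * Y⁻¹ =
        (Y * tvS (e0 + w₀) 1 * Y⁻¹) * (Y * tvS w₀ (-1) * Y⁻¹) * (Y * tvS e0 (c - 1) * Y⁻¹) := by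
      group
    rw [this, conj_tvS, conj_tvS, conj_tvS, Matrix.mulVec_add, hYe]
  have hYinv : Y⁻¹ = Y := inv_eq_of_mul_eq_one_left hYY
  have hsq : (Em w₀ c * Y) * (Em w₀ c * Y) = Em (w₀ + Y.1 *ᵥ w₀) (c + c + B (Y.1 *ᵥ w₀) w₀) := by
    rw [← Em_mul hw₀ hYwW, ← hconj, hYinv]
    group
  have hW1 : InW (w₀ + Y.1 *ᵥ w₀) := hw₀.add hYwW
  refine ⟨pm Y, ?_, ?_, ?_⟩
  · rw [isConj_iff]
    exact ⟨pm g, by rw [hYdef, map_mul, map_mul, map_inv]⟩
  · rw [← map_mul, ← map_pow]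
    have : (Em w₀ c * Y) ^ 4 = 1 := by
      have e4 : (Em w₀ c * Y) ^ 4 = ((Em w₀ c * Y) * (Em w₀ c * Y)) * ((Em w₀ c * Y) * (Em w₀ c * Y)) := by
        rw [show (4 : ℕ) = 2 + 2 from rfl, pow_add, pow_two]
      rw [e4, hsq, Em_mul hW1 hW1, sympForm_self, add_self_vec h2, add_self_two h2, add_zero,
        Em_zero_zero]
    rw [this, map_one]
  · rw [← map_mul, ← map_pow, pow_two, hsq]
    intro h
    have h1 : Em (w₀ + Y.1 *ᵥ w₀) (c + c + B (Y.1 *ᵥ w₀) w₀) = Em (0 : V) 0 := by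
      rw [Em_zero_zero]
      exact pm_inj_two h2 (by omega) (h.trans (map_one pm).symm)
    have h3 := (Em_inj hW1 InW.zero h1).1
    rw [hYw] at h3
    have h4 : (-1 : F) • e₃ + (-c) • f₂ = 0 := by
      have e : w₀ + (w₀ + (-1 : F) • e₃ + (-c) • f₂) = (w₀ + w₀) + ((-1 : F) • e₃ + (-c) • f₂) := by
        abel
      rw [e, add_self_vec h2, zero_add] at h3
      exact h3
    have h5 := congrArg (fun v : V => B v w₀) h4
    simp only [sympForm_add_left, sympForm_smul_left, h33, hf₂w, sympForm_zero_left] at h5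
    have hc0 : c = 0 := by linear_combination -h5
    rw [hc0, neg_zero, zero_smul, add_zero] at h4
    rcases smul_eq_zero.mp h4 with h | h
    · exact (neg_ne_zero.mpr one_ne_zero) h
    · exact he₃0 h

/-- The group-theoretic characterisation of transvections in characteristic two. -/
def IsTvChar (x : Cfsg.PSp m F) : Prop :=
  x ≠ 1 ∧ (∃ P : Sylow 2 (Cfsg.PSp m F), x ∈ ZS (P : Subgroup (Cfsg.PSp m F))) ∧
    ∀ y, IsConj x y → (x * y) ^ 4 = 1 → (x * y) ^ 2 = 1

omit [NeZero m] [Finite F] in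
theorem isTvChar_map (α : MulAut PSpm) {x : PSpm} (h : IsTvChar x) : IsTvChar (α x) := by
  obtain ⟨h1, ⟨P, hP⟩, h3⟩ := h
  refine ⟨fun h => h1 (α.injective (h.trans (map_one α).symm)), ⟨α • P, ?_⟩, fun y hy hy4 => ?_⟩
  · rw [ZS_aut_smul]
    exact ⟨x, hP, rfl⟩
  · have hy' : IsConj x (α⁻¹ y) := by
      obtain ⟨k, hk⟩ := isConj_iff.mp hy
      rw [isConj_iff]
      refine ⟨α⁻¹ k, ?_⟩
      rw [← hk, map_mul, map_mul, map_inv, MulAut.inv_apply_self]
    have e : α x * y = α (x * α⁻¹ y) := by rw [map_mul, MulAut.apply_inv_self]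
    rw [e, ← map_pow] at hy4 ⊢
    rw [h3 _ hy' (α.injective (hy4.trans (map_one α).symm)), map_one]

include h2 in
theorem tv_iff (hm : 3 ≤ m) (x : PSpm) : x ∈ TvSet m F ↔ IsTvChar x := by
  haveI : Fact (Nat.Prime 2) := ⟨Nat.prime_two⟩
  haveI : CharP F 2 := CharTwo.of_one_ne_zero_of_two_eq_zero one_ne_zero h2
  obtain ⟨P₀, hP₀⟩ := (isPGroup_Qe (m := m) (F := F) 2).exists_le_sylow
  obtain ⟨hZ1, hZ2⟩ := ZS_sylow_two h2 (by omega) P₀ hP₀
  constructor
  · rintro ⟨u, c, hu, hc, rfl⟩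
    refine ⟨pm_tvS_ne_one (by omega) hu hc, ?_, ?_⟩
    · obtain ⟨g, hg⟩ := Cfsg.Agent.Lib.Helper40.exists_symplectic_vec m (e0 : V) u e0_ne_zero hu
      refine ⟨pm g • P₀, ?_⟩
      rw [ZS_smul]
      refine ⟨pm (tvS e0 c), hZ1 ⟨c, rfl⟩, ?_⟩
      show pm g * pm (tvS e0 c) * (pm g)⁻¹ = _
      rw [← map_inv, ← map_mul, ← map_mul, conj_tvS]
      exact congrArg (fun v => pm (tvS v c)) hg
    · intro y hy hy4
      obtain ⟨k, hk⟩ := isConj_iff.mp hy
      obtain ⟨g, rfl⟩ := pm_surjective k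
      have e : y = pm (tvS (g.1 *ᵥ u) c) := by
        rw [← hk, ← map_inv, ← map_mul, ← map_mul, conj_tvS]
      rw [e] at hy4 ⊢
      exact tv_oddT h2 (by omega) u _ c hy4
  · rintro ⟨h1, ⟨P, hP⟩, h3⟩
    obtain ⟨k, hk⟩ := MulAction.exists_smul_eq PSpm P₀ P
    obtain ⟨g, rfl⟩ := pm_surjective k
    rw [← hk, ZS_smul] at hP
    obtain ⟨z, hz, rfl⟩ := hP
    obtain ⟨w, c, hw, rfl⟩ := hZ2 z hz
    by_cases hw0 : w = 0
    · subst hw0
      have hc : c ≠ 0 := by
        rintro rfl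
        apply h1
        show pm g * pm (Em 0 0) * (pm g)⁻¹ = 1
        rw [Em_zero_zero, map_one, mul_one, mul_inv_cancel]
      refine ⟨g.1 *ᵥ e0, c, mulVec_ne_zero g e0_ne_zero, hc, ?_⟩
      show pm g * pm (Em 0 c) * (pm g)⁻¹ = _
      rw [Em_zero, ← map_inv, ← map_mul, ← map_mul, conj_tvS]
    · exfalso
      obtain ⟨y', hy', hy4, hy2⟩ := Em_not_oddT h2 hm hw hw0 c
      have hconj : IsConj (pm g * pm (Em w c) * (pm g)⁻¹) (pm g * y' * (pm g)⁻¹) := by
        obtain ⟨k, hk⟩ := isConj_iff.mp hy'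
        rw [isConj_iff]
        refine ⟨pm g * k * (pm g)⁻¹, ?_⟩
        rw [← hk]
        group
      have e : pm g * pm (Em w c) * (pm g)⁻¹ * (pm g * y' * (pm g)⁻¹) =
          pm g * (pm (Em w c) * y') * (pm g)⁻¹ := by group
      have h5 := h3 _ hconj (by rw [e, conj_pow, hy4]; group)
      rw [e, conj_pow] at h5
      apply hy2
      have h6 : (pm (Em w c) * y') ^ 2 = (pm g)⁻¹ * (pm g * (pm (Em w c) * y') ^ 2 * (pm g)⁻¹) *
          pm g := by group
      rw [h6, h5]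
      group

include h2 in
/-- Automorphisms permute the root subgroups (characteristic two, `m ≥ 3`). -/
theorem root_perm_two (hm : 3 ≤ m) : RootPerm m F := by
  apply root_perm_of_tv (by omega)
  intro α x hx
  rw [tv_iff h2 hm] at hx ⊢
  exact isTvChar_map α hx

end two

/-- Automorphisms permute the root subgroups, except possibly for `Sp_4` in characteristic
two. -/
theorem root_perm [NeZero m] [Finite F] (hm : 2 ≤ m) (h : (2 : F) = 0 → 3 ≤ m) :
    RootPerm m F := by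
  by_cases h2 : (2 : F) = 0
  · exact root_perm_two h2 (h h2)
  · intro α u hu
    exact root_perm_odd hm h2 α u hu

end Cfsg.Agent.Lib.Helper43.AutPSp
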