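import Mathlib
import Cfsg.Agent.Lib.Helper43.AutPSp.Main
import Cfsg.Agent.Lib.Helper43.AutPSp.SylowTwo

set_option autoImplicit false

/-!
# The conformal symplectic group acting on `PSp_{2m}(F)`

Multipliers, scalars, entrywise maps along ring homomorphisms, the kernel of the action and the
normality of the inner-diagonal group.
-/

namespace Cfsg.Agent.Lib.Helper43.AutPSp

open Matrix Cfsg.Agent.Lib.Helper13

variable {m : ℕ} {F : Type*} [Field F]

local notation "V" => Fin m ⊕ Fin m → F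
local notation "Mx" => Matrix (Fin m ⊕ Fin m) (Fin m ⊕ Fin m) F
set_option quotPrecheck false in
local notation "Sp" => ↥(Matrix.symplecticGroup (Fin m) F)
local notation "PSpm" => Cfsg.PSp m F
local notation "B" => Cfsg.sympForm m F
local notation "GLm" => GL (Fin m ⊕ Fin m) F
local notation "Jm" => Matrix.J (Fin m) F

/-! ### Matrix form of the similarity condition -/

theorem B_mulVec_mulVec (M : Mx) (u v : V) :
    B (M *ᵥ u) (M *ᵥ v) = u ⬝ᵥ ((Mᵀ * Jm * M) *ᵥ v) := by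
  unfold Cfsg.sympForm
  rw [Matrix.mulVec_mulVec, ← Matrix.vecMul_transpose M u, ← Matrix.dotProduct_mulVec,
    Matrix.mulVec_mulVec, ← Matrix.mul_assoc]

theorem B_eq_dot (u v : V) : B u v = u ⬝ᵥ (Jm *ᵥ v) := rfl

theorem mat_eq_of_dot {M N : Mx} (h : ∀ u v : V, u ⬝ᵥ (M *ᵥ v) = u ⬝ᵥ (N *ᵥ v)) : M = N := by
  ext i j
  have := h (Pi.single i 1) (Pi.single j 1)
  simpa [Matrix.mulVec_single_one] using this

theorem mem_GSp_iff_mat (g : GLm) :
    g ∈ Cfsg.GSp m F ↔ ∃ c : Fˣ, (g : Mx)ᵀ * Jm * (g : Mx) = (c : F) • Jm := by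
  constructor
  · rintro ⟨c, hc⟩
    refine ⟨c, mat_eq_of_dot fun u v => ?_⟩
    rw [← B_mulVec_mulVec, hc, Matrix.smul_mulVec, dotProduct_smul, smul_eq_mul]
    rfl
  · rintro ⟨c, hc⟩
    refine ⟨c, fun u v => ?_⟩
    rw [B_mulVec_mulVec, hc, Matrix.smul_mulVec, dotProduct_smul, smul_eq_mul]
    rfl

/-! ### The multiplier -/

/-- The multiplier homomorphism. -/
noncomputable def multH [NeZero m] : ↥(Cfsg.GSp m F) →* Fˣ where
  toFun g := Units.mk0 (mult (g : GLm)) (mult_ne_zero g.2)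
  map_one' := by
    apply Units.ext
    show mult ((1 : ↥(Cfsg.GSp m F)) : GLm) = 1
    unfold mult
    rw [Subgroup.coe_one, Units.val_one, Matrix.one_mulVec, Matrix.one_mulVec, B_f0_e0]
  map_mul' := fun g h => by
    apply Units.ext
    show mult ((g * h : ↥(Cfsg.GSp m F)) : GLm) = mult (g : GLm) * mult (h : GLm)
    have h1 : mult ((g * h : ↥(Cfsg.GSp m F)) : GLm) =
        B (((g : GLm) : Mx) *ᵥ (((h : GLm) : Mx) *ᵥ f0)) (((g : GLm) : Mx) *ᵥ (((h : GLm) : Mx) *ᵥ e0)) := by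
      unfold mult
      rw [Subgroup.coe_mul, Units.val_mul, ← Matrix.mulVec_mulVec, ← Matrix.mulVec_mulVec]
    rw [h1, B_gsp g.2]
    rfl

theorem multH_coe [NeZero m] (g : ↥(Cfsg.GSp m F)) : ((multH g : Fˣ) : F) = mult (g : GLm) := rfl

theorem B_multH [NeZero m] (g : ↥(Cfsg.GSp m F)) (u v : V) :
    B (((g : GLm) : Mx) *ᵥ u) (((g : GLm) : Mx) *ᵥ v) = ((multH g : Fˣ) : F) * B u v :=
  B_gsp g.2 u v

theorem mat_multH [NeZero m] (g : ↥(Cfsg.GSp m F)) :
    ((g : GLm) : Mx)ᵀ * Jm * ((g : GLm) : Mx) = ((multH g : Fˣ) : F) • Jm := by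
  apply mat_eq_of_dot
  intro u v
  rw [← B_mulVec_mulVec, B_multH, Matrix.smul_mulVec, dotProduct_smul, smul_eq_mul]
  rfl

/-- A matrix of `GSp` with a given similarity equation has that multiplier. -/
theorem multH_eq_of_mat [NeZero m] (g : ↥(Cfsg.GSp m F)) (c : F)
    (h : ((g : GLm) : Mx)ᵀ * Jm * ((g : GLm) : Mx) = c • Jm) : ((multH g : Fˣ) : F) = c := by
  have h1 : B (((g : GLm) : Mx) *ᵥ f0) (((g : GLm) : Mx) *ᵥ e0) = c * B (f0 : V) e0 := by
    rw [B_mulVec_mulVec, h, Matrix.smul_mulVec, dotProduct_smul, smul_eq_mul]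
    rfl
  rw [B_f0_e0, mul_one] at h1
  exact h1

/-! ### Entrywise maps -/

theorem J_map_hom {F₀ : Type*} [Field F₀] (j : F₀ →+* F) :
    (Matrix.J (Fin m) F₀).map j = Matrix.J (Fin m) F := by
  unfold Matrix.J
  rw [Matrix.fromBlocks_map]
  congr 1
  · ext i j; simp
  · ext i j
    simp [Matrix.one_apply]
  · ext i j
    simp [Matrix.one_apply]
  · ext i j; simp

theorem glmap_coe' {F₀ : Type*} [Field F₀] (j : F₀ →+* F) (g : GL (Fin m ⊕ Fin m) F₀) :
    ((Matrix.GeneralLinearGroup.map j g : GLm) : Mx) =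
      (g : Matrix (Fin m ⊕ Fin m) (Fin m ⊕ Fin m) F₀).map j := rfl

theorem map_mem_GSp {F₀ : Type*} [Field F₀] (j : F₀ →+* F) (g : GL (Fin m ⊕ Fin m) F₀)
    (hg : g ∈ Cfsg.GSp m F₀) : Matrix.GeneralLinearGroup.map j g ∈ Cfsg.GSp m F := by
  rw [mem_GSp_iff_mat] at hg ⊢
  obtain ⟨c, hc⟩ := hg
  refine ⟨Units.map (j : F₀ →* F) c, ?_⟩
  have h1 := congrArg (fun M : Matrix (Fin m ⊕ Fin m) (Fin m ⊕ Fin m) F₀ => M.map j) hc
  simp only [Matrix.map_mul, J_map_hom] at h1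
  rw [glmap_coe', ← Matrix.transpose_map, h1]
  have hJ : ∀ a b, j (Matrix.J (Fin m) F₀ a b) = Matrix.J (Fin m) F a b := fun a b =>
    congrFun (congrFun (J_map_hom j) a) b
  ext a b
  rw [Matrix.map_apply, Matrix.smul_apply, Matrix.smul_apply, smul_eq_mul, smul_eq_mul, map_mul, hJ]
  rfl

/-- The entrywise map `GSp(F₀) → GSp(F)` along a ring homomorphism. -/
def gmapHom {F₀ : Type*} [Field F₀] (j : F₀ →+* F) : ↥(Cfsg.GSp m F₀) →* ↥(Cfsg.GSp m F) :=
  ((Matrix.GeneralLinearGroup.map j).comp (Cfsg.GSp m F₀).subtype).codRestrict (Cfsg.GSp m F)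
    (fun g => map_mem_GSp j g.1 g.2)

theorem gmapHom_coe {F₀ : Type*} [Field F₀] (j : F₀ →+* F) (g : ↥(Cfsg.GSp m F₀)) :
    (((gmapHom j g : ↥(Cfsg.GSp m F)) : GLm) : Mx) =
      ((g : GL (Fin m ⊕ Fin m) F₀) : Matrix (Fin m ⊕ Fin m) (Fin m ⊕ Fin m) F₀).map j := rfl

theorem gmapHom_val {F₀ : Type*} [Field F₀] (j : F₀ →+* F) (g : ↥(Cfsg.GSp m F₀)) :
    ((gmapHom j g : ↥(Cfsg.GSp m F)) : GLm) = Matrix.GeneralLinearGroup.map j (g : GL _ F₀) := rfl

theorem gsp_ext {g h : ↥(Cfsg.GSp m F)} (e : ((g : GLm) : Mx) = ((h : GLm) : Mx)) : g = h :=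
  Subtype.ext (Units.ext e)

theorem gmapHom_mul_aut (σ τ : RingAut F) (g : ↥(Cfsg.GSp m F)) :
    gmapHom ((σ * τ : RingAut F) : F →+* F) g =
      gmapHom (σ : F →+* F) (gmapHom (τ : F →+* F) g) := by
  apply gsp_ext
  ext a b
  rfl

theorem gmapHom_one_aut (g : ↥(Cfsg.GSp m F)) : gmapHom ((1 : RingAut F) : F →+* F) g = g := by
  apply gsp_ext
  ext a b
  rfl

theorem multH_gmapHom [NeZero m] {F₀ : Type*} [Field F₀] (j : F₀ →+* F) (g : ↥(Cfsg.GSp m F₀)) :
    multH (gmapHom j g) = Units.map (j : F₀ →* F) (multH g) := by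
  apply Units.ext
  apply multH_eq_of_mat
  have h1 := congrArg (fun M : Matrix (Fin m ⊕ Fin m) (Fin m ⊕ Fin m) F₀ => M.map j) (mat_multH g)
  simp only [Matrix.map_mul, J_map_hom] at h1
  rw [gmapHom_coe, ← Matrix.transpose_map, h1]
  have hJ : ∀ a b, j (Matrix.J (Fin m) F₀ a b) = Matrix.J (Fin m) F a b := fun a b =>
    congrFun (congrFun (J_map_hom j) a) b
  ext a b
  rw [Matrix.map_apply, Matrix.smul_apply, Matrix.smul_apply, smul_eq_mul, smul_eq_mul, map_mul, hJ]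
  rfl

/-- Field automorphisms normalise the inner-diagonal group. -/
theorem fg_cg (τ : RingAut F) (g : ↥(Cfsg.GSp m F)) :
    (fg τ * cg g : MulAut PSpm) = cg (gmapHom (τ : F →+* F) g) * fg τ := by
  ext x
  obtain ⟨s, rfl⟩ := pm_surjective x
  show fg τ (cg g (pm s)) = cg _ (fg τ (pm s))
  rw [cg_pm, fg_pm, fg_pm, cg_pm]
  congr 1
  apply Subtype.ext
  rw [fAutS_coe, gAutS_coe, gAutS_coe, fAutS_coe, Matrix.map_mul, Matrix.map_mul, gmapHom_coe]
  congr 1

/-! ### Scalars -/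

theorem scalar_mulVec (c : Fˣ) (v : V) :
    ((Matrix.GeneralLinearGroup.scalar (Fin m ⊕ Fin m) c : GLm) : Mx) *ᵥ v = (c : F) • v := by
  rw [Matrix.GeneralLinearGroup.coe_scalar, Matrix.scalar_apply, ← Matrix.smul_one_eq_diagonal,
    Matrix.smul_mulVec, Matrix.one_mulVec]

/-- Scalar matrices in `GSp`. -/
def scG : Fˣ →* ↥(Cfsg.GSp m F) :=
  (Matrix.GeneralLinearGroup.scalar (Fin m ⊕ Fin m) : Fˣ →* GLm).codRestrict (Cfsg.GSp m F)
    (fun c => ⟨c * c, fun u v => by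
      rw [scalar_mulVec, scalar_mulVec, sympForm_smul_left, sympForm_smul_right, Units.val_mul,
        mul_assoc]⟩)

theorem scG_val (c : Fˣ) : ((scG c : ↥(Cfsg.GSp m F)) : GLm) =
    Matrix.GeneralLinearGroup.scalar (Fin m ⊕ Fin m) c := rfl

theorem scG_mulVec (c : Fˣ) (v : V) :
    (((scG c : ↥(Cfsg.GSp m F)) : GLm) : Mx) *ᵥ v = (c : F) • v := scalar_mulVec c v

theorem multH_scG [NeZero m] (c : Fˣ) : multH (scG c : ↥(Cfsg.GSp m F)) = c * c := by
  apply Units.ext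
  show mult ((scG c : ↥(Cfsg.GSp m F)) : GLm) = _
  unfold mult
  rw [scG_mulVec, scG_mulVec, sympForm_smul_left, sympForm_smul_right, B_f0_e0, mul_one,
    Units.val_mul]

theorem scG_comm (c : Fˣ) (g : ↥(Cfsg.GSp m F)) : scG c * g = g * scG c := by
  apply Subtype.ext
  rw [Subgroup.coe_mul, Subgroup.coe_mul, scG_val]
  exact Matrix.GeneralLinearGroup.scalar_commute c g.1

theorem scG_injective [NeZero m] : Function.Injective (scG : Fˣ →* ↥(Cfsg.GSp m F)) := by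
  intro a b hab
  have h1 := congrArg (fun g : ↥(Cfsg.GSp m F) => ((g : GLm) : Mx) *ᵥ (e0 : V)) hab
  simp only [scG_mulVec] at h1
  have h2 := congrArg (fun v : V => B f0 v) h1
  simp only [sympForm_smul_right, B_f0_e0, mul_one] at h2
  exact Units.ext h2

theorem gmapHom_scG {F₀ : Type*} [Field F₀] (j : F₀ →+* F) (c : F₀ˣ) :
    gmapHom j (scG c : ↥(Cfsg.GSp m F₀)) = scG (Units.map (j : F₀ →* F) c) := by
  apply Subtype.ext
  rw [gmapHom_val, scG_val, scG_val, Matrix.GeneralLinearGroup.map_scalar]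

theorem cg_scG (c : Fˣ) : (cg (scG c : ↥(Cfsg.GSp m F)) : MulAut PSpm) = 1 := by
  ext x
  obtain ⟨s, rfl⟩ := pm_surjective x
  rw [cg_pm, MulAut.one_apply]
  congr 1
  apply sp_ext
  intro v
  have hv : v = (((scG c : ↥(Cfsg.GSp m F)) : GLm) : Mx) *ᵥ ((c : F)⁻¹ • v) := by
    rw [scG_mulVec, smul_smul, mul_inv_cancel₀ c.ne_zero, one_smul]
  conv_lhs => rw [hv]
  rw [gAutS_mulVec, scG_mulVec, Matrix.mulVec_smul, smul_smul, mul_inv_cancel₀ c.ne_zero, one_smul]

/-- The kernel of the action consists of the scalars. -/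
theorem exists_scG_of_cg_eq_one [NeZero m] (hm : 2 ≤ m) (k : ↥(Cfsg.GSp m F))
    (h : (cg k : MulAut PSpm) = 1) : ∃ c : Fˣ, k = scG c := by
  have hpar : ∀ u : V, u ≠ 0 → Par (((k : GLm) : Mx) *ᵥ u) u := by
    intro u hu
    have h1 : cg k (pm (tvS u 1)) = pm (tvS u 1) := by rw [h, MulAut.one_apply]
    rw [cg_pm, gAutS_tvS] at h1
    exact par_of_tvS_eq hu one_ne_zero (tvS_eq_of_pm_eq hm h1).symm
  obtain ⟨a, ha⟩ := LinearMap.exists_eq_smul_id_of_forall_notLinearIndependent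
    (f := Matrix.mulVecLin ((k : GLm) : Mx)) (by
      intro v
      by_cases hv : v = 0
      · subst hv
        intro hli
        exact hli.ne_zero 0 rfl
      · obtain ⟨b, hb, e⟩ := hpar v hv
        rw [LinearIndependent.pair_iff' hv]
        push Not
        refine ⟨b⁻¹, ?_⟩
        rw [Matrix.mulVecLin_apply]
        nth_rewrite 1 [e]
        rw [smul_smul, inv_mul_cancel₀ hb, one_smul])
  have hav : ∀ v : V, ((k : GLm) : Mx) *ᵥ v = a • v := by
    intro v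
    have := congrArg (fun f : V →ₗ[F] V => f v) ha
    simpa using this
  have ha0 : a ≠ 0 := by
    rintro rfl
    have h1 := hav (e0 : V)
    rw [zero_smul] at h1
    have h2 := congrArg (fun v : V => (((k : GLm)⁻¹ : GLm) : Mx) *ᵥ v) h1
    simp only [gl_inv_mulVec, Matrix.mulVec_zero] at h2
    exact e0_ne_zero h2
  refine ⟨Units.mk0 a ha0, ?_⟩
  apply gsp_ext
  apply Matrix.toLin'.injective
  apply LinearMap.ext
  intro v
  rw [Matrix.toLin'_apply, Matrix.toLin'_apply, hav, scG_mulVec, Units.val_mk0]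

/-- Field automorphisms act faithfully. -/
theorem fg_injective [NeZero m] (hm : 2 ≤ m) :
    Function.Injective (fg : RingAut F →* MulAut PSpm) := by
  rw [injective_iff_map_eq_one]
  intro τ h
  ext c
  have h1 : fg τ (pm (tvS (e0 : V) c)) = pm (tvS (e0 : V) c) := by rw [h, MulAut.one_apply]
  rw [fg_pm, fAutS_tvS, tw_e0] at h1
  exact pm_tvS_e0_inj hm h1

/-! ### The inner-diagonal group -/

theorem innerDiag_iff (β : MulAut PSpm) :
    Cfsg.IsInnerDiagonalAutPSp β ↔ ∃ g : ↥(Cfsg.GSp m F), β = cg g := by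
  constructor
  · rintro ⟨g, hg, h⟩
    refine ⟨⟨g, hg⟩, ?_⟩
    have h1 := eq_of_isInduced hg (1 : RingAut F) h
    rw [map_one, mul_one] at h1
    exact h1
  · rintro ⟨g, rfl⟩
    refine ⟨g.1, g.2, ?_⟩
    have h1 := isInduced_cg_fg g (1 : RingAut F)
    rw [map_one, mul_one] at h1
    exact h1

theorem inndiag_eq : Cfsg.inndiagPSp m F = (cg : ↥(Cfsg.GSp m F) →* MulAut PSpm).range := by
  have h : {β : MulAut PSpm | Cfsg.IsInnerDiagonalAutPSp β} =
      ((cg : ↥(Cfsg.GSp m F) →* MulAut PSpm).range : Set (MulAut PSpm)) := by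
    ext β
    rw [Set.mem_ofPred_eq, innerDiag_iff]
    constructor
    · rintro ⟨g, rfl⟩
      exact ⟨g, rfl⟩
    · rintro ⟨g, rfl⟩
      exact ⟨g, rfl⟩
  show Subgroup.closure {β : MulAut PSpm | Cfsg.IsInnerDiagonalAutPSp β} = _
  rw [h, Subgroup.closure_eq]

/-- Matrices of multiplier one are symplectic. -/
theorem exists_toGSp_of_multH [NeZero m] (g : ↥(Cfsg.GSp m F)) (h : multH g = 1) :
    ∃ s : Sp, toGSp s = g := by
  have hmem : ((g : GLm) : Mx) ∈ Matrix.symplecticGroup (Fin m) F := by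
    apply mem_symplecticGroup_of_sympForm
    intro u v
    rw [B_multH, h, Units.val_one, one_mul]
  exact ⟨⟨_, hmem⟩, gsp_ext rfl⟩

theorem multH_toGSp [NeZero m] (s : Sp) : multH (toGSp s) = 1 := by
  apply Units.ext
  show mult ((toGSp s : ↥(Cfsg.GSp m F)) : GLm) = 1
  unfold mult
  rw [toGSp_coe, B_sp, B_f0_e0]

theorem inn_le_range_cg : Cfsg.Inn PSpm ≤ (cg : ↥(Cfsg.GSp m F) →* MulAut PSpm).range := by
  rintro _ ⟨y, rfl⟩
  obtain ⟨s, rfl⟩ := pm_surjective y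
  exact ⟨toGSp s, cg_toGSp s⟩

/-- In characteristic two the inner-diagonal group is the inner group. -/
theorem range_cg_eq_inn [NeZero m] [Finite F] (h2 : (2 : F) = 0) :
    (cg : ↥(Cfsg.GSp m F) →* MulAut PSpm).range = Cfsg.Inn PSpm := by
  apply le_antisymm _ inn_le_range_cg
  rintro _ ⟨g, rfl⟩
  have hchar : ringChar F = 2 := CharP.ringChar_of_prime_eq_zero Nat.prime_two (by exact_mod_cast h2)
  obtain ⟨c, hc⟩ := FiniteField.isSquare_of_char_two hchar ((multH g : Fˣ) : F)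
  have hc0 : c ≠ 0 := by
    rintro rfl
    rw [mul_zero] at hc
    exact (multH g).ne_zero hc
  have h1 : multH ((scG (Units.mk0 c hc0))⁻¹ * g) = 1 := by
    rw [map_mul, map_inv, multH_scG]
    apply Units.ext
    rw [Units.val_mul, Units.val_inv_eq_inv_val, Units.val_mul, Units.val_mk0, Units.val_one, hc]
    exact inv_mul_cancel₀ (mul_ne_zero hc0 hc0)
  obtain ⟨s, hs⟩ := exists_toGSp_of_multH _ h1
  have h3 : g = scG (Units.mk0 c hc0) * toGSp s := by
    rw [hs, mul_inv_cancel_left]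
  rw [h3, map_mul, cg_scG, one_mul, cg_toGSp]
  exact ⟨pm s, rfl⟩

/-- The inner-diagonal group is normal in the automorphism group. -/
theorem range_cg_normal [NeZero m] [Finite F] (hm : 2 ≤ m) :
    ((cg : ↥(Cfsg.GSp m F) →* MulAut PSpm).range).Normal := by
  by_cases h2 : (2 : F) = 0
  · rw [range_cg_eq_inn h2]
    constructor
    rintro _ ⟨y, rfl⟩ α
    refine ⟨α y, ?_⟩
    ext z
    simp [MulAut.conj_apply]
  · have H : RootPerm m F := root_perm hm (fun h => absurd h h2)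
    constructor
    rintro _ ⟨k, rfl⟩ α
    obtain ⟨g, τ, rfl⟩ := aut_structure hm H α
    have h1 : (cg g * fg τ : MulAut PSpm) * cg k = cg (g * gmapHom (τ : F →+* F) k) * fg τ := by
      rw [mul_assoc, fg_cg, ← mul_assoc, map_mul]
    have h3 : (cg g * fg τ : MulAut PSpm)⁻¹ = (fg τ)⁻¹ * (cg g)⁻¹ := by
      rw [_root_.mul_inv_rev]
    rw [h1, h3, mul_assoc, mul_inv_cancel_left, ← map_inv, ← map_mul]
    exact ⟨_, rfl⟩

end Cfsg.Agent.Lib.Helper43.AutPSp
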