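import Mathlib
import Cfsg.Agent.Lib.Helper43.AutPSp.GSp
import Cfsg.Agent.Lib.Helper43.FieldAut.Count
import Cfsg.Agent.Lib.Helper8.SympInv

set_option autoImplicit false

/-!
# Cosets of field automorphisms of `PSp_{2m}(q)` under the inner-diagonal group

Hilbert 90 for the conformal symplectic group: an element of prime order in the coset of a
field automorphism is conjugate to the field automorphism.
-/

namespace Cfsg.Agent.Lib.Helper43.AutPSp

open Matrix Cfsg.Agent.Lib.Helper13 Cfsg.Agent.Lib.Helper43.FieldAut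

variable {m : ℕ} {F : Type*} [Field F]

local notation "V" => Fin m ⊕ Fin m → F
local notation "Mx" => Matrix (Fin m ⊕ Fin m) (Fin m ⊕ Fin m) F
set_option quotPrecheck false in
local notation "Sp" => ↥(Matrix.symplecticGroup (Fin m) F)
local notation "PSpm" => Cfsg.PSp m F
local notation "B" => Cfsg.sympForm m F
local notation "GLm" => GL (Fin m ⊕ Fin m) F
local notation "Jm" => Matrix.J (Fin m) F

/-! ### Norms -/

/-- The semilinear norm `g σ(g) ⋯ σ^{i-1}(g)`. -/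
noncomputable def nrmS (σ : RingAut F) (g : ↥(Cfsg.GSp m F)) : ℕ → ↥(Cfsg.GSp m F)
  | 0 => 1
  | i + 1 => g * gmapHom (σ : F →+* F) (nrmS σ g i)

theorem nrmS_zero (σ : RingAut F) (g : ↥(Cfsg.GSp m F)) : nrmS σ g 0 = 1 := rfl

theorem nrmS_succ (σ : RingAut F) (g : ↥(Cfsg.GSp m F)) (i : ℕ) :
    nrmS σ g (i + 1) = g * gmapHom (σ : F →+* F) (nrmS σ g i) := rfl

theorem pow_cg_fg (σ : RingAut F) (g : ↥(Cfsg.GSp m F)) (i : ℕ) :
    (cg g * fg σ : MulAut PSpm) ^ i = cg (nrmS σ g i) * fg (σ ^ i) := by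
  induction i with
  | zero => simp [nrmS_zero]
  | succ i ih =>
    rw [pow_succ', ih, nrmS_succ, map_mul, pow_succ', map_mul, mul_assoc (cg g),
      ← mul_assoc (fg σ), fg_cg]
    simp only [mul_assoc]

theorem nrmS_succ' (σ : RingAut F) (g : ↥(Cfsg.GSp m F)) (i : ℕ) :
    nrmS σ g (i + 1) = nrmS σ g i * gmapHom ((σ ^ i : RingAut F) : F →+* F) g := by
  induction i with
  | zero => rw [nrmS_succ, nrmS_zero, map_one, mul_one, one_mul, pow_zero, gmapHom_one_aut]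
  | succ i ih =>
    have h1 : nrmS σ g (i + 1 + 1) = g * gmapHom (σ : F →+* F) (nrmS σ g (i + 1)) := rfl
    conv_lhs => rw [h1, ih, map_mul, ← mul_assoc, ← nrmS_succ]
    rw [pow_succ', gmapHom_mul_aut]

theorem nrmS_scG_mul (σ : RingAut F) (c : Fˣ) (g : ↥(Cfsg.GSp m F)) (i : ℕ) :
    nrmS σ (scG c * g) i = scG (uN σ c i) * nrmS σ g i := by
  induction i with
  | zero => simp [nrmS_zero, uN_zero]
  | succ i ih =>
    rw [nrmS_succ, ih, map_mul, gmapHom_scG, nrmS_succ, uN_succ, map_mul]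
    have h := scG_comm (Units.map ((σ : F →+* F) : F →* F) (uN σ c i)) g
    calc scG c * g * (scG (Units.map ((σ : F →+* F) : F →* F) (uN σ c i)) *
          gmapHom (σ : F →+* F) (nrmS σ g i))
        = scG c * (g * scG (Units.map ((σ : F →+* F) : F →* F) (uN σ c i))) *
            gmapHom (σ : F →+* F) (nrmS σ g i) := by simp only [mul_assoc]
      _ = _ := by
        rw [← h]
        simp only [mul_assoc]
        rfl

theorem multH_nrmS [NeZero m] (σ : RingAut F) (g : ↥(Cfsg.GSp m F)) (i : ℕ) :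
    multH (nrmS σ g i) = uN σ (multH g) i := by
  induction i with
  | zero => rw [nrmS_zero, map_one, uN_zero]
  | succ i ih =>
    rw [nrmS_succ, map_mul, multH_gmapHom, ih, uN_succ]
    rfl

/-! ### Darboux -/

theorem dot_congr {R : Type*} [CommRing R] {ι : Type*} [Fintype ι] (M K : Matrix ι ι R)
    (u v : ι → R) : (M *ᵥ u) ⬝ᵥ (K *ᵥ (M *ᵥ v)) = u ⬝ᵥ ((Mᵀ * K * M) *ᵥ v) := by
  rw [Matrix.mulVec_mulVec, ← Matrix.vecMul_transpose M u, ← Matrix.dotProduct_mulVec,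
    Matrix.mulVec_mulVec, ← Matrix.mul_assoc]

/-- An invertible alternating matrix is congruent to the standard one. -/
theorem exists_darboux {F₀ : Type*} [Field F₀]
    (K : Matrix (Fin m ⊕ Fin m) (Fin m ⊕ Fin m) F₀) (hdet : K.det ≠ 0)
    (halt : ∀ x : Fin m ⊕ Fin m → F₀, x ⬝ᵥ (K *ᵥ x) = 0) :
    ∃ P : GL (Fin m ⊕ Fin m) F₀,
      (P : Matrix (Fin m ⊕ Fin m) (Fin m ⊕ Fin m) F₀)ᵀ * K *
        (P : Matrix (Fin m ⊕ Fin m) (Fin m ⊕ Fin m) F₀) = Matrix.J (Fin m) F₀ := by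
  have hN1 : (Matrix.toBilin' K).Nondegenerate :=
    LinearMap.BilinForm.nondegenerate_toBilin'_iff_det_ne_zero.mpr hdet
  have hJdet : (Matrix.J (Fin m) F₀).det ≠ 0 := (Matrix.isUnit_det_J (Fin m) F₀).ne_zero
  have hN2 : (Matrix.toBilin' (Matrix.J (Fin m) F₀)).Nondegenerate :=
    LinearMap.BilinForm.nondegenerate_toBilin'_iff_det_ne_zero.mpr hJdet
  have hA1 : (Matrix.toBilin' K).IsAlt := fun x => by
    rw [Matrix.toBilin'_apply']
    exact halt x
  have hA2 : (Matrix.toBilin' (Matrix.J (Fin m) F₀)).IsAlt := fun x => by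
    rw [Matrix.toBilin'_apply']
    exact sympForm_self m x
  obtain ⟨φ, hφ⟩ := Cfsg.Agent.Lib.Helper8.SympInv.alt_isometry
    (Matrix.toBilin' (Matrix.J (Fin m) F₀)) (Matrix.toBilin' K) hA2 hA1 hN2 hN1 rfl
  obtain ⟨P, hP⟩ : ∃ P : Matrix (Fin m ⊕ Fin m) (Fin m ⊕ Fin m) F₀,
      P = LinearMap.toMatrix' (φ : (Fin m ⊕ Fin m → F₀) →ₗ[F₀] (Fin m ⊕ Fin m → F₀)) := ⟨_, rfl⟩
  obtain ⟨Q, hQ⟩ : ∃ Q : Matrix (Fin m ⊕ Fin m) (Fin m ⊕ Fin m) F₀,
      Q = LinearMap.toMatrix' (φ.symm : (Fin m ⊕ Fin m → F₀) →ₗ[F₀] (Fin m ⊕ Fin m → F₀)) :=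
    ⟨_, rfl⟩
  have hPQ : P * Q = 1 := by
    rw [hP, hQ, ← LinearMap.toMatrix'_comp]
    have : (φ : (Fin m ⊕ Fin m → F₀) →ₗ[F₀] (Fin m ⊕ Fin m → F₀)) ∘ₗ
        (φ.symm : (Fin m ⊕ Fin m → F₀) →ₗ[F₀] (Fin m ⊕ Fin m → F₀)) = LinearMap.id := by
      ext x
      simp
    rw [this, LinearMap.toMatrix'_id]
  have hQP : Q * P = 1 := mul_eq_one_comm.mp hPQ
  have hPv : ∀ w, P *ᵥ w = φ w := fun w => by
    rw [hP, ← Matrix.toLin'_apply, Matrix.toLin'_toMatrix']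
    rfl
  refine ⟨⟨P, Q, hPQ, hQP⟩, ?_⟩
  show Pᵀ * K * P = _
  ext a b
  have h1 := hφ (Pi.single a 1) (Pi.single b 1)
  rw [Matrix.toBilin'_apply', Matrix.toBilin'_apply', ← hPv, ← hPv, dot_congr] at h1
  simpa [Matrix.mulVec_single_one] using h1

/-! ### Hilbert 90 for `GSp` -/

theorem map_map_aut (σ : RingAut F) (M N : Mx) : (M * N).map σ = M.map σ * N.map σ :=
  Matrix.map_mul

/-- **Hilbert 90** for the conformal symplectic group and a cyclic group of field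
automorphisms. -/
theorem exists_gsp_fixed [Finite F] [NeZero m] (σ : RingAut F) (g : ↥(Cfsg.GSp m F))
    (hN : nrmS σ g (orderOf σ) = 1) :
    ∃ k : ↥(Cfsg.GSp m F), g * gmapHom (σ : F →+* F) k = k := by
  classical
  have := finite_ringAut F
  have hpos : 0 < orderOf σ := orderOf_pos σ
  obtain ⟨hM, hu, hh⟩ := exists_fixed_matrix σ ((g : GLm) : Mx)
    (fun i => ((nrmS σ g i : GLm) : Mx)) (orderOf σ) (by rw [nrmS_zero]; rfl)
    (fun i => by rw [nrmS_succ, Subgroup.coe_mul, Units.val_mul, gmapHom_coe]; rfl)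
    (by rw [hN]; rfl) rfl hpos
  obtain ⟨h, rfl⟩ := hu
  obtain ⟨μ, hμ⟩ : ∃ μ : F, μ = ((multH g : Fˣ) : F) := ⟨_, rfl⟩
  have hμ0 : μ ≠ 0 := by rw [hμ]; exact (multH g).ne_zero
  have hμN : ∏ i ∈ Finset.range (orderOf σ), (σ ^ i) μ = 1 := by
    rw [hμ, ← uN_coe, ← multH_nrmS, hN, map_one, Units.val_one]
  obtain ⟨ν', hν'0, hν'⟩ := exists_scalar_of_norm_one σ (orderOf σ) rfl hpos μ hμN
  obtain ⟨ν, hν⟩ : ∃ ν : F, ν = ν'⁻¹ := ⟨_, rfl⟩
  have hν0 : ν ≠ 0 := by rw [hν]; exact inv_ne_zero hν'0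
  have hσν : σ ν = μ * ν := by
    have h1 : σ ν' = μ⁻¹ * ν' := by
      rw [eq_inv_mul_iff_mul_eq₀ hμ0]
      exact hν'
    rw [hν, map_inv₀, h1, _root_.mul_inv_rev, inv_inv, mul_comm]
  -- the Gram matrix of the fixed frame
  obtain ⟨K, hK⟩ : ∃ K : Mx, K = (h : Mx)ᵀ * Jm * (h : Mx) := ⟨_, rfl⟩
  have hKσ : K = μ • K.map σ := by
    have e1 : K.map σ = ((h : Mx).map σ)ᵀ * Jm * (h : Mx).map σ := by
      rw [hK, Matrix.map_mul, Matrix.map_mul, J_map, Matrix.transpose_map]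
    have e2 : K = ((h : Mx).map σ)ᵀ * (((g : GLm) : Mx)ᵀ * Jm * ((g : GLm) : Mx)) *
        (h : Mx).map σ := by
      rw [hK]
      nth_rewrite 1 2 [← hh]
      rw [Matrix.transpose_mul]
      simp only [Matrix.mul_assoc]
    calc K = ((h : Mx).map σ)ᵀ * (((g : GLm) : Mx)ᵀ * Jm * ((g : GLm) : Mx)) *
          (h : Mx).map σ := e2
      _ = ((h : Mx).map σ)ᵀ * (μ • Jm) * (h : Mx).map σ := by rw [mat_multH, ← hμ]
      _ = μ • K.map σ := by rw [e1, Matrix.mul_smul, Matrix.smul_mul]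
  have hfix : ∀ a b, σ ((ν • K) a b) = (ν • K) a b := by
    intro a b
    have h1 : K a b = μ * σ (K a b) := by
      have := congrFun (congrFun hKσ a) b
      rw [Matrix.smul_apply, Matrix.map_apply, smul_eq_mul] at this
      exact this
    rw [Matrix.smul_apply, smul_eq_mul, map_mul, hσν]
    nth_rewrite 2 [h1]
    ring
  -- descend to the fixed field
  obtain ⟨K₀, hK₀⟩ : ∃ K₀ : Matrix (Fin m ⊕ Fin m) (Fin m ⊕ Fin m) (fixF σ),
      K₀.map (fixF σ).subtype = ν • K :=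
    ⟨fun a b => ⟨(ν • K) a b, (mem_fixF σ).mpr (hfix a b)⟩, rfl⟩
  have hKalt : ∀ X : V, X ⬝ᵥ (K *ᵥ X) = 0 := by
    intro X
    rw [hK, ← dot_congr]
    exact sympForm_self m _
  have halt : ∀ x : Fin m ⊕ Fin m → fixF σ, x ⬝ᵥ (K₀ *ᵥ x) = 0 := by
    intro x
    apply (fixF σ).subtype.injective
    rw [RingHom.map_dotProduct, map_zero]
    have h1 : (⇑(fixF σ).subtype ∘ (K₀ *ᵥ x)) =
        (K₀.map (fixF σ).subtype) *ᵥ (⇑(fixF σ).subtype ∘ x) := by
      ext a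
      exact RingHom.map_mulVec (fixF σ).subtype K₀ x a
    rw [h1, hK₀, Matrix.smul_mulVec, dotProduct_smul, hKalt, smul_zero]
  have hKdet : K.det ≠ 0 := by
    rw [hK, Matrix.det_mul, Matrix.det_mul, Matrix.det_transpose]
    have h1 : (h : Mx).det ≠ 0 := ((Matrix.isUnit_iff_isUnit_det _).mp h.isUnit).ne_zero
    exact mul_ne_zero (mul_ne_zero h1 (Matrix.isUnit_det_J (Fin m) F).ne_zero) h1
  have hdet : K₀.det ≠ 0 := by
    intro h0
    have h1 : (K₀.map (fixF σ).subtype).det = 0 := by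
      rw [← RingHom.mapMatrix_apply, ← RingHom.map_det, h0, map_zero]
    rw [hK₀, Matrix.det_smul] at h1
    exact (mul_ne_zero (pow_ne_zero _ hν0) hKdet) h1
  obtain ⟨P₀, hP₀⟩ := exists_darboux K₀ hdet halt
  obtain ⟨P, hP⟩ : ∃ P : GLm, P = Matrix.GeneralLinearGroup.map (fixF σ).subtype P₀ := ⟨_, rfl⟩
  have hPc : (P : Mx) = (P₀ : Matrix (Fin m ⊕ Fin m) (Fin m ⊕ Fin m) (fixF σ)).map
      (fixF σ).subtype := by
    rw [hP]
    rfl
  have hPσ : (P : Mx).map σ = (P : Mx) := by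
    ext a b
    rw [hPc]
    exact (mem_fixF σ).mp ((P₀ : Matrix (Fin m ⊕ Fin m) (Fin m ⊕ Fin m) (fixF σ)) a b).2
  have hPK : (P : Mx)ᵀ * (ν • K) * (P : Mx) = Jm := by
    have h1 := congrArg (fun M : Matrix (Fin m ⊕ Fin m) (Fin m ⊕ Fin m) (fixF σ) =>
      M.map (fixF σ).subtype) hP₀
    simp only [Matrix.map_mul, J_map_hom, hK₀] at h1
    rw [hPc, ← Matrix.transpose_map]
    exact h1
  have hmem : h * P ∈ Cfsg.GSp m F := by
    rw [mem_GSp_iff_mat]
    refine ⟨Units.mk0 ν⁻¹ (inv_ne_zero hν0), ?_⟩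
    have e : (P : Mx)ᵀ * (h : Mx)ᵀ * Jm * ((h : Mx) * (P : Mx)) = (P : Mx)ᵀ * K * (P : Mx) := by
      rw [hK]
      simp only [Matrix.mul_assoc]
    rw [Units.val_mul, Matrix.transpose_mul, Units.val_mk0, e]
    have e2 : (P : Mx)ᵀ * K * (P : Mx) = ν⁻¹ • ((P : Mx)ᵀ * (ν • K) * (P : Mx)) := by
      rw [Matrix.mul_smul, Matrix.smul_mul, smul_smul, inv_mul_cancel₀ hν0, one_smul]
    rw [e2, hPK]
  refine ⟨⟨h * P, hmem⟩, ?_⟩
  apply gsp_ext
  rw [Subgroup.coe_mul, Units.val_mul, gmapHom_coe]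
  show ((g : GLm) : Mx) * ((h * P : GLm) : Mx).map σ = ((h * P : GLm) : Mx)
  rw [Units.val_mul, Matrix.map_mul, hPσ, ← Matrix.mul_assoc, hh]

/-- A field-automorphism coset element of the same order as the field automorphism is
conjugate to it under the inner-diagonal group. -/
theorem conj_of_pow_eq_one [Finite F] [NeZero m] (hm : 2 ≤ m) (σ : RingAut F)
    (g : ↥(Cfsg.GSp m F)) (h : (cg g * fg σ : MulAut PSpm) ^ orderOf σ = 1) :
    ∃ k : ↥(Cfsg.GSp m F), (cg g * fg σ : MulAut PSpm) = cg k * fg σ * (cg k)⁻¹ := by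
  have := finite_ringAut F
  have hpos : 0 < orderOf σ := orderOf_pos σ
  rw [pow_cg_fg, pow_orderOf_eq_one, map_one, mul_one] at h
  obtain ⟨lam, hlam⟩ := exists_scG_of_cg_eq_one hm _ h
  -- `lam` is fixed by `σ`
  have hfix : Units.map ((σ : F →+* F) : F →* F) lam = lam := by
    have h1 := nrmS_succ' σ g (orderOf σ)
    rw [nrmS_succ, hlam, pow_orderOf_eq_one, gmapHom_one_aut, gmapHom_scG, ← scG_comm] at h1
    exact scG_injective (mul_right_cancel h1)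
  have hfix' : σ (lam : F) = lam := congrArg Units.val hfix
  obtain ⟨μ, hμ0, hμ⟩ := exists_norm_eq σ lam.ne_zero hfix'
  set c : Fˣ := (Units.mk0 μ hμ0)⁻¹ with hc
  have hcN : uN σ c (orderOf σ) = lam⁻¹ := by
    apply Units.ext
    rw [uN_coe, hc, Units.val_inv_eq_inv_val, Units.val_mk0, Units.val_inv_eq_inv_val, ← hμ,
      ← Finset.prod_inv_distrib]
    refine Finset.prod_congr rfl fun j _ => ?_
    rw [map_inv₀]
  set g' : ↥(Cfsg.GSp m F) := scG c * g with hg'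
  have hN : nrmS σ g' (orderOf σ) = 1 := by
    rw [hg', nrmS_scG_mul, hcN, hlam, ← map_mul, inv_mul_cancel, map_one]
  obtain ⟨k, hk⟩ := exists_gsp_fixed σ g' hN
  refine ⟨k, ?_⟩
  have hk' : g' = k * (gmapHom (σ : F →+* F) k)⁻¹ := by
    rw [eq_mul_inv_iff_mul_eq]
    exact hk
  have h1 : (cg g : MulAut PSpm) = cg g' := by
    rw [hg', map_mul, cg_scG, one_mul]
  have h2 := fg_cg (m := m) σ k
  rw [h1, hk', map_mul, map_inv, mul_assoc, mul_assoc]
  congr 1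
  rw [inv_mul_eq_iff_eq_mul, ← mul_assoc, ← h2, mul_assoc, mul_inv_cancel, mul_one]

/-- Elements of prime order `r` in the coset of a field automorphism of order `r` under the
inner-diagonal group are conjugate to it. -/
theorem coset_conj [Finite F] [NeZero m] (hm : 2 ≤ m) (x δ : MulAut PSpm)
    (hx : Cfsg.IsFieldAutClassPSp x) {r : ℕ} (hxr : orderOf x = r)
    (hδ : δ ∈ (cg : ↥(Cfsg.GSp m F) →* MulAut PSpm).range) (hord : orderOf (δ * x) = r) :
    ∃ k ∈ (cg : ↥(Cfsg.GSp m F) →* MulAut PSpm).range, δ * x = k * x * k⁻¹ := by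
  haveI hN := range_cg_normal (m := m) (F := F) hm
  obtain ⟨α, σ, hσ, hstd⟩ := hx
  rw [stdField_iff] at hstd
  apply conj_transport _ α
  obtain ⟨g, hg⟩ := hN.conj_mem δ hδ α
  rw [← hg, hstd]
  have ho : orderOf σ = r := by
    rw [← orderOf_injective fg (fg_injective hm) σ, ← hstd, orderOf_conj_aut, hxr]
  have hpow : (cg g * fg σ : MulAut PSpm) ^ orderOf σ = 1 := by
    have e1 : (cg g * fg σ : MulAut PSpm) = α * (δ * x) * α⁻¹ := by
      rw [hg, ← hstd]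
      group
    rw [e1, ho, ← hord, ← orderOf_conj_aut α (δ * x)]
    exact pow_orderOf_eq_one _
  obtain ⟨k, hk⟩ := conj_of_pow_eq_one hm σ g hpow
  exact ⟨cg k, ⟨k, rfl⟩, hk⟩

end Cfsg.Agent.Lib.Helper43.AutPSp
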