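import Mathlib
import Cfsg.Agent.Lib.Helper43.AutPSp.FieldCoset
import Cfsg.Agent.Lib.Helper43.FieldAut.Main

set_option autoImplicit false

/-!
# The centralizer of a field automorphism in the inner-diagonal group of `PSp_{2m}(q)`
-/

namespace Cfsg.Agent.Lib.Helper43.AutPSp

open Matrix Cfsg.Agent.Lib.Helper13 Cfsg.Agent.Lib.Helper43.FieldAut

variable {m : ℕ} {F : Type*} [Field F] {F₀ : Type*} [Field F₀]

local notation "V" => Fin m ⊕ Fin m → F
local notation "Mx" => Matrix (Fin m ⊕ Fin m) (Fin m ⊕ Fin m) F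
local notation "Mx₀" => Matrix (Fin m ⊕ Fin m) (Fin m ⊕ Fin m) F₀
local notation "PSpm" => Cfsg.PSp m F
local notation "B" => Cfsg.sympForm m F
local notation "GLm" => GL (Fin m ⊕ Fin m) F
local notation "Jm" => Matrix.J (Fin m) F

theorem gmapHom_fix (σ : RingAut F) (j : F₀ →+* F) (hj : IsFixEmb σ j) (k : ↥(Cfsg.GSp m F₀)) :
    gmapHom (σ : F →+* F) (gmapHom j k) = gmapHom j k := by
  apply gsp_ext
  ext a b
  exact (hj _).mpr ⟨_, rfl⟩

theorem exists_gmapHom_of_fixed [NeZero m] (σ : RingAut F) (j : F₀ →+* F) (hj : IsFixEmb σ j)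
    (g : ↥(Cfsg.GSp m F)) (h : gmapHom (σ : F →+* F) g = g) :
    ∃ k : ↥(Cfsg.GSp m F₀), gmapHom j k = g := by
  have hfix : ∀ a b, σ (((g : GLm) : Mx) a b) = ((g : GLm) : Mx) a b := fun a b => by
    have := congrArg (fun u : ↥(Cfsg.GSp m F) => ((u : GLm) : Mx) a b) h
    exact this
  choose M hM using fun a b => (hj _).mp (hfix a b)
  have h2 : (Matrix.of M).map j = ((g : GLm) : Mx) := by
    ext a b
    exact hM a b
  have hdet : (Matrix.of M).det ≠ 0 := by
    intro h0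
    have h1 : ((Matrix.of M).map j).det = 0 := by
      rw [← RingHom.mapMatrix_apply, ← RingHom.map_det, h0, map_zero]
    rw [h2] at h1
    exact ((Matrix.isUnit_iff_isUnit_det _).mp (g : GLm).isUnit).ne_zero h1
  -- the multiplier is fixed
  have hμ : σ ((multH g : Fˣ) : F) = ((multH g : Fˣ) : F) := by
    have h1 := multH_gmapHom (σ : F →+* F) g
    rw [h] at h1
    exact (congrArg Units.val h1).symm
  obtain ⟨c₀, hc₀⟩ := (hj _).mp hμ
  have hc₀0 : c₀ ≠ 0 := by
    rintro rfl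
    rw [map_zero] at hc₀
    exact (multH g).ne_zero hc₀.symm
  have hmem : Matrix.GeneralLinearGroup.mkOfDetNeZero (Matrix.of M) hdet ∈ Cfsg.GSp m F₀ := by
    rw [mem_GSp_iff_mat]
    refine ⟨Units.mk0 c₀ hc₀0, ?_⟩
    show (Matrix.of M)ᵀ * Matrix.J (Fin m) F₀ * Matrix.of M = c₀ • Matrix.J (Fin m) F₀
    apply Matrix.map_injective j.injective
    have hJ : ∀ a b, j (Matrix.J (Fin m) F₀ a b) = Matrix.J (Fin m) F a b := fun a b =>
      congrFun (congrFun (J_map_hom j) a) b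
    have e1 : ((Matrix.of M)ᵀ * Matrix.J (Fin m) F₀ * Matrix.of M).map j =
        ((g : GLm) : Mx)ᵀ * Jm * ((g : GLm) : Mx) := by
      rw [Matrix.map_mul, Matrix.map_mul, J_map_hom, Matrix.transpose_map, h2]
    show ((Matrix.of M)ᵀ * Matrix.J (Fin m) F₀ * Matrix.of M).map j =
      (c₀ • Matrix.J (Fin m) F₀).map j
    rw [e1, mat_multH, ← hc₀]
    ext a b
    rw [Matrix.map_apply, Matrix.smul_apply, Matrix.smul_apply, smul_eq_mul, smul_eq_mul, map_mul,
      hJ]
  refine ⟨⟨_, hmem⟩, ?_⟩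
  apply gsp_ext
  ext a b
  exact hM a b

/-- An inner-diagonal automorphism commuting with a field automorphism comes from a matrix over
the fixed field. -/
theorem cent_fg [Finite F] [NeZero m] (hm : 2 ≤ m) (σ : RingAut F) (j : F₀ →+* F)
    (hj : IsFixEmb σ j) (g : ↥(Cfsg.GSp m F))
    (h : (cg g : MulAut PSpm) * fg σ = fg σ * cg g) :
    ∃ k : ↥(Cfsg.GSp m F₀), (cg g : MulAut PSpm) = cg (gmapHom j k) := by
  have := finite_ringAut F
  have hpos : 0 < orderOf σ := orderOf_pos σ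
  rw [fg_cg] at h
  have h1 : (cg (g⁻¹ * gmapHom (σ : F →+* F) g) : MulAut PSpm) = 1 := by
    rw [map_mul, map_inv, ← mul_right_cancel h, inv_mul_cancel]
  obtain ⟨lam, hlam⟩ := exists_scG_of_cg_eq_one hm _ h1
  have hg : gmapHom (σ : F →+* F) g = scG lam * g := by
    rw [scG_comm, ← hlam, mul_inv_cancel_left]
  have hpow : ∀ i : ℕ, gmapHom ((σ ^ i : RingAut F) : F →+* F) g = scG (uN σ lam i) * g := by
    intro i
    induction i with
    | zero => rw [pow_zero, gmapHom_one_aut, uN_zero, map_one, one_mul]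
    | succ i ih =>
      rw [pow_succ', gmapHom_mul_aut, ih, map_mul, gmapHom_scG, hg, uN_succ, ← mul_assoc,
        ← map_mul, mul_comm]
      rfl
  have hN : uN σ lam (orderOf σ) = 1 := by
    have h2 := hpow (orderOf σ)
    rw [pow_orderOf_eq_one, gmapHom_one_aut] at h2
    have h3 : (scG (uN σ lam (orderOf σ)) : ↥(Cfsg.GSp m F)) = 1 :=
      (mul_eq_right (b := g)).mp h2.symm
    exact scG_injective (h3.trans (map_one _).symm)
  have hN' : ∏ i ∈ Finset.range (orderOf σ), (σ ^ i) (lam : F) = 1 := by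
    rw [← uN_coe, hN, Units.val_one]
  obtain ⟨μ, hμ0, hμ⟩ := exists_scalar_of_norm_one σ (orderOf σ) rfl hpos (lam : F) hN'
  set c : Fˣ := Units.mk0 μ hμ0 with hc
  have hcl : Units.map ((σ : F →+* F) : F →* F) c * lam = c := by
    apply Units.ext
    rw [Units.val_mul, Units.coe_map, hc, Units.val_mk0, mul_comm]
    exact hμ
  set g' : ↥(Cfsg.GSp m F) := scG c * g with hg'
  have hfix : gmapHom (σ : F →+* F) g' = g' := by
    rw [hg', map_mul, gmapHom_scG, hg, ← mul_assoc, ← map_mul, hcl]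
  obtain ⟨k, hk⟩ := exists_gmapHom_of_fixed σ j hj g' hfix
  refine ⟨k, ?_⟩
  rw [hk, hg', map_mul, cg_scG, one_mul]

/-- The embedding of `GSp_{2m}(F₀)` into `Aut PSp_{2m}(F)`. -/
noncomputable def thetaS (j : F₀ →+* F) : ↥(Cfsg.GSp m F₀) →* MulAut (Cfsg.PSp m F) :=
  (cg : ↥(Cfsg.GSp m F) →* MulAut (Cfsg.PSp m F)).comp (gmapHom j)

theorem thetaS_apply (j : F₀ →+* F) (k : ↥(Cfsg.GSp m F₀)) :
    (thetaS j k : MulAut PSpm) = cg (gmapHom j k) := rfl

theorem scG_coe (c : Fˣ) :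
    (((scG c : ↥(Cfsg.GSp m F)) : GLm) : Mx) = (c : F) • (1 : Mx) := by
  rw [scG_val, Matrix.GeneralLinearGroup.coe_scalar, Matrix.scalar_apply,
    Matrix.smul_one_eq_diagonal]

theorem thetaS_ker [NeZero m] (hm : 2 ≤ m) (j : F₀ →+* F) :
    (thetaS j : ↥(Cfsg.GSp m F₀) →* MulAut PSpm).ker =
      (Cfsg.Geo.scalars (Fin m ⊕ Fin m) F₀).subgroupOf (Cfsg.GSp m F₀) := by
  ext k
  rw [MonoidHom.mem_ker, thetaS_apply, Subgroup.mem_subgroupOf, Cfsg.Geo.mem_scalars_iff]
  constructor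
  · intro h
    obtain ⟨c, hc⟩ := exists_scG_of_cg_eq_one hm _ h
    have hent : ∀ a b, j (((k : GL (Fin m ⊕ Fin m) F₀) : Mx₀) a b) = if a = b then (c : F) else 0 := by
      intro a b
      have h1 := congrArg (fun u : ↥(Cfsg.GSp m F) => ((u : GLm) : Mx) a b) hc
      simp only [scG_coe, gmapHom_coe, Matrix.map_apply, Matrix.smul_apply, Matrix.one_apply,
        smul_eq_mul, mul_ite, mul_one, mul_zero] at h1
      exact h1
    obtain ⟨c₀, hc₀⟩ : ∃ c₀ : F₀, c₀ = ((k : GL (Fin m ⊕ Fin m) F₀) : Mx₀) (Sum.inl 0) (Sum.inl 0) :=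
      ⟨_, rfl⟩
    have hjc : j c₀ = c := by rw [hc₀, hent, if_pos rfl]
    have hc₀0 : c₀ ≠ 0 := by
      rintro rfl
      rw [map_zero] at hjc
      exact c.ne_zero hjc.symm
    refine ⟨Units.mk0 c₀ hc₀0, ?_⟩
    ext a b
    rw [Units.val_mk0, Matrix.smul_apply, Matrix.one_apply, smul_eq_mul, mul_ite, mul_one, mul_zero]
    apply j.injective
    rw [hent a b]
    by_cases hab : a = b
    · rw [if_pos hab, if_pos hab, hjc]
    · rw [if_neg hab, if_neg hab, map_zero]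
  · rintro ⟨c₀, hc₀⟩
    have e : gmapHom j k = scG (Units.map (j : F₀ →* F) c₀) := by
      apply gsp_ext
      rw [gmapHom_coe, hc₀, scG_coe]
      ext a b
      simp only [Matrix.map_apply, Matrix.smul_apply, Matrix.one_apply, smul_eq_mul, mul_ite,
        mul_one, mul_zero, Units.coe_map, MonoidHom.coe_coe]
      split_ifs <;> simp
    rw [e, cg_scG]

/-- The centralizer of the standard field automorphism in the inner-diagonal group. -/
theorem inf_centralizer_fg [Finite F] [NeZero m] (hm : 2 ≤ m) (σ : RingAut F) (j : F₀ →+* F)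
    (hj : IsFixEmb σ j) :
    (cg : ↥(Cfsg.GSp m F) →* MulAut PSpm).range ⊓ Subgroup.centralizer {(fg σ : MulAut PSpm)} =
      (thetaS j : ↥(Cfsg.GSp m F₀) →* MulAut PSpm).range := by
  ext y
  rw [Subgroup.mem_inf, Subgroup.mem_centralizer_iff]
  constructor
  · rintro ⟨⟨g, rfl⟩, hc⟩
    have h1 := hc (fg σ) rfl
    obtain ⟨k, hk⟩ := cent_fg hm σ j hj g h1.symm
    exact ⟨k, hk.symm⟩
  · rintro ⟨k, rfl⟩
    refine ⟨⟨_, rfl⟩, ?_⟩
    intro z hz
    rw [Set.mem_singleton_iff] at hz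
    subst hz
    rw [thetaS_apply, fg_cg, gmapHom_fix σ j hj]

/-- The centralizer of a field automorphism in the inner-diagonal group is `PGSp_{2m}` of the
fixed field. -/
theorem centralizer_equiv [Finite F] [NeZero m] (hm : 2 ≤ m) (σ : RingAut F) (j : F₀ →+* F)
    (hj : IsFixEmb σ j) (hN : ((cg : ↥(Cfsg.GSp m F) →* MulAut PSpm).range).Normal)
    (a : MulAut PSpm) :
    Nonempty (↥((cg : ↥(Cfsg.GSp m F) →* MulAut PSpm).range ⊓
      Subgroup.centralizer {a * (fg σ : MulAut PSpm) * a⁻¹}) ≃* Cfsg.PGSp m F₀) := by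
  have := hN
  rw [inf_centralizer_conj, inf_centralizer_fg hm σ j hj]
  have e1 : ↥(Cfsg.GSp m F₀) ⧸ (thetaS j : ↥(Cfsg.GSp m F₀) →* MulAut PSpm).ker ≃*
      Cfsg.PGSp m F₀ :=
    QuotientGroup.quotientMulEquivOfEq (thetaS_ker hm j)
  have e2 := QuotientGroup.quotientKerEquivRange (thetaS j : ↥(Cfsg.GSp m F₀) →* MulAut PSpm)
  have e3 := (MulAut.conj a).subgroupMap (thetaS j : ↥(Cfsg.GSp m F₀) →* MulAut PSpm).range
  exact ⟨(e3.symm.trans e2.symm).trans e1⟩

end Cfsg.Agent.Lib.Helper43.AutPSp
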