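import Mathlib
import Cfsg.Agent.Lib.Helper43.AutPSp.FieldCent

set_option autoImplicit false

/-!
# Class splitting for field automorphisms of `PSp_{2m}(q)`
-/

namespace Cfsg.Agent.Lib.Helper43.AutPSp

open Matrix Cfsg.Agent.Lib.Helper13 Cfsg.Agent.Lib.Helper43.FieldAut

open scoped Pointwise

variable {m : ℕ} {F : Type*} [Field F] {F₀ : Type*} [Field F₀]

local notation "V" => Fin m ⊕ Fin m → F
local notation "Mx" => Matrix (Fin m ⊕ Fin m) (Fin m ⊕ Fin m) F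
local notation "PSpm" => Cfsg.PSp m F
local notation "B" => Cfsg.sympForm m F
local notation "GLm" => GL (Fin m ⊕ Fin m) F

/-! ### A matrix of prescribed multiplier -/

/-- The diagonal matrix `diag(c, …, c, 1, …, 1)`. -/
def dMat (c : F) : Matrix (Fin m ⊕ Fin m) (Fin m ⊕ Fin m) F :=
  Matrix.diagonal (Sum.elim (fun _ => c) (fun _ => 1))

theorem dMat_mul (c d : F) : (dMat c : Mx) * dMat d = dMat (c * d) := by
  unfold dMat
  rw [Matrix.diagonal_mul_diagonal]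
  congr 1
  ext (i | i) <;> simp

theorem dMat_one : (dMat (1 : F) : Mx) = 1 := by
  unfold dMat
  rw [← Matrix.diagonal_one]
  congr 1
  ext (i | i) <;> simp

theorem dMat_mulVec_inl (c : F) (v : V) (i : Fin m) :
    ((dMat c : Mx) *ᵥ v) (Sum.inl i) = c * v (Sum.inl i) := by
  unfold dMat
  rw [Matrix.mulVec_diagonal]
  rfl

theorem dMat_mulVec_inr (c : F) (v : V) (i : Fin m) :
    ((dMat c : Mx) *ᵥ v) (Sum.inr i) = v (Sum.inr i) := by
  unfold dMat
  rw [Matrix.mulVec_diagonal]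
  exact one_mul _

theorem B_dMat (c : F) (u v : V) : B ((dMat c : Mx) *ᵥ u) ((dMat c : Mx) *ᵥ v) = c * B u v := by
  rw [sympForm_eq, sympForm_eq, Finset.mul_sum]
  refine Finset.sum_congr rfl fun i _ => ?_
  rw [dMat_mulVec_inl, dMat_mulVec_inl, dMat_mulVec_inr, dMat_mulVec_inr]
  ring

/-- A conformal symplectic matrix of multiplier `c`. -/
def dG (c : Fˣ) : ↥(Cfsg.GSp m F) :=
  ⟨⟨dMat (c : F), dMat ((c⁻¹ : Fˣ) : F), by
      rw [dMat_mul, ← Units.val_mul, mul_inv_cancel, Units.val_one, dMat_one], by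
      rw [dMat_mul, ← Units.val_mul, inv_mul_cancel, Units.val_one, dMat_one]⟩,
    ⟨c, fun u v => B_dMat (c : F) u v⟩⟩

theorem multH_dG [NeZero m] (c : Fˣ) : multH (dG c : ↥(Cfsg.GSp m F)) = c := by
  apply Units.ext
  show mult ((dG c : ↥(Cfsg.GSp m F)) : GLm) = c
  unfold mult
  show B ((dMat (c : F) : Mx) *ᵥ f0) ((dMat (c : F) : Mx) *ᵥ e0) = c
  rw [B_dMat, B_f0_e0, mul_one]

theorem multH_surjective [NeZero m] :
    Function.Surjective (multH : ↥(Cfsg.GSp m F) →* Fˣ) := fun c => ⟨dG c, multH_dG c⟩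

/-! ### The index computation -/

theorem comap_sup_eq [NeZero m] (hm : 2 ≤ m) (j : F₀ →+* F) :
    (Cfsg.Inn PSpm ⊔ (thetaS j : ↥(Cfsg.GSp m F₀) →* MulAut PSpm).range).comap
        (cg : ↥(Cfsg.GSp m F) →* MulAut PSpm) =
      ((powMonoidHom 2 : Fˣ →* Fˣ).range ⊔ (Units.map (j : F₀ →* F)).range).comap
        (multH : ↥(Cfsg.GSp m F) →* Fˣ) := by
  ext g
  rw [Subgroup.mem_comap, Subgroup.mem_comap]
  constructor
  · intro hmem
    have hmem' : (cg g : MulAut PSpm) ∈ ((Cfsg.Inn PSpm : Subgroup (MulAut PSpm)) :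
        Set (MulAut PSpm)) * (((thetaS j : ↥(Cfsg.GSp m F₀) →* MulAut PSpm).range :
          Subgroup (MulAut PSpm)) : Set (MulAut PSpm)) := by
      rw [← Subgroup.normal_mul]
      exact hmem
    obtain ⟨_, ⟨y, rfl⟩, _, ⟨k, rfl⟩, e⟩ := hmem'
    obtain ⟨s, rfl⟩ := pm_surjective y
    have e1 : (MulAut.conj (pm s) : MulAut PSpm) = cg (toGSp s) := (cg_toGSp s).symm
    have e : (MulAut.conj (pm s) : MulAut PSpm) * thetaS j k = cg g := e
    rw [e1, thetaS_apply, ← map_mul] at e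
    have h1 : (cg (g⁻¹ * (toGSp s * gmapHom j k)) : MulAut PSpm) = 1 := by
      rw [map_mul cg, e, map_inv, inv_mul_cancel]
    obtain ⟨c, hc⟩ := exists_scG_of_cg_eq_one hm _ h1
    have h2 : toGSp s * gmapHom j k = g * scG c := by
      rw [← hc, mul_inv_cancel_left]
    have h3 := congrArg (multH : ↥(Cfsg.GSp m F) →* Fˣ) h2
    rw [map_mul, map_mul, multH_scG, multH_toGSp, one_mul, multH_gmapHom] at h3
    rw [Subgroup.mem_sup]
    refine ⟨(c⁻¹) ^ 2, ⟨c⁻¹, rfl⟩, _, ⟨multH k, rfl⟩, ?_⟩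
    rw [h3, inv_pow, pow_two, mul_comm, mul_assoc, mul_inv_cancel, mul_one]
  · intro hmem
    rw [Subgroup.mem_sup] at hmem
    obtain ⟨_, ⟨a, rfl⟩, _, ⟨b, rfl⟩, e⟩ := hmem
    have e' : a ^ 2 * Units.map (j : F₀ →* F) b = multH g := e
    set d : ↥(Cfsg.GSp m F₀) := dG b with hd
    set g₁ : ↥(Cfsg.GSp m F) := g * (scG a)⁻¹ * (gmapHom j d)⁻¹ with hg₁
    have hmult : multH g₁ = 1 := by
      rw [hg₁, map_mul, map_mul, map_inv, map_inv, multH_scG, multH_gmapHom, hd, multH_dG, ← e',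
        pow_two]
      rw [mul_comm (a * a), mul_inv_cancel_right, mul_inv_cancel]
    obtain ⟨s₁, hs₁⟩ := exists_toGSp_of_multH g₁ hmult
    have hg : g = g₁ * gmapHom j d * scG a := by
      rw [hg₁]
      group
    have hcg : (cg g₁ : MulAut PSpm) = MulAut.conj (pm s₁) := by
      rw [← hs₁]
      exact cg_toGSp s₁
    rw [hg, map_mul, map_mul, cg_scG, mul_one, hcg]
    exact Subgroup.mul_mem_sup ⟨_, rfl⟩ ⟨d, rfl⟩

theorem relIndex_eq [NeZero m] (hm : 2 ≤ m) (j : F₀ →+* F) :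
    (Cfsg.Inn PSpm ⊔ (thetaS j : ↥(Cfsg.GSp m F₀) →* MulAut PSpm).range).relIndex
        (cg : ↥(Cfsg.GSp m F) →* MulAut PSpm).range =
      ((powMonoidHom 2 : Fˣ →* Fˣ).range ⊔ (Units.map (j : F₀ →* F)).range).index := by
  rw [← Subgroup.index_comap, comap_sup_eq hm j,
    Subgroup.index_comap_of_surjective _ multH_surjective]

/-- The class of a field automorphism under the inner-diagonal group splits into
`gcd(2, (q-1)/(q₀-1))` classes under the inner group. -/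
theorem splitCount_field [Finite F] [NeZero m] (hm : 2 ≤ m) (σ : RingAut F)
    (hN : ((cg : ↥(Cfsg.GSp m F) →* MulAut PSpm).range).Normal) (a : MulAut PSpm) :
    Cfsg.splitClassCount (cg : ↥(Cfsg.GSp m F) →* MulAut PSpm).range (Cfsg.Inn PSpm)
        (a * (fg σ : MulAut PSpm) * a⁻¹) =
      Nat.gcd 2 ((Nat.card F - 1) / (Nat.card (fixF σ) - 1)) := by
  have := hN
  have hj : IsFixEmb σ (fixF σ).subtype := by
    intro b
    rw [← mem_fixF]
    constructor
    · intro hb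
      exact ⟨⟨b, hb⟩, rfl⟩
    · rintro ⟨c, rfl⟩
      exact c.2
  rw [splitClassCount_eq _ _ inn_le_range_cg, inf_centralizer_conj,
    inf_centralizer_fg hm σ _ hj]
  conv_lhs =>
    rw [← normal_map_conj (Cfsg.Inn PSpm) a, ← Subgroup.map_sup]
  conv_lhs =>
    arg 2
    rw [← normal_map_conj (cg : ↥(Cfsg.GSp m F) →* MulAut PSpm).range a]
  rw [Subgroup.relIndex_map_map_of_injective _ _ (MulAut.conj a).injective, relIndex_eq hm,
    index_sup_eq σ _ hj]

/-! ### Arithmetic -/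

theorem geom_parity {q : ℕ} (hq : q % 2 = 1) (n : ℕ) :
    (∑ i ∈ Finset.range n, q ^ i) % 2 = n % 2 := by
  induction n with
  | zero => simp
  | succ n ih =>
    rw [Finset.sum_range_succ, Nat.add_mod, ih]
    have h1 : q ^ n % 2 = 1 := by rw [Nat.pow_mod, hq, one_pow]; rfl
    rw [h1]
    omega

theorem geom_even {q : ℕ} (hq : q % 2 = 0) (n : ℕ) (hn : 0 < n) :
    (∑ i ∈ Finset.range n, q ^ i) % 2 = 1 := by
  obtain ⟨n', rfl⟩ : ∃ n', n = n' + 1 := ⟨n - 1, by omega⟩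
  rw [Finset.sum_range_succ', pow_zero]
  have h3 : 2 ∣ ∑ k ∈ Finset.range n', q ^ (k + 1) :=
    Finset.dvd_sum fun k _ => dvd_trans (Nat.dvd_of_mod_eq_zero hq) (dvd_pow_self q (by omega))
  omega

theorem gcd_two_quot {p f r : ℕ} (hp : p.Prime) (hr : r.Prime) (hdiv : r ∣ f) (hf : 1 ≤ f) :
    Nat.gcd 2 ((p ^ f - 1) / (p ^ (f / r) - 1)) = Nat.gcd (Nat.gcd 2 (p ^ f - 1)) r := by
  obtain ⟨a, rfl⟩ := hdiv
  have ha : 1 ≤ a := by
    rcases Nat.eq_zero_or_pos a with h | h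
    · subst h
      omega
    · exact h
  rw [Nat.mul_div_cancel_left a hr.pos]
  have hq : 2 ≤ p ^ a := le_trans hp.two_le (Nat.le_self_pow (by omega) p)
  have hgeom : (p ^ (r * a) - 1) / (p ^ a - 1) = ∑ i ∈ Finset.range r, (p ^ a) ^ i := by
    rw [Nat.geomSum_eq hq, ← pow_mul, mul_comm a r]
  rw [hgeom]
  have hpos : 0 < p ^ (r * a) := pow_pos hp.pos _
  have hra : r * a ≠ 0 := by
    have := Nat.mul_pos hr.pos ha
    omega
  rcases Nat.mod_two_eq_zero_or_one p with h0 | h1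
  · have hq0 : p ^ a % 2 = 0 := by
      rw [Nat.pow_mod, h0, zero_pow (by omega)]; rfl
    have hS := geom_even hq0 r hr.pos
    have hq0' : p ^ (r * a) % 2 = 0 := by
      rw [Nat.pow_mod, h0, zero_pow hra]; rfl
    have hL : Nat.gcd 2 (∑ i ∈ Finset.range r, (p ^ a) ^ i) = 1 :=
      (Nat.Prime.coprime_iff_not_dvd Nat.prime_two).mpr (by omega)
    have hR : Nat.gcd 2 (p ^ (r * a) - 1) = 1 :=
      (Nat.Prime.coprime_iff_not_dvd Nat.prime_two).mpr (by omega)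
    rw [hL, hR, Nat.gcd_one_left]
  · have hq1 : p ^ a % 2 = 1 := by
      rw [Nat.pow_mod, h1, one_pow]; rfl
    have hS : (∑ i ∈ Finset.range r, (p ^ a) ^ i) ≡ r [MOD 2] := geom_parity hq1 r
    have hq1' : p ^ (r * a) % 2 = 1 := by
      rw [Nat.pow_mod, h1, one_pow]; rfl
    have hR : Nat.gcd 2 (p ^ (r * a) - 1) = 2 := Nat.gcd_eq_left (by omega)
    rw [hR, Nat.gcd_comm 2 _, Nat.gcd_comm 2 r]
    exact hS.gcd_eq

/-! ### The main statement -/

theorem field_aut_main [Fintype F] [NeZero m] {p f : ℕ} [Fact p.Prime] (hf : 1 ≤ f)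
    (hF : Fintype.card F = p ^ f) (hm : 2 ≤ m) (x : MulAut PSpm)
    (hx : Cfsg.IsFieldAutClassPSp x) {r : ℕ} (hr : r.Prime) (hxr : orderOf x = r)
    (F₁ : Type*) [Field F₁] [Fintype F₁] (hF₁ : Fintype.card F₁ = p ^ (f / r)) :
    r ∣ f ∧
      Nonempty (↥((cg : ↥(Cfsg.GSp m F) →* MulAut PSpm).range ⊓ Subgroup.centralizer {x}) ≃*
        Cfsg.PGSp m F₁) ∧
      Cfsg.splitClassCount (cg : ↥(Cfsg.GSp m F) →* MulAut PSpm).range (Cfsg.Inn PSpm) x =
        Nat.gcd (Nat.gcd 2 (p ^ f - 1)) r := by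
  obtain ⟨α, σ, hσ, hstd⟩ := hx
  rw [stdField_iff] at hstd
  have hx' : x = α⁻¹ * fg σ * α⁻¹⁻¹ := by
    rw [← hstd]
    group
  have ho : orderOf σ = r := by
    rw [← orderOf_injective fg (fg_injective hm) σ, ← hstd, orderOf_conj_aut, hxr]
  obtain ⟨hdiv, hc0⟩ := card_fixF_eq hF σ hr.pos ho
  have hN := range_cg_normal (m := m) (F := F) hm
  refine ⟨hdiv, ?_, ?_⟩
  · haveI : Fintype (fixF σ) := Fintype.ofFinite _
    have ι : F₁ ≃+* fixF σ := FiniteField.ringEquivOfCardEq (by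
      rw [hF₁, ← hc0, Nat.card_eq_fintype_card])
    have hj : IsFixEmb σ ((fixF σ).subtype.comp (ι : F₁ →+* fixF σ)) := by
      intro b
      rw [← mem_fixF]
      constructor
      · intro hb
        exact ⟨ι.symm ⟨b, hb⟩, by simp⟩
      · rintro ⟨c, rfl⟩
        exact (ι c).2
    rw [hx']
    exact centralizer_equiv hm σ _ hj hN α⁻¹
  · rw [hx', splitCount_field hm σ hN α⁻¹, hc0, Nat.card_eq_fintype_card, hF]
    exact gcd_two_quot Fact.out hr hdiv hf

end Cfsg.Agent.Lib.Helper43.AutPSp
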